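import Mathlib
import Cfsg.Agent.Lib.SmallOrd.InvolTools
import Cfsg.Agent.S0991
import Cfsg.Agent.S1010

/-!
# A simple group of order 2520 without a subgroup of index 7: the odd Sylow subgroups
-/

set_option autoImplicit false
set_option linter.style.haveILetI false
set_option linter.unusedVariables false
set_option linter.unusedSectionVars false
set_option linter.unusedSimpArgs false

namespace Cfsg.Agent.Lib.A7Rec

open Subgroup Cfsg.Agent.Lib.SmallCen.SmallOrder Cfsg.Agent.Lib.SmallOrd
open Cfsg.Agent.Lib.Basic.SmallSimple Cfsg.Agent.Lib.SmallOrd.ClassSign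
open Cfsg.Agent.Lib.SmallOrd.InvolTools

/-- The running hypothesis: order 2520 and no subgroup of index 7. -/
structure Ctx (G : Type*) [Group G] : Prop where
  card : Nat.card G = 2520
  no7 : ∀ H : Subgroup G, H.index ≠ 7

variable {G : Type*} [Group G] [Finite G] [IsSimpleGroup G]

omit [Finite G] [IsSimpleGroup G] in
theorem not_prime_card (hc : Ctx G) : ¬ (Nat.card G).Prime := by
  rw [hc.card]
  norm_num

/-- A proper subgroup has index at least `8`. -/
theorem index_ge (hc : Ctx G) (H : Subgroup G) (hH : H ≠ ⊤) : 8 ≤ H.index := by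
  classical
  have hG : ¬ IsMulCommutative G := by
    intro hc'
    letI : CommGroup G := { (inferInstance : Group G) with mul_comm := hc'.is_comm.comm }
    exact not_prime_card hc IsSimpleGroup.prime_card
  obtain ⟨f, hf⟩ := Cfsg.Agent.S0991.result hG H hH
  have h1 := Nat.card_le_card_of_injective f hf
  by_contra hlt
  push_neg at hlt
  have h7 := hc.no7 H
  have h0 : H.index ≠ 0 := Subgroup.index_ne_zero_of_finite
  have h11 : H.index ≠ 1 := by
    intro h1'
    exact hH (Subgroup.index_eq_one.1 h1')
  haveI : Nontrivial (Fin H.index) := Fin.nontrivial_iff_two_le.2 (by omega)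
  have h2 := two_mul_nat_card_alternatingGroup (α := Fin H.index)
  rw [Nat.card_eq_fintype_card (α := Equiv.Perm (Fin H.index)), Fintype.card_perm, Fintype.card_fin] at h2
  have h3 : H.index.factorial ≤ Nat.factorial 6 := Nat.factorial_le (by omega)
  norm_num [Nat.factorial] at h3
  rw [hc.card] at h1
  omega

theorem card_le (hc : Ctx G) (H : Subgroup G) (hH : H ≠ ⊤) : Nat.card H ≤ 315 := by
  have h1 := index_ge hc H hH
  have h2 := Subgroup.card_mul_index H
  rw [hc.card] at h2
  by_contra hcon
  push_neg at hcon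
  have : 316 * 8 ≤ Nat.card H * H.index := Nat.mul_le_mul hcon h1
  omega

theorem card_mul (hc : Ctx G) (H : Subgroup G) : Nat.card H * H.index = 2520 := by
  rw [Subgroup.card_mul_index, hc.card]

/-- A proper nontrivial subgroup is not normal. -/
theorem normalizer_ne_top (H : Subgroup G) (h1 : H ≠ ⊥) (h2 : H ≠ ⊤) :
    normalizer (H : Set G) ≠ ⊤ := by
  intro h
  haveI : H.Normal := Subgroup.normalizer_eq_top_iff.mp h
  rcases (inferInstance : H.Normal).eq_bot_or_eq_top with h3 | h3
  · exact h1 h3
  · exact h2 h3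

theorem centralizer_ne_top' (hc : Ctx G) (x : G) (hx : x ≠ 1) : centralizer ({x} : Set G) ≠ ⊤ :=
  centralizer_ne_top (not_prime_card hc) x hx

theorem card_centralizer_le (hc : Ctx G) (x : G) (hx : x ≠ 1) :
    Nat.card (centralizer ({x} : Set G)) ≤ 315 :=
  card_le hc _ (centralizer_ne_top' hc x hx)

/-- Sylow data for a Sylow subgroup of prime order. -/
theorem sylow_data (hc : Ctx G) {p : ℕ} [Fact p.Prime] (m : ℕ) (hm : 2520 = p * m) (hpm : ¬ p ∣ m)
    (P : Sylow p G) :
    Nat.card (P : Subgroup G) = p ∧ ∃ x ∈ (P : Subgroup G), orderOf x = p ∧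
      ∃ e, e ∣ p - 1 ∧ e ≠ 1 ∧
        Nat.card (normalizer ((P : Subgroup G) : Set G)) = Nat.card (centralizer ({x} : Set G)) * e ∧
        Nat.card (normalizer ((P : Subgroup G) : Set G)) * Nat.card (Sylow p G) = 2520 ∧
        Nat.card (Sylow p G) ∣ m ∧ Nat.card (Sylow p G) % p = 1 ∧
        normalizer ((P : Subgroup G) : Set G) ≠ ⊤ := by
  have hpp : p.Prime := Fact.out
  have hcard : Nat.card (P : Subgroup G) = p := by
    have := card_sylow_eq (p := p) (a := 1) (m := m) (by rw [hc.card, hm, pow_one]) hpm P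
    simpa using this
  have hgen : ∃ x ∈ (P : Subgroup G), orderOf x = p := by
    haveI : Nontrivial (P : Subgroup G) := by
      apply Finite.one_lt_card_iff_nontrivial.1
      rw [hcard]
      exact hpp.one_lt
    obtain ⟨y, hy⟩ := exists_ne (1 : (P : Subgroup G))
    refine ⟨y, y.2, ?_⟩
    have h1 : orderOf y ∣ p := by
      have := orderOf_dvd_natCard y
      rwa [hcard] at this
    rw [Subgroup.orderOf_coe]
    rcases (Nat.dvd_prime hpp).1 h1 with h2 | h2
    · exact absurd (orderOf_eq_one_iff.1 h2) hy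
    · exact h2
  obtain ⟨x, hxP, hx⟩ := hgen
  refine ⟨hcard, x, hxP, hx, ?_⟩
  have hzx : zpowers x = (P : Subgroup G) := by
    apply Subgroup.eq_of_le_of_card_ge
    · exact (Subgroup.zpowers_le).2 hxP
    · rw [Nat.card_zpowers, hx, hcard]
  have hCeq : centralizer ((P : Subgroup G) : Set G) = centralizer ({x} : Set G) := by
    apply le_antisymm
    · exact Subgroup.centralizer_le (Set.singleton_subset_iff.2 hxP)
    · intro c hc
      rw [Subgroup.mem_centralizer_singleton_iff] at hc
      rw [Subgroup.mem_centralizer_iff]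
      intro y hy
      rw [SetLike.mem_coe, ← hzx, Subgroup.mem_zpowers_iff] at hy
      obtain ⟨k, rfl⟩ := hy
      exact (Commute.zpow_right (show Commute c x from hc) k).eq.symm
  obtain ⟨e, he, hN⟩ := exists_card_normalizer_eq hpp (P : Subgroup G) hcard
  rw [hCeq] at hN
  have hne1 : e ≠ 1 := by
    rintro rfl
    rw [mul_one] at hN
    have hle : normalizer ((P : Subgroup G) : Set G) ≤ centralizer ((P : Subgroup G) : Set G) := by
      have hle' : centralizer ((P : Subgroup G) : Set G) ≤ normalizer ((P : Subgroup G) : Set G) :=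
        Subgroup.centralizer_le_normalizer _
      have : centralizer ((P : Subgroup G) : Set G) = normalizer ((P : Subgroup G) : Set G) := by
        apply Subgroup.eq_of_le_of_card_ge hle'
        rw [hN, hCeq]
      rw [this]
    have hdvd : p ∣ Nat.card G := by
      rw [hc.card, hm]
      exact dvd_mul_right _ _
    have := card_eq_of_le_centralizer hdvd P hle
    rw [hcard, hc.card] at this
    rw [hm] at this
    have hm1 : m = 1 := by
      have h2 : p * m = p * 1 := by rw [mul_one]; exact this
      exact Nat.eq_of_mul_eq_mul_left hpp.pos h2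
    rw [hm1, mul_one] at this
    rw [hm1, mul_one] at hm
    subst hm
    norm_num at hpp
  refine ⟨e, he, hne1, hN, ?_, ?_, ?_, ?_⟩
  · have := card_normalizer_mul P
    rwa [hc.card] at this
  · have h2 := P.card_dvd_index
    have h3 : (P : Subgroup G).index = m := by
      have h4 := Subgroup.card_mul_index (P : Subgroup G)
      rw [hcard, hc.card, hm] at h4
      exact Nat.eq_of_mul_eq_mul_left hpp.pos h4
    rwa [h3] at h2
  · have h1 : Nat.card (Sylow p G) % p = 1 % p := card_sylow_modEq_one p G
    rwa [Nat.mod_eq_of_lt hpp.one_lt] at h1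
  · apply normalizer_ne_top
    · intro h0
      rw [h0, Subgroup.card_bot] at hcard
      exact hpp.one_lt.ne hcard
    · intro h0
      rw [h0, Subgroup.card_top, hc.card] at hcard
      rw [← hcard] at hpp
      norm_num at hpp

/-- Every element of prime order `p` is in a Sylow subgroup. -/
theorem exists_sylow_mem {p : ℕ} [Fact p.Prime] (y : G) (hy : orderOf y = p) :
    ∃ P : Sylow p G, y ∈ (P : Subgroup G) := by
  have hQ : IsPGroup p (zpowers y) :=
    IsPGroup.of_card (n := 1) (by rw [Nat.card_zpowers, hy, pow_one])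
  obtain ⟨Q, hQ'⟩ := hQ.exists_le_sylow
  exact ⟨Q, hQ' (mem_zpowers y)⟩

/-- The generator of a Sylow subgroup `P` of prime order generates `P`. -/
theorem zpowers_eq {p : ℕ} [Fact p.Prime] (P : Subgroup G) (hP : Nat.card P = p) (x : G) (hxP : x ∈ P)
    (hx : orderOf x = p) : zpowers x = P := by
  apply Subgroup.eq_of_le_of_card_ge
  · exact (Subgroup.zpowers_le).2 hxP
  · rw [Nat.card_zpowers, hx, hP]

omit [Finite G] [IsSimpleGroup G] in
/-- The centralizer of a generator contains the power of it. -/
theorem pow_mem_centralizer {x c : G} (h : c * x = x * c) (k : ℕ) : c * x ^ k = x ^ k * c :=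
  (Commute.pow_right (show Commute c x from h) k).eq

omit [Finite G] [IsSimpleGroup G] in
/-- A power map squaring to the identity on a group of prime order `p` is `±1`. -/
theorem conj_eq_or_inv_of_involution {p : ℕ} (hp : p.Prime) (y τ : G) (hy : orderOf y = p)
    (hτ : τ * τ = 1) (hk : ∃ k : ℕ, τ * y * τ⁻¹ = y ^ k) : τ * y = y * τ ∨ τ * y * τ⁻¹ = y⁻¹ := by
  obtain ⟨k, hk⟩ := hk
  have hτi : τ⁻¹ = τ := inv_eq_of_mul_eq_one_left hτ
  have h1 : y ^ (k * k) = y := by
    have h2 : τ * y ^ k * τ⁻¹ = (τ * y * τ⁻¹) ^ k := (conj_pow).symm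
    have h3 : τ * (τ * y * τ⁻¹) * τ⁻¹ = y := by
      calc τ * (τ * y * τ⁻¹) * τ⁻¹ = (τ * τ) * y * (τ⁻¹ * τ⁻¹) := by group
        _ = y := by rw [hτ, hτi, hτ]; group
    rw [hk, h2, hk, ← pow_mul] at h3
    exact h3
  have h2 : (k * k) % p = 1 % p := by
    have := (pow_eq_pow_iff_modEq (x := y) (n := k * k) (m := 1)).1 (by rw [h1, pow_one])
    rwa [hy] at this
  haveI : Fact p.Prime := ⟨hp⟩
  have h3 : ((k : ZMod p)) * (k : ZMod p) = 1 := by
    have : ((k * k : ℕ) : ZMod p) = ((1 : ℕ) : ZMod p) := (ZMod.natCast_eq_natCast_iff' _ _ _).2 h2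
    simpa using this
  have h4 : (k : ZMod p) = 1 ∨ (k : ZMod p) = -1 := mul_self_eq_one_iff.1 h3
  rcases h4 with h4 | h4
  · left
    have h5 : k % p = 1 % p := by
      have : (k : ZMod p) = ((1 : ℕ) : ZMod p) := by simpa using h4
      exact (ZMod.natCast_eq_natCast_iff' _ _ _).1 this
    have h6 : y ^ k = y ^ 1 := by
      apply (pow_eq_pow_iff_modEq).2
      rw [hy]
      exact h5
    rw [h6, pow_one] at hk
    calc τ * y = τ * y * τ⁻¹ * τ := by group
      _ = y * τ := by rw [hk]
  · right
    rw [hk]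
    have h5 : y ^ k * y = 1 := by
      rw [← pow_succ]
      apply orderOf_dvd_iff_pow_eq_one.1
      rw [hy]
      have : ((k + 1 : ℕ) : ZMod p) = 0 := by
        push_cast
        rw [h4]
        ring
      exact (ZMod.natCast_eq_zero_iff _ _).1 this
    exact eq_inv_of_mul_eq_one_left h5

end Cfsg.Agent.Lib.A7Rec
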