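import Mathlib
import Cfsg.Agent.Lib.A7Rec.Sylows

/-!
# A simple group of order 2520 without a subgroup of index 7: the prime 7
-/

set_option autoImplicit false
set_option linter.style.haveILetI false
set_option linter.unusedVariables false
set_option linter.unusedSectionVars false
set_option linter.unusedSimpArgs false

namespace Cfsg.Agent.Lib.A7Rec

open Subgroup Cfsg.Agent.Lib.SmallCen.SmallOrder Cfsg.Agent.Lib.SmallOrd
open Cfsg.Agent.Lib.Basic.SmallSimple Cfsg.Agent.Lib.SmallOrd.ClassSign
open Cfsg.Agent.Lib.SmallOrd.InvolTools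

/-- An involution inverting an element with one fixed point and free on the others. -/
theorem perm_inversion_fix {α : Type*} [Fintype α] [DecidableEq α] (z τ : Equiv.Perm α) (b : α)
    (hcard : Fintype.card α = 36) (hfree : ∀ i : ℕ, ∀ c, c ≠ b → (z ^ i) c = c → 35 ∣ i)
    (hzb : z b = b) (hinv : τ * z * τ⁻¹ = z⁻¹) (hτb : τ b = b) (hτ : τ * τ = 1)
    (hsign : Equiv.Perm.sign τ = 1) : False := by
  have h4 := four_dvd_card_support τ hτ hsign
  have hzib : ∀ i : ℕ, (z ^ i) b = b := by
    intro i
    induction i with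
    | zero => simp
    | succ n ih => rw [pow_succ, Equiv.Perm.mul_apply, hzb, ih]
  have hconj : ∀ i : ℕ, τ * z ^ i * τ⁻¹ = (z⁻¹) ^ i := by
    intro i
    rw [← hinv, conj_pow]
  have hτi : τ⁻¹ = τ := inv_eq_of_mul_eq_one_left hτ
  have huniq : ∀ p q : α, p ≠ b → q ≠ b → τ p = p → τ q = q → p = q := by
    intro p q hp hq hτp hτq
    -- `q` is in the orbit of `p`
    have hinj : Set.InjOn (fun i : ℕ => (z ^ i) p) (Finset.range 35 : Set ℕ) := by
      have key : ∀ i k : ℕ, i + k < 35 → (z ^ i) p = (z ^ (i + k)) p → k = 0 := by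
        intro i k hik hij
        have h1 : (z ^ k) p = p := by
          have h2 : (z ^ (i + k)) p = (z ^ i) ((z ^ k) p) := by
            rw [pow_add, Equiv.Perm.mul_apply]
          rw [h2] at hij
          exact ((z ^ i).injective hij).symm
        have h3 := hfree k p hp h1
        exact Nat.eq_zero_of_dvd_of_lt h3 (by omega)
      intro i hi j hj hij
      simp only [Finset.coe_range, Set.mem_Iio] at hi hj
      simp only at hij
      rcases le_total i j with hle | hle
      · obtain ⟨k, rfl⟩ := Nat.exists_eq_add_of_le hle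
        have := key i k hj hij
        omega
      · obtain ⟨k, rfl⟩ := Nat.exists_eq_add_of_le hle
        have := key j k hi hij.symm
        omega
    have himg : (Finset.range 35).image (fun i : ℕ => (z ^ i) p) = Finset.univ.erase b := by
      apply Finset.eq_of_subset_of_card_le
      · intro c hc
        obtain ⟨i, -, rfl⟩ := Finset.mem_image.1 hc
        rw [Finset.mem_erase]
        refine ⟨?_, Finset.mem_univ _⟩
        intro h0
        apply hp
        apply (z ^ i).injective
        rw [h0, hzib]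
      · rw [Finset.card_image_of_injOn hinj, Finset.card_erase_of_mem (Finset.mem_univ _),
          Finset.card_univ, hcard]
        simp
    have hqm : q ∈ (Finset.range 35).image (fun i : ℕ => (z ^ i) p) := by
      rw [himg, Finset.mem_erase]
      exact ⟨hq, Finset.mem_univ _⟩
    obtain ⟨i, hi, rfl⟩ := Finset.mem_image.1 hqm
    rw [Finset.mem_range] at hi
    have h1 : τ ((z ^ i) p) = ((z⁻¹) ^ i) p := by
      have h2 : τ * z ^ i = (z⁻¹) ^ i * τ := by
        rw [← hconj]
        group
      calc τ ((z ^ i) p) = (τ * z ^ i) p := rfl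
        _ = ((z⁻¹) ^ i * τ) p := by rw [h2]
        _ = ((z⁻¹) ^ i) (τ p) := rfl
        _ = _ := by rw [hτp]
    have h3 : (z ^ (i + i)) p = p := by
      have h4' : (z ^ i) p = ((z⁻¹) ^ i) p := by
        rw [← h1]
        exact hτq.symm
      rw [pow_add, Equiv.Perm.mul_apply, h4', ← Equiv.Perm.mul_apply, inv_pow]
      simp
    have h5 := hfree _ p hp h3
    have h6 : 35 ∣ i := by
      have : Nat.Coprime 35 2 := by norm_num
      rw [← two_mul] at h5
      exact this.dvd_of_dvd_mul_left h5
    have h7 : i = 0 := Nat.eq_zero_of_dvd_of_lt h6 hi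
    rw [h7]
    simp
  have hsupp : τ.support.card + (Finset.univ.filter fun c => τ c = c).card = 36 := by
    have h1 : τ.support = Finset.univ.filter fun c => τ c ≠ c := by
      ext c
      simp [Equiv.Perm.mem_support]
    rw [h1, ← hcard, ← Finset.card_univ, add_comm]
    exact Finset.card_filter_add_card_filter_not _
  have hbF : b ∈ Finset.univ.filter fun c => τ c = c := by simp [hτb]
  have hF : (Finset.univ.filter fun c => τ c = c).card = 1 ∨
      (Finset.univ.filter fun c => τ c = c).card = 2 := by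
    by_cases hp : ∃ p, τ p = p ∧ p ≠ b
    · obtain ⟨p, hp1, hp2⟩ := hp
      right
      have h1 : (Finset.univ.filter fun c => τ c = c) = {b, p} := by
        ext c
        simp only [Finset.mem_filter, Finset.mem_univ, true_and, Finset.mem_insert, Finset.mem_singleton]
        constructor
        · intro hc
          by_cases hcb : c = b
          · exact Or.inl hcb
          · exact Or.inr (huniq c p hcb hp2 hc hp1)
        · rintro (rfl | rfl)
          · exact hτb
          · exact hp1
      rw [h1, Finset.card_pair (Ne.symm hp2)]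
    · left
      push_neg at hp
      have h1 : (Finset.univ.filter fun c => τ c = c) = {b} := by
        ext c
        simp only [Finset.mem_filter, Finset.mem_univ, true_and, Finset.mem_singleton]
        exact ⟨hp c, fun h => h ▸ hτb⟩
      rw [h1, Finset.card_singleton]
  omega

variable {G : Type*} [Group G] [Finite G] [IsSimpleGroup G]

omit [IsSimpleGroup G] in
/-- A generator of a Sylow subgroup of prime order fixes only the base coset of the normalizer. -/
theorem fix_base {p : ℕ} [Fact p.Prime] (P : Sylow p G) (hP : Nat.card (P : Subgroup G) = p)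
    (H : Subgroup G) (hH : H = normalizer ((P : Subgroup G) : Set G)) (x : G)
    (hxP : x ∈ (P : Subgroup G)) (hx : orderOf x = p) (c : G ⧸ H) (hc : act H x c = c) :
    c = ((1 : G) : G ⧸ H) := by
  subst hH
  induction c using QuotientGroup.induction_on with
  | H g =>
    have h1 : x • ((g : G) : G ⧸ normalizer ((P : Subgroup G) : Set G)) =
        ((g : G) : G ⧸ normalizer ((P : Subgroup G) : Set G)) := hc
    rw [MulAction.Quotient.smul_mk] at h1
    have h2 := QuotientGroup.eq.mp h1.symm
    have h3 : g⁻¹ * x * g ∈ normalizer ((P : Subgroup G) : Set G) := by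
      simpa [mul_assoc] using h2
    have h4 := mem_normalizer_of_conj_mem P hP x hxP hx g h3
    rw [QuotientGroup.eq]
    simpa using h4

/-- The case `|N_G(P₇)| = 70`. -/
theorem false_of_seventy (hc : Ctx G) (P : Sylow 7 G) (hPc : Nat.card (P : Subgroup G) = 7) (y : G)
    (hyP : y ∈ (P : Subgroup G)) (hy : orderOf y = 7)
    (hN : Nat.card (normalizer ((P : Subgroup G) : Set G)) = 70)
    (hC : Nat.card (centralizer ({y} : Set G)) = 35) : False := by
  classical
  haveI : Fact (Nat.Prime 7) := ⟨by norm_num⟩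
  haveI : Fact (Nat.Prime 5) := ⟨by norm_num⟩
  haveI : Fact (Nat.Prime 2) := ⟨Nat.prime_two⟩
  set N := normalizer ((P : Subgroup G) : Set G) with hNdef
  have hzy : zpowers y = (P : Subgroup G) := zpowers_eq _ hPc y hyP hy
  -- the element of order 5
  obtain ⟨x', hx'⟩ := exists_prime_orderOf_dvd_card' (G := centralizer ({y} : Set G)) 5 (by rw [hC]; norm_num)
  set x : G := (x' : G) with hxdef
  have hx : orderOf x = 5 := by rw [hxdef, Subgroup.orderOf_coe, hx']
  have hxy : x * y = y * x := by
    have := x'.2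
    rwa [Subgroup.mem_centralizer_singleton_iff] at this
  have hCN : centralizer ({y} : Set G) ≤ N := centralizer_le_normalizer' P hPc y hyP hy
  have hxN : x ∈ N := hCN x'.2
  obtain ⟨Q, hxQ⟩ := exists_sylow_mem (p := 5) x hx
  obtain ⟨hQc, x₀, hx₀Q, hx₀, e, he, he1, hNQ, hNQ2, hn5d, hn5, hNQt⟩ :=
    sylow_data hc (p := 5) 504 (by norm_num) (by norm_num) Q
  have hCx : Nat.card (centralizer ({x} : Set G)) = Nat.card (centralizer ({x₀} : Set G)) :=
    card_centralizer_eq_of_orderOf Q hQc x₀ hx₀Q hx₀ x hx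
  have hzx : zpowers x = (Q : Subgroup G) := zpowers_eq _ hQc x hxQ hx
  have hQN : (Q : Subgroup G) ≤ N := by
    rw [← hzx, Subgroup.zpowers_le]
    exact hxN
  obtain ⟨k, hk, hk5⟩ := exists_card_eq_inf_mul Q N hQN
  rw [hN] at hk
  have hk1 : k = 1 := by
    have key : ∀ d ∈ (70 : ℕ).divisors, d % 5 = 1 → d = 1 := by decide +kernel
    exact key k (Nat.mem_divisors.2 ⟨⟨_, by rw [hk]; ring⟩, by norm_num⟩) hk5
  rw [hk1, mul_one] at hk
  have hNle : N ≤ normalizer ((Q : Subgroup G) : Set G) := by
    have h1 : N ⊓ normalizer ((Q : Subgroup G) : Set G) = N :=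
      Subgroup.eq_of_le_of_card_ge inf_le_left (by rw [hN, ← hk])
    rw [← h1]
    exact inf_le_right
  have hcardQ : Nat.card (normalizer ((Q : Subgroup G) : Set G)) = 70 := by
    obtain ⟨a, ha⟩ := Subgroup.card_dvd_of_le hNle
    rw [hN] at ha
    have hle := card_le hc _ hNQt
    rw [ha] at hNQ2 hle
    have ha' : a * Nat.card (Sylow 5 G) = 36 := by nlinarith
    have ha4 : a ≤ 4 := by omega
    have ha0 : a ≠ 0 := by
      rintro rfl
      omega
    rw [ha]
    interval_cases a <;> omega
  have hNeq : N = normalizer ((Q : Subgroup G) : Set G) :=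
    Subgroup.eq_of_le_of_card_ge hNle (by rw [hcardQ, hN])
  have hCxc : Nat.card (centralizer ({x} : Set G)) = 35 := by
    rw [hCx]
    have he4 : e ∣ 4 := he
    have key : ∀ d ∈ (4 : ℕ).divisors, d ≠ 1 → 70 = Nat.card (centralizer ({x₀} : Set G)) * d →
        Nat.card (centralizer ({x₀} : Set G)) = 35 := by
      intro d hd hd1 hd2
      have : d = 2 ∨ d = 4 := by
        have h4 : (4 : ℕ).divisors = {1, 2, 4} := by decide +kernel
        rw [h4] at hd
        simp at hd
        omega
      rcases this with rfl | rfl <;> omega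
    exact key e (Nat.mem_divisors.2 ⟨he4, by norm_num⟩) he1 (by rw [← hNQ, hcardQ])
  -- the involution
  obtain ⟨τ', hτ'⟩ := exists_prime_orderOf_dvd_card' (G := N) 2 (by rw [hN]; norm_num)
  set τ : G := (τ' : G) with hτdef
  have hτN : τ ∈ N := τ'.2
  have hτo : orderOf τ = 2 := by rw [hτdef, Subgroup.orderOf_coe, hτ']
  have hτ2 : τ * τ = 1 := by
    rw [← pow_two, ← hτo]
    exact pow_orderOf_eq_one τ
  have hτC : ∀ w : G, Nat.card (centralizer ({w} : Set G)) = 35 → τ * w ≠ w * τ := by
    intro w hw hcomm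
    have h1 : τ ∈ centralizer ({w} : Set G) := by
      rw [Subgroup.mem_centralizer_singleton_iff]
      exact hcomm
    have h2 : orderOf (⟨τ, h1⟩ : centralizer ({w} : Set G)) ∣ 35 := by
      rw [← hw]
      exact orderOf_dvd_natCard _
    rw [Subgroup.orderOf_mk, hτo] at h2
    omega
  have hτy : τ * y * τ⁻¹ = y⁻¹ := by
    have hk : ∃ k : ℕ, τ * y * τ⁻¹ = y ^ k := by
      obtain ⟨k, -, hk⟩ := exists_pow_of_mem' P hPc y hyP hy τ hτN
      exact ⟨k, hk⟩
    rcases conj_eq_or_inv_of_involution (by norm_num) y τ hy hτ2 hk with h1 | h1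
    · exact absurd h1 (hτC y hC)
    · exact h1
  have hτx : τ * x * τ⁻¹ = x⁻¹ := by
    have hk : ∃ k : ℕ, τ * x * τ⁻¹ = x ^ k := by
      obtain ⟨k, -, hk⟩ := exists_pow_of_mem' Q hQc x hxQ hx τ (hNeq ▸ hτN)
      exact ⟨k, hk⟩
    rcases conj_eq_or_inv_of_involution (by norm_num) x τ hx hτ2 hk with h1 | h1
    · exact absurd h1 (hτC x hCxc)
    · exact h1
  -- the action
  haveI : Fintype (G ⧸ N) := Fintype.ofFinite _
  have hidx : N.index = 36 := by
    have := card_mul hc N
    rw [hN] at this
    omega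
  have hcardΩ : Fintype.card (G ⧸ N) = 36 := by
    rw [← Nat.card_eq_fintype_card]
    exact hidx
  set b : G ⧸ N := ((1 : G) : G ⧸ N) with hb
  have hfixN : ∀ g ∈ N, act N g b = b := by
    intro g hg
    show g • ((1 : G) : G ⧸ N) = ((1 : G) : G ⧸ N)
    rw [MulAction.Quotient.smul_mk, QuotientGroup.eq]
    simpa using hg
  set z : G := x * y with hz
  have hxpow : x ^ 5 = 1 := by rw [← hx]; exact pow_orderOf_eq_one x
  have hypow : y ^ 7 = 1 := by rw [← hy]; exact pow_orderOf_eq_one y
  have hzN : z ∈ N := N.mul_mem hxN (hCN (by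
    rw [Subgroup.mem_centralizer_singleton_iff]))
  have hcomm : Commute x y := hxy
  have hfree : ∀ i : ℕ, ∀ c, c ≠ b → (act N z ^ i) c = c → 35 ∣ i := by
    intro i c hcb hi
    have h1 : act N (z ^ i) c = c := by rw [map_pow]; exact hi
    have hpow : ∀ m : ℕ, act N ((z ^ i) ^ m) c = c := by
      intro m
      induction m with
      | zero => simp
      | succ m ih => rw [pow_succ, map_mul, Equiv.Perm.mul_apply, h1, ih]
    have h7 : 7 ∣ i := by
      by_contra h7
      have h2 : (z ^ i) ^ 5 = y ^ (5 * i) := by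
        rw [hz, hcomm.mul_pow, (hcomm.pow_pow i i).mul_pow, ← pow_mul, ← pow_mul, mul_comm i 5, pow_mul x 5 i,
          hxpow, one_pow, one_mul]
      have hwo : orderOf (y ^ (5 * i)) = 7 := by
        apply orderOf_eq_prime
        · rw [← pow_mul, mul_comm, pow_mul, hypow, one_pow]
        · intro h0
          have h3 := orderOf_dvd_of_pow_eq_one h0
          rw [hy] at h3
          exact h7 ((Nat.Coprime.dvd_of_dvd_mul_left (by norm_num) h3))
      have h4 := hpow 5
      rw [h2] at h4
      exact hcb (fix_base P hPc N rfl _ (P.1.pow_mem hyP _) hwo c h4)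
    have h5 : 5 ∣ i := by
      by_contra h5
      have h2 : (z ^ i) ^ 7 = x ^ (7 * i) := by
        rw [hz, hcomm.mul_pow, (hcomm.pow_pow i i).mul_pow, ← pow_mul, ← pow_mul, mul_comm i 7, pow_mul y 7 i,
          hypow, one_pow, mul_one]
      have hwo : orderOf (x ^ (7 * i)) = 5 := by
        apply orderOf_eq_prime
        · rw [← pow_mul, mul_comm, pow_mul, hxpow, one_pow]
        · intro h0
          have h3 := orderOf_dvd_of_pow_eq_one h0
          rw [hx] at h3
          exact h5 ((Nat.Coprime.dvd_of_dvd_mul_left (by norm_num) h3))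
      have h4 := hpow 7
      rw [h2] at h4
      exact hcb (fix_base Q hQc N hNeq _ (Q.1.pow_mem hxQ _) hwo c h4)
    exact Nat.Coprime.mul_dvd_of_dvd_of_dvd (by norm_num : Nat.Coprime 7 5) h7 h5 |> fun h => by
      simpa using h
  have hτi : τ⁻¹ = τ := inv_eq_of_mul_eq_one_left hτ2
  refine perm_inversion_fix (act N z) (act N τ) b hcardΩ hfree (hfixN z hzN) ?_ (hfixN τ hτN) ?_
    (sign_act_eq_one (by rw [hc.card]; norm_num) N τ)
  · rw [← map_inv, ← map_mul, ← map_inv, ← map_mul]
    congr 1
    calc τ * z * τ⁻¹ = (τ * x * τ⁻¹) * (τ * y * τ⁻¹) := by rw [hz]; group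
      _ = x⁻¹ * y⁻¹ := by rw [hτx, hτy]
      _ = (y * x)⁻¹ := by group
      _ = z⁻¹ := by rw [hxy]
  · rw [← map_mul, hτ2, map_one]

/-- The centralizer of an element of order 7 has order 7. -/
theorem card_cent_seven (hc : Ctx G) (y : G) (hy : orderOf y = 7) :
    Nat.card (centralizer ({y} : Set G)) = 7 := by
  classical
  haveI : Fact (Nat.Prime 7) := ⟨by norm_num⟩
  obtain ⟨P, hyP⟩ := exists_sylow_mem (p := 7) y hy
  obtain ⟨hPc, x₀, hx₀P, hx₀, e, he, he1, hN, hN2, hnd, hn7, hNt⟩ :=
    sylow_data hc (p := 7) 360 (by norm_num) (by norm_num) P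
  have hCx : Nat.card (centralizer ({y} : Set G)) = Nat.card (centralizer ({x₀} : Set G)) :=
    card_centralizer_eq_of_orderOf P hPc x₀ hx₀P hx₀ y hy
  rw [hCx]
  set C := Nat.card (centralizer ({x₀} : Set G)) with hCdef
  have hle := card_le hc _ hNt
  have hn8 : 8 ≤ Nat.card (Sylow 7 G) := by
    by_contra hcon
    push_neg at hcon
    have : Nat.card (normalizer ((P : Subgroup G) : Set G)) * Nat.card (Sylow 7 G) ≤ 315 * 7 :=
      Nat.mul_le_mul hle (by omega)
    omega
  have he6 : e ∣ 6 := he
  have key : ∀ d ∈ (360 : ℕ).divisors, d % 7 = 1 → 8 ≤ d → d = 8 ∨ d = 15 ∨ d = 36 ∨ d = 120 := by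
    decide +kernel
  have hidx : (normalizer ((P : Subgroup G) : Set G)).index = Nat.card (Sylow 7 G) :=
    (Sylow.card_eq_index_normalizer P).symm
  have hcyc : ∀ (m : ℕ), Nat.card (Sylow 7 G) = m → ∃ b : ℕ, b * 7 ≤ m ∧ m ≤ b * 7 + 1 ∧
      C ∣ (m - b * 7).factorial * 7 ^ b * b.factorial := by
    intro m hm
    obtain ⟨b, h1, h2, h3⟩ := exists_cycle_data_unique (p := 7) (by norm_num)
      (normalizer ((P : Subgroup G) : Set G)) hNt x₀ hx₀ (by
        intro c d hc' hd
        rw [fix_base P hPc _ rfl x₀ hx₀P hx₀ c hc', fix_base P hPc _ rfl x₀ hx₀P hx₀ d hd])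
    rw [hidx, hm] at h1 h2 h3
    exact ⟨b, h1, h2, h3 _ le_rfl⟩
  have he_cases : e = 2 ∨ e = 3 ∨ e = 6 := by
    have h6 : (6 : ℕ).divisors = {1, 2, 3, 6} := by decide +kernel
    have := Nat.mem_divisors.2 ⟨he6, (by norm_num : (6 : ℕ) ≠ 0)⟩
    rw [h6] at this
    simp at this
    omega
  rcases key _ (Nat.mem_divisors.2 ⟨hnd, by norm_num⟩) hn7 hn8 with h8 | h15 | h36 | h120
  · exfalso
    obtain ⟨b, h1, h2, h3⟩ := hcyc 8 h8
    have hb : b = 1 := by omega
    subst hb
    norm_num [Nat.factorial] at h3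
    rw [h8] at hN2
    have hC7 : C ≤ 7 := Nat.le_of_dvd (by norm_num) h3
    rcases he_cases with rfl | rfl | rfl <;> omega
  · exfalso
    obtain ⟨b, h1, h2, h3⟩ := hcyc 15 h15
    have hb : b = 2 := by omega
    subst hb
    norm_num [Nat.factorial] at h3
    rw [h15] at hN2
    have hN168 : Nat.card (normalizer ((P : Subgroup G) : Set G)) = 168 := by omega
    rw [hN168] at hN
    rcases he_cases with rfl | rfl | rfl
    · have : C = 84 := by omega
      rw [this] at h3
      omega
    · have : C = 56 := by omega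
      rw [this] at h3
      omega
    · have : C = 28 := by omega
      rw [this] at h3
      omega
  · exfalso
    rw [h36] at hN2
    have hN70 : Nat.card (normalizer ((P : Subgroup G) : Set G)) = 70 := by omega
    rw [hN70] at hN
    have hC35 : C = 35 := by
      rcases he_cases with rfl | rfl | rfl <;> omega
    exact false_of_seventy hc P hPc x₀ hx₀P hx₀ hN70 hC35
  · rw [h120] at hN2
    have hN21 : Nat.card (normalizer ((P : Subgroup G) : Set G)) = 21 := by omega
    rw [hN21] at hN
    rcases he_cases with rfl | rfl | rfl <;> omega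

/-- An element commuting with an element of order 7 has order dividing 7. -/
theorem orderOf_dvd_seven (hc : Ctx G) (y g : G) (hy : orderOf y = 7) (hg : g * y = y * g) :
    orderOf g ∣ 7 := by
  have h1 : g ∈ centralizer ({y} : Set G) := by
    rw [Subgroup.mem_centralizer_singleton_iff]
    exact hg
  have h2 := orderOf_dvd_natCard (⟨g, h1⟩ : centralizer ({y} : Set G))
  rwa [Subgroup.orderOf_mk, card_cent_seven hc y hy] at h2

end Cfsg.Agent.Lib.A7Rec
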