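import Mathlib
import Cfsg.Agent.Lib.A7Rec.Seven
import Cfsg.Agent.Lib.SmallOrd.OrderEight

/-!
# A simple group of order 2520 without a subgroup of index 7: the primes 5 and 3
-/

set_option autoImplicit false
set_option linter.style.haveILetI false
set_option linter.unusedVariables false
set_option linter.unusedSectionVars false
set_option linter.unusedSimpArgs false

namespace Cfsg.Agent.Lib.A7Rec

open Subgroup Cfsg.Agent.Lib.SmallCen.SmallOrder Cfsg.Agent.Lib.SmallOrd
open Cfsg.Agent.Lib.Basic.SmallSimple Cfsg.Agent.Lib.SmallOrd.ClassSign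
open Cfsg.Agent.Lib.SmallOrd.InvolTools Cfsg.Agent.Lib.SmallOrd.OrderEight

variable {G : Type*} [Group G] [Finite G]

omit [Finite G] in
theorem sq_sq_of_order_four (r : G) (hr : orderOf r = 4) : (r * r) * (r * r) = 1 := by
  have : (r * r) * (r * r) = r ^ 4 := by
    rw [show (4 : ℕ) = 1 + 1 + 1 + 1 from rfl]
    simp only [pow_succ, pow_zero, one_mul]
    group
  rw [this, ← hr]
  exact pow_orderOf_eq_one r

omit [Finite G] in
theorem sq_ne_one_of_order_four (r : G) (hr : orderOf r = 4) : r * r ≠ 1 := by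
  intro h
  have h1 := orderOf_dvd_of_pow_eq_one (x := r) (n := 2) (by rw [pow_two, h])
  rw [hr] at h1
  omega

/-- In a group of order 8, the square of an element of order 4 is central. -/
theorem sq_central_of_order_four (S : Subgroup G) (hS : Nat.card S = 8) (r : G) (hrS : r ∈ S)
    (hr : orderOf r = 4) (s : G) (hs : s ∈ S) : s * (r * r) * s⁻¹ = r * r := by
  have hz2 := sq_sq_of_order_four r hr
  have hz1 := sq_ne_one_of_order_four r hr
  obtain ⟨hWc, hWm⟩ := zpowers_four r (r * r) rfl hz2 hz1
  have hWS : zpowers r ≤ S := (Subgroup.zpowers_le).2 hrS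
  have hidx : (zpowers r).relIndex S = 2 := by
    have h1 := Cfsg.Agent.Lib.Perm.SylowIn.card_mul_relIndex hWS
    rw [hWc, hS] at h1
    omega
  have hpg : IsPGroup 2 S := IsPGroup.of_card (n := 3) (by rw [hS]; norm_num)
  have hnorm := le_normalizer_of_index_prime Nat.prime_two hWS hpg hidx
  have h1 : s * r * s⁻¹ ∈ zpowers r := (mem_normalizer_iff.1 (hnorm hs) r).1 (mem_zpowers r)
  have h2 : s * (r * r) * s⁻¹ = (s * r * s⁻¹) * (s * r * s⁻¹) := by group
  rw [h2]
  have hsne : s * r * s⁻¹ ≠ 1 := by
    intro h0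
    have : r = s⁻¹ * (s * r * s⁻¹) * s := by group
    rw [h0] at this
    have h3 : r = 1 := by simpa using this
    rw [h3, orderOf_one] at hr
    omega
  rcases hWm _ h1 with h3 | h3 | h3 | h3
  · exact absurd h3 hsne
  · rw [h3]
  · exfalso
    have h4 : (s * r * s⁻¹) * (s * r * s⁻¹) = 1 := by rw [h3]; exact hz2
    have h5 : s * (r * r) * s⁻¹ = 1 := by rw [h2]; exact h4
    apply hz1
    have : r * r = s⁻¹ * (s * (r * r) * s⁻¹) * s := by group
    rw [this, h5]
    group
  · rw [h3]
    have h4 : r * (r * r) * (r * (r * r)) = (r * r) * ((r * r) * (r * r)) := by group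
    rw [h4, hz2, mul_one]

/-- In a group of order 8 either there is an element of order 4, or all elements are involutions. -/
theorem order_four_or_exp_two (S : Subgroup G) (hS : Nat.card S = 8) :
    (∃ r ∈ S, orderOf r = 4) ∨ ∀ a ∈ S, a * a = 1 := by
  by_cases h : ∃ r ∈ S, orderOf r = 4
  · exact Or.inl h
  · right
    push_neg at h
    intro a ha
    have h1 : orderOf a ∣ 8 := by
      have := orderOf_dvd_natCard (⟨a, ha⟩ : S)
      rwa [Subgroup.orderOf_mk, hS] at this
    have h8 : ∀ d ∈ (8 : ℕ).divisors, d = 1 ∨ d = 2 ∨ d = 4 ∨ d = 8 := by decide +kernel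
    rcases h8 _ (Nat.mem_divisors.2 ⟨h1, by norm_num⟩) with h2 | h2 | h2 | h2
    · rw [orderOf_eq_one_iff.1 h2]
      simp
    · rw [← pow_two, ← h2]
      exact pow_orderOf_eq_one a
    · exact absurd h2 (h a ha)
    · exfalso
      apply h (a ^ 2) (S.pow_mem ha 2)
      rw [orderOf_pow' a (by norm_num), h2]
      norm_num

omit [Finite G] in
theorem comm_of_exp_two {a b : G} (ha : a * a = 1) (hb : b * b = 1) (hab : (a * b) * (a * b) = 1) :
    a * b = b * a := by
  have hai : a⁻¹ = a := inv_eq_of_mul_eq_one_left ha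
  have hbi : b⁻¹ = b := inv_eq_of_mul_eq_one_left hb
  have : (a * b)⁻¹ = a * b := inv_eq_of_mul_eq_one_left hab
  rw [mul_inv_rev, hai, hbi] at this
  exact this.symm

variable [IsSimpleGroup G]

/-- Every involution is central in a Sylow 2-subgroup. -/
theorem eight_dvd (hc : Ctx G) (t : G) (ht : t * t = 1) : 8 ∣ Nat.card (centralizer ({t} : Set G)) := by
  classical
  haveI : Fact (Nat.Prime 2) := ⟨Nat.prime_two⟩
  by_cases ht1 : t = 1
  · subst ht1
    have h1 : centralizer ({(1 : G)} : Set G) = ⊤ := by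
      ext g
      simp [Subgroup.mem_centralizer_singleton_iff]
    rw [h1, Subgroup.card_top, hc.card]
    norm_num
  have hto : orderOf t = 2 := orderOf_eq_prime (by rw [pow_two]; exact ht) ht1
  obtain ⟨S, htS⟩ := exists_sylow_mem (p := 2) t hto
  have hS8 : Nat.card (S : Subgroup G) = 8 := by
    have := card_sylow_eq (p := 2) (a := 3) (m := 315) (by rw [hc.card]; norm_num) (by norm_num) S
    rw [this]
    norm_num
  rcases order_four_or_exp_two (S : Subgroup G) hS8 with ⟨r, hrS, hr⟩ | hexp
  · have hz2 := sq_sq_of_order_four r hr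
    have hz1 := sq_ne_one_of_order_four r hr
    obtain ⟨hWc, hWm⟩ := zpowers_four r (r * r) rfl hz2 hz1
    have hidx : (zpowers r).index % 4 = 2 := by
      have h1 := card_mul hc (zpowers r)
      rw [hWc] at h1
      omega
    obtain ⟨g, hg⟩ := exists_conj_mem_of_index (by rw [hc.card]; norm_num) (zpowers r) hidx t ht
    have hs2 : (g⁻¹ * t * g) * (g⁻¹ * t * g) = 1 := by
      calc (g⁻¹ * t * g) * (g⁻¹ * t * g) = g⁻¹ * (t * t) * g := by group
        _ = 1 := by rw [ht]; group
    have hs1 : g⁻¹ * t * g ≠ 1 := by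
      intro h0
      apply ht1
      have : t = g * (g⁻¹ * t * g) * g⁻¹ := by group
      rw [this, h0]
      group
    have hsz : g⁻¹ * t * g = r * r := by
      rcases hWm _ hg with h3 | h3 | h3 | h3
      · exact absurd h3 hs1
      · exfalso
        rw [h3] at hs2
        exact hz1 hs2
      · exact h3
      · exfalso
        rw [h3] at hs2
        have h4 : r * (r * r) * (r * (r * r)) = (r * r) * ((r * r) * (r * r)) := by group
        rw [h4, hz2, mul_one] at hs2
        exact hz1 hs2
    have hle : (S : Subgroup G) ≤ centralizer ({r * r} : Set G) := by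
      intro s hs
      rw [Subgroup.mem_centralizer_singleton_iff]
      have h1 := sq_central_of_order_four (S : Subgroup G) hS8 r hrS hr s hs
      calc s * (r * r) = s * (r * r) * s⁻¹ * s := by group
        _ = r * r * s := by rw [h1]
    have h1 := Subgroup.card_dvd_of_le hle
    rw [hS8, ← hsz] at h1
    have h2 := card_centralizer_conj g⁻¹ t
    rw [inv_inv] at h2
    rwa [h2] at h1
  · have hle : (S : Subgroup G) ≤ centralizer ({t} : Set G) := by
      intro s hs
      rw [Subgroup.mem_centralizer_singleton_iff]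
      exact (comm_of_exp_two (hexp t htS) (hexp s hs) (hexp _ (S.1.mul_mem htS hs))).symm
    have h1 := Subgroup.card_dvd_of_le hle
    rwa [hS8] at h1

/-- An involution cannot commute with an element of order 5 when `|N(⟨x⟩)| = 20` and `|C(x)| = 10`. -/
theorem not_cent_ten (hc : Ctx G) (Q : Sylow 5 G) (hQc : Nat.card (Q : Subgroup G) = 5) (x : G)
    (hxQ : x ∈ (Q : Subgroup G)) (hx : orderOf x = 5)
    (hN : Nat.card (normalizer ((Q : Subgroup G) : Set G)) = 20)
    (hC : Nat.card (centralizer ({x} : Set G)) = 10) : False := by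
  classical
  haveI : Fact (Nat.Prime 2) := ⟨Nat.prime_two⟩
  haveI : Fact (Nat.Prime 5) := ⟨by norm_num⟩
  obtain ⟨q', hq'⟩ := exists_prime_orderOf_dvd_card' (G := centralizer ({x} : Set G)) 2 (by rw [hC]; norm_num)
  set q : G := (q' : G) with hqdef
  have hqo : orderOf q = 2 := by rw [hqdef, Subgroup.orderOf_coe, hq']
  have hq2 : q * q = 1 := by
    rw [← pow_two, ← hqo]
    exact pow_orderOf_eq_one q
  have hq1 : q ≠ 1 := by
    rintro h
    rw [h, orderOf_one] at hqo
    omega
  have hqx : q * x = x * q := by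
    have := q'.2
    rwa [Subgroup.mem_centralizer_singleton_iff] at this
  have huniq : ∀ w : G, w * x = x * w → w * w = 1 → w ≠ 1 → w = q := by
    intro w hw hw2 hw1
    by_contra hne
    have h1 := card_mul_le_of_involutions (p := 5) (by decide) x hx ({1, q, w} : Finset G) (by
      intro a ha
      simp only [Finset.mem_insert, Finset.mem_singleton] at ha
      rcases ha with rfl | rfl | rfl
      · simp
      · exact ⟨hq2, hqx⟩
      · exact ⟨hw2, hw⟩)
    have h2 : ({1, q, w} : Finset G).card = 3 := by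
      rw [Finset.card_eq_three]
      exact ⟨1, q, w, hq1.symm, hw1.symm, Ne.symm hne, rfl⟩
    rw [h2, hC] at h1
    omega
  have hNq : normalizer ((Q : Subgroup G) : Set G) ≤ centralizer ({q} : Set G) := by
    intro g hg
    rw [Subgroup.mem_centralizer_singleton_iff]
    have h1 := conj_mem_centralizer' Q hQc x hxQ hx g q hg q'.2
    rw [Subgroup.mem_centralizer_singleton_iff] at h1
    have h2 : g * q * g⁻¹ = q := by
      apply huniq _ h1
      · calc g * q * g⁻¹ * (g * q * g⁻¹) = g * (q * q) * g⁻¹ := by group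
          _ = 1 := by rw [hq2]; group
      · intro h0
        apply hq1
        have : q = g⁻¹ * (g * q * g⁻¹) * g := by group
        rw [this, h0]
        group
    calc g * q = g * q * g⁻¹ * g := by group
      _ = q * g := by rw [h2]
  obtain ⟨k, hk, hk5⟩ := exists_card_eq_normalizer_mul Q _ hNq
  rw [hN] at hk
  have hle := card_centralizer_le hc q hq1
  have h8 := eight_dvd hc q hq2
  have hk6 : k = 6 := by
    rw [hk] at hle h8
    have hk15 : k ≤ 15 := by omega
    interval_cases k <;> omega
  have hq120 : Nat.card (centralizer ({q} : Set G)) = 120 := by rw [hk, hk6]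
  have hcls : (cls q).card = 21 := by
    have := card_cls_mul q
    rw [hq120, hc.card] at this
    omega
  have hCu : ∀ v, v * x = x * v → IsConj q v → v = q := by
    intro v hv hconj
    obtain ⟨g, rfl⟩ := isConj_iff.1 hconj
    apply huniq _ hv
    · calc g * q * g⁻¹ * (g * q * g⁻¹) = g * (q * q) * g⁻¹ := by group
        _ = 1 := by rw [hq2]; group
    · intro h0
      apply hq1
      have : q = g⁻¹ * (g * q * g⁻¹) * g := by group
      rw [this, h0]
      group
  obtain ⟨h4, h5, hlt⟩ := Kset_congr (by rw [hc.card]; norm_num) x q Nat.prime_five hx hq2 hq1 hqx.symm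
    (centralizer_ne_top' hc q hq1) hCu
  rw [hcls] at h4 hlt
  have hK1 : (Kset q).card = 1 := by omega
  obtain ⟨P, huP, hP⟩ := exists_sylow_le_centralizer (a := 3) (m := 315) (by rw [hc.card]; norm_num)
    (by norm_num) q hq2 hq1 (by rw [hq120]; norm_num)
  exact false_of_Kset_card_one (not_prime_card hc) (by rw [hc.card]; norm_num) q hq2 hq1 P huP hP hK1

/-- Sylow data for the prime 5. -/
theorem sylow_five (hc : Ctx G) (Q : Sylow 5 G) :
    Nat.card (Q : Subgroup G) = 5 ∧ Nat.card (normalizer ((Q : Subgroup G) : Set G)) = 20 ∧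
      ∀ x ∈ (Q : Subgroup G), orderOf x = 5 → Nat.card (centralizer ({x} : Set G)) = 5 := by
  classical
  haveI : Fact (Nat.Prime 5) := ⟨by norm_num⟩
  obtain ⟨hQc, x₀, hx₀Q, hx₀, e, he, he1, hN, hN2, hnd, hn5, hNt⟩ :=
    sylow_data hc (p := 5) 504 (by norm_num) (by norm_num) Q
  have hle := card_le hc _ hNt
  have hn8 : 8 ≤ Nat.card (Sylow 5 G) := by
    by_contra hcon
    push_neg at hcon
    have : Nat.card (normalizer ((Q : Subgroup G) : Set G)) * Nat.card (Sylow 5 G) ≤ 315 * 7 :=
      Nat.mul_le_mul hle (by omega)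
    omega
  have he4 : e ∣ 4 := he
  have he_cases : e = 2 ∨ e = 4 := by
    have h6 : (4 : ℕ).divisors = {1, 2, 4} := by decide +kernel
    have := Nat.mem_divisors.2 ⟨he4, (by norm_num : (4 : ℕ) ≠ 0)⟩
    rw [h6] at this
    simp at this
    omega
  have key : ∀ d ∈ (504 : ℕ).divisors, d % 5 = 1 → 8 ≤ d → d = 21 ∨ d = 36 ∨ d = 56 ∨ d = 126 := by
    decide +kernel
  have hN20 : Nat.card (normalizer ((Q : Subgroup G) : Set G)) = 20 := by
    rcases key _ (Nat.mem_divisors.2 ⟨hnd, by norm_num⟩) hn5 hn8 with h | h | h | h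
    · exact absurd h (Cfsg.Agent.S1010.result)
    · exfalso
      rw [h] at hN2
      have h70 : Nat.card (normalizer ((Q : Subgroup G) : Set G)) = 70 := by omega
      rw [h70] at hN
      have hC35 : Nat.card (centralizer ({x₀} : Set G)) = 35 := by
        rcases he_cases with rfl | rfl <;> omega
      obtain ⟨y', hy'⟩ := exists_prime_orderOf_dvd_card' (G := centralizer ({x₀} : Set G)) 7 (by rw [hC35]; norm_num)
      have hyo : orderOf (y' : G) = 7 := by rw [Subgroup.orderOf_coe, hy']
      have hyx : (y' : G) * x₀ = x₀ * y' := by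
        have := y'.2
        rwa [Subgroup.mem_centralizer_singleton_iff] at this
      have h1 := orderOf_dvd_seven hc (y' : G) x₀ hyo hyx.symm
      rw [hx₀] at h1
      omega
    · exfalso
      rw [h] at hN2
      have h45 : Nat.card (normalizer ((Q : Subgroup G) : Set G)) = 45 := by omega
      rw [h45] at hN
      rcases he_cases with rfl | rfl <;> omega
    · rw [h] at hN2
      omega
  refine ⟨hQc, hN20, ?_⟩
  intro x hxQ hx
  have hCx : Nat.card (centralizer ({x} : Set G)) = Nat.card (centralizer ({x₀} : Set G)) :=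
    card_centralizer_eq_of_orderOf Q hQc x₀ hx₀Q hx₀ x hx
  rw [hN20] at hN
  rcases he_cases with rfl | rfl
  · exfalso
    exact not_cent_ten hc Q hQc x hxQ hx hN20 (by omega)
  · omega

/-- The centralizer of an element of order 5 has order 5. -/
theorem card_cent_five (hc : Ctx G) (x : G) (hx : orderOf x = 5) :
    Nat.card (centralizer ({x} : Set G)) = 5 := by
  haveI : Fact (Nat.Prime 5) := ⟨by norm_num⟩
  obtain ⟨Q, hxQ⟩ := exists_sylow_mem (p := 5) x hx
  exact (sylow_five hc Q).2.2 x hxQ hx

/-- An element commuting with an element of order 5 has order dividing 5. -/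
theorem orderOf_dvd_five (hc : Ctx G) (y g : G) (hy : orderOf y = 5) (hg : g * y = y * g) :
    orderOf g ∣ 5 := by
  have h1 : g ∈ centralizer ({y} : Set G) := by
    rw [Subgroup.mem_centralizer_singleton_iff]
    exact hg
  have h2 := orderOf_dvd_natCard (⟨g, h1⟩ : centralizer ({y} : Set G))
  rwa [Subgroup.orderOf_mk, card_cent_five hc y hy] at h2

/-- There is an element of order 4. -/
theorem exists_order_four (hc : Ctx G) : ∃ r : G, orderOf r = 4 := by
  classical
  haveI : Fact (Nat.Prime 5) := ⟨by norm_num⟩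
  haveI : Fact (Nat.Prime 2) := ⟨Nat.prime_two⟩
  obtain ⟨Q⟩ : Nonempty (Sylow 5 G) := inferInstance
  obtain ⟨hQc, hN20, hCall⟩ := sylow_five hc Q
  obtain ⟨hQc', x, hxQ, hx, -⟩ := sylow_data hc (p := 5) 504 (by norm_num) (by norm_num) Q
  set N := normalizer ((Q : Subgroup G) : Set G) with hNdef
  obtain ⟨T, hT⟩ := Sylow.exists_subgroup_card_pow_prime (G := N) 2 (n := 2) (by rw [hN20]; norm_num)
  have hT4 : Nat.card T = 4 := by rw [hT]; norm_num
  by_contra hno
  push_neg at hno
  have hexp : ∀ a ∈ T, a * a = 1 := by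
    intro a ha
    have h1 : orderOf a ∣ 4 := by
      have := orderOf_dvd_natCard (⟨a, ha⟩ : T)
      rwa [Subgroup.orderOf_mk, hT4] at this
    have h8 : ∀ d ∈ (4 : ℕ).divisors, d = 1 ∨ d = 2 ∨ d = 4 := by decide +kernel
    rcases h8 _ (Nat.mem_divisors.2 ⟨h1, by norm_num⟩) with h2 | h2 | h2
    · rw [orderOf_eq_one_iff.1 h2]
      simp
    · rw [← pow_two, ← h2]
      exact pow_orderOf_eq_one a
    · exfalso
      apply hno (a : G)
      rw [Subgroup.orderOf_coe, h2]
  -- two distinct nonidentity elements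
  have hT2 : 2 < Nat.card T := by omega
  obtain ⟨a, b, hab⟩ : ∃ a b : T, a ≠ 1 ∧ b ≠ 1 ∧ a ≠ b := by
    haveI : Fintype T := Fintype.ofFinite T
    rw [Nat.card_eq_fintype_card] at hT2
    obtain ⟨a, b, c, h1, h2, h3⟩ := Fintype.two_lt_card_iff.1 hT2
    by_cases ha : a = 1
    · subst ha
      exact ⟨b, c, h1.symm, h2.symm, h3⟩
    · by_cases hb : b = 1
      · subst hb
        exact ⟨a, c, ha, h3.symm, h2⟩
      · exact ⟨a, b, ha, hb, h1⟩
  obtain ⟨ha1, hb1, hab⟩ := hab
  -- an involution of `N` inverts `x`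
  have hinv : ∀ t : T, t ≠ 1 → ((t : N) : G) * x * ((t : N) : G)⁻¹ = x⁻¹ := by
    intro t ht1
    have ht2 : ((t : N) : G) * ((t : N) : G) = 1 := congrArg Subtype.val (hexp (t : N) t.2)
    have hk : ∃ k : ℕ, ((t : N) : G) * x * ((t : N) : G)⁻¹ = x ^ k := by
      obtain ⟨k, -, hk⟩ := exists_pow_of_mem' Q hQc x hxQ hx _ (t : N).2
      exact ⟨k, hk⟩
    rcases conj_eq_or_inv_of_involution (by norm_num) x _ hx ht2 hk with h1 | h1
    · exfalso
      have h2 := orderOf_dvd_five hc x _ hx h1
      have h3 : orderOf ((t : N) : G) = 2 := by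
        apply orderOf_eq_prime (by rw [pow_two]; exact ht2)
        intro h0
        exact ht1 (Subtype.ext (Subtype.ext h0))
      rw [h3] at h2
      omega
    · exact h1
  set A : G := ((a : N) : G) with hA
  set B : G := ((b : N) : G) with hB
  have hxAB : (A * B) * x = x * (A * B) := by
    have h1 := hinv a ha1
    have h2 := hinv b hb1
    have h3 : (A * B) * x * (A * B)⁻¹ = x := by
      calc (A * B) * x * (A * B)⁻¹ = A * (B * x * B⁻¹) * A⁻¹ := by group
        _ = A * x⁻¹ * A⁻¹ := by rw [h2]
        _ = (A * x * A⁻¹)⁻¹ := by group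
        _ = x := by rw [h1]; group
    calc (A * B) * x = (A * B) * x * (A * B)⁻¹ * (A * B) := by group
      _ = x * (A * B) := by rw [h3]
  have hABT : (A * B) * (A * B) = 1 := congrArg Subtype.val (hexp _ (T.mul_mem a.2 b.2))
  have hABne : A * B ≠ 1 := by
    intro h0
    have hA2 : A * A = 1 := congrArg Subtype.val (hexp (a : N) a.2)
    have : B = A := by
      have h1 : A * (A * B) = A := by rw [h0, mul_one]
      rwa [← mul_assoc, hA2, one_mul] at h1
    apply hab
    exact Subtype.ext (Subtype.ext this.symm)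
  have h1 : orderOf (A * B) = 2 :=
    orderOf_eq_prime (by rw [pow_two]; exact hABT) hABne
  have h2 := orderOf_dvd_five hc x _ hx hxAB
  rw [h1] at h2
  omega

/-- An element of prime order `p` with `3 ∤ |C|` does not normalize a Sylow 3-subgroup. -/
theorem no_normalize (hc : Ctx G) (R : Sylow 3 G) (hR : Nat.card (R : Subgroup G) = 9) (p : ℕ) (hp : p.Prime)
    (hp8 : 8 % p ≠ 0) (hp3 : p ≠ 3) (y : G) (hy : orderOf y = p)
    (hyC : ∀ g : G, g * y = y * g → orderOf g ∣ p) (hyN : y ∈ normalizer ((R : Subgroup G) : Set G)) :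
    False := by
  classical
  haveI : Fintype G := Fintype.ofFinite G
  let X : Finset G := (Finset.univ.filter (· ∈ (R : Subgroup G))).erase 1
  have hXc : X.card = 8 := by
    have h1 : (Finset.univ.filter (· ∈ (R : Subgroup G))).card = 9 := by
      rw [← hR, Nat.card_eq_fintype_card, Fintype.card_subtype]
    rw [Finset.card_erase_of_mem (by simp [(R : Subgroup G).one_mem]), h1]
  have hfix := card_modEq_fixed X (fun v => y * v * y⁻¹) (by
    intro a ha
    simp only [X, Finset.mem_erase, Finset.mem_filter, Finset.mem_univ, true_and] at ha ⊢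
    refine ⟨?_, (mem_normalizer_iff.1 hyN a).1 ha.2⟩
    intro h0
    apply ha.1
    have : a = y⁻¹ * (y * a * y⁻¹) * y := by group
    rw [this, h0]
    group) hp (by
    intro v _
    rw [iter_conj, ← hy, pow_orderOf_eq_one]
    simp)
  rw [hXc] at hfix
  have hne : (X.filter fun a => y * a * y⁻¹ = a).Nonempty := by
    rw [← Finset.card_pos]
    by_contra h0
    have h1 : (X.filter fun a => y * a * y⁻¹ = a).card = 0 := by omega
    rw [h1] at hfix
    exact hp8 (by simpa using hfix)
  obtain ⟨v, hv⟩ := hne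
  simp only [X, Finset.mem_filter, Finset.mem_erase, Finset.mem_univ, true_and] at hv
  obtain ⟨⟨hv1, hvR⟩, hvy⟩ := hv
  have hcomm : v * y = y * v := by
    calc v * y = y * v * y⁻¹ * y := by rw [hvy]
      _ = y * v := by group
  have h1 := hyC v hcomm
  have h2 : orderOf v ∣ 9 := by
    have := orderOf_dvd_natCard (⟨v, hvR⟩ : (R : Subgroup G))
    rwa [Subgroup.orderOf_mk, hR] at this
  have hcop : Nat.Coprime p 9 := by
    have : Nat.Coprime p (3 ^ 2) := Nat.Coprime.pow_right 2 ((Nat.coprime_primes hp (by norm_num)).2 hp3)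
    simpa using this
  have h3 : orderOf v = 1 := Nat.eq_one_of_dvd_coprimes hcop h1 h2
  exact hv1 (orderOf_eq_one_iff.1 h3)

/-- Sylow data for the prime 3. -/
theorem sylow_three (hc : Ctx G) (R : Sylow 3 G) :
    Nat.card (R : Subgroup G) = 9 ∧ Nat.card (normalizer ((R : Subgroup G) : Set G)) = 36 ∧
      ∀ a ∈ (R : Subgroup G), ∀ b ∈ (R : Subgroup G), a * b = b * a := by
  classical
  haveI : Fact (Nat.Prime 3) := ⟨by norm_num⟩
  have hR : Nat.card (R : Subgroup G) = 9 := by
    have := card_sylow_eq (p := 3) (a := 2) (m := 280) (by rw [hc.card]; norm_num) (by norm_num) R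
    rw [this]
    norm_num
  have hcomm : ∀ a ∈ (R : Subgroup G), ∀ b ∈ (R : Subgroup G), a * b = b * a := by
    intro a ha b hb
    have h1 := IsPGroup.commutative_of_card_eq_prime_sq (p := 3) (G := (R : Subgroup G)) (by rw [hR]; norm_num)
    exact congrArg Subtype.val (h1 ⟨a, ha⟩ ⟨b, hb⟩)
  refine ⟨hR, ?_, hcomm⟩
  have hNmul := card_normalizer_mul R
  rw [hc.card] at hNmul
  have hidx : (R : Subgroup G).index = 280 := by
    have h4 := Subgroup.card_mul_index (R : Subgroup G)
    rw [hR, hc.card] at h4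
    omega
  have hnd : Nat.card (Sylow 3 G) ∣ 280 := by
    have h2 := R.card_dvd_index
    rwa [hidx] at h2
  have hn3 : Nat.card (Sylow 3 G) % 3 = 1 := by
    have h1 : Nat.card (Sylow 3 G) % 3 = 1 % 3 := card_sylow_modEq_one 3 G
    simpa using h1
  have hNt : normalizer ((R : Subgroup G) : Set G) ≠ ⊤ := by
    apply normalizer_ne_top
    · intro h0
      rw [h0, Subgroup.card_bot] at hR
      omega
    · intro h0
      rw [h0, Subgroup.card_top, hc.card] at hR
      omega
  have hle := card_le hc _ hNt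
  have hn8 : 8 ≤ Nat.card (Sylow 3 G) := by
    by_contra hcon
    push_neg at hcon
    have : Nat.card (normalizer ((R : Subgroup G) : Set G)) * Nat.card (Sylow 3 G) ≤ 315 * 7 :=
      Nat.mul_le_mul hle (by omega)
    omega
  have key : ∀ d ∈ (280 : ℕ).divisors, d % 3 = 1 → 8 ≤ d → d = 10 ∨ d = 28 ∨ d = 40 ∨ d = 70 ∨ d = 280 := by
    decide +kernel
  have no7 : ¬ 7 ∣ Nat.card (normalizer ((R : Subgroup G) : Set G)) := by
    intro h7
    obtain ⟨y, hy⟩ := exists_prime_orderOf_dvd_card' (G := normalizer ((R : Subgroup G) : Set G)) 7 h7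
    exact no_normalize hc R hR 7 (by norm_num) (by norm_num) (by norm_num) (y : G)
      (by rw [Subgroup.orderOf_coe, hy])
      (fun g hg => orderOf_dvd_seven hc _ g (by rw [Subgroup.orderOf_coe, hy]) hg) y.2
  have no5 : ¬ 5 ∣ Nat.card (normalizer ((R : Subgroup G) : Set G)) := by
    intro h7
    obtain ⟨y, hy⟩ := exists_prime_orderOf_dvd_card' (G := normalizer ((R : Subgroup G) : Set G)) 5 h7
    exact no_normalize hc R hR 5 (by norm_num) (by norm_num) (by norm_num) (y : G)
      (by rw [Subgroup.orderOf_coe, hy])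
      (fun g hg => orderOf_dvd_five hc _ g (by rw [Subgroup.orderOf_coe, hy]) hg) y.2
  rcases key _ (Nat.mem_divisors.2 ⟨hnd, by norm_num⟩) hn3 hn8 with h | h | h | h | h <;> rw [h] at hNmul
  · exact absurd (by omega) no7
  · exact absurd (by omega) no5
  · exact absurd (by omega) no7
  · omega
  · exfalso
    have h9 : Nat.card (normalizer ((R : Subgroup G) : Set G)) = 9 := by omega
    have hNR : normalizer ((R : Subgroup G) : Set G) = (R : Subgroup G) := by
      symm
      exact Subgroup.eq_of_le_of_card_ge Subgroup.le_normalizer (by rw [h9, hR])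
    have hle : normalizer ((R : Subgroup G) : Set G) ≤ centralizer ((R : Subgroup G) : Set G) := by
      rw [hNR]
      intro a ha
      rw [Subgroup.mem_centralizer_iff]
      intro b hb
      exact hcomm b hb a ha
    have := card_eq_of_le_centralizer (by rw [hc.card]; norm_num) R hle
    rw [hR, hc.card] at this
    omega

end Cfsg.Agent.Lib.A7Rec
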