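import Mathlib
import Cfsg.Agent.Lib.A7Rec.Five

/-!
# A simple group of order 2520 without a subgroup of index 7: the Sylow 2-subgroups are dihedral
-/

set_option autoImplicit false
set_option linter.style.haveILetI false
set_option linter.unusedVariables false
set_option linter.unusedSectionVars false
set_option linter.unusedSimpArgs false

namespace Cfsg.Agent.Lib.A7Rec

open Subgroup Cfsg.Agent.Lib.SmallCen.SmallOrder Cfsg.Agent.Lib.SmallOrd
open Cfsg.Agent.Lib.Basic.SmallSimple Cfsg.Agent.Lib.SmallOrd.ClassSign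
open Cfsg.Agent.Lib.SmallOrd.InvolTools Cfsg.Agent.Lib.SmallOrd.OrderEight
open scoped Pointwise

variable {G : Type*} [Group G]

omit [Group G] in
/-- Shorthand for the conjugate of an involution. -/
theorem conj_invol {G : Type*} [Group G] {a : G} (g : G) (h : a * a = 1) :
    (g * a * g⁻¹) * (g * a * g⁻¹) = 1 := by
  calc g * a * g⁻¹ * (g * a * g⁻¹) = g * (a * a) * g⁻¹ := by group
    _ = 1 := by rw [h]; group

theorem conj_ne_one_iff {a : G} (g : G) : g * a * g⁻¹ = 1 ↔ a = 1 := by
  constructor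
  · intro h
    have : a = g⁻¹ * (g * a * g⁻¹) * g := by group
    rw [this, h]
    group
  · rintro rfl
    group

theorem conj_ne_one' {a : G} (g : G) (h : a ≠ 1) : g * a * g⁻¹ ≠ 1 :=
  fun h0 => h ((conj_ne_one_iff g).1 h0)

theorem conj_inj {a b : G} (g : G) (h : g * a * g⁻¹ = g * b * g⁻¹) : a = b := by
  have h1 : a = g⁻¹ * (g * a * g⁻¹) * g := by group
  rw [h1, h]
  group

theorem comm_of_conj_eq {g a : G} (h : g * a * g⁻¹ = a) : g * a = a * g := by
  calc g * a = g * a * g⁻¹ * g := by group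
    _ = a * g := by rw [h]

theorem conj_eq_of_comm {g a : G} (h : g * a = a * g) : g * a * g⁻¹ = a := by
  rw [h]
  group

/-- Orders are preserved by conjugation. -/
theorem orderOf_conj' (g a : G) : orderOf (g * a * g⁻¹) = orderOf a := by
  rw [← MulAut.conj_apply, MulEquiv.orderOf_eq]

theorem inv_of_invol {a : G} (h : a * a = 1) : a⁻¹ = a := inv_eq_of_mul_eq_one_left h

theorem orderOf_eq_two {a : G} (h : a * a = 1) (h1 : a ≠ 1) : orderOf a = 2 :=
  orderOf_eq_prime (by rw [pow_two]; exact h) h1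

theorem mul_self_of_order_two {a : G} (h : orderOf a = 2) : a * a = 1 := by
  rw [← pow_two, ← h]
  exact pow_orderOf_eq_one a

variable [Finite G]

/-- The dihedral relations. -/
structure D8 (r n : G) : Prop where
  ord : orderOf r = 4
  n2 : n * n = 1
  inv : n * r * n⁻¹ = r⁻¹
  ne1 : n ≠ 1
  nez : n ≠ r * r

namespace D8

variable {r n : G}

theorem r4 (h : D8 r n) : (r * r) * (r * r) = 1 := sq_sq_of_order_four r h.ord

theorem z1 (h : D8 r n) : r * r ≠ 1 := sq_ne_one_of_order_four r h.ord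

theorem r1 (h : D8 r n) : r ≠ 1 := by
  rintro rfl
  exact h.z1 (by simp)

theorem r_inv (h : D8 r n) : r⁻¹ = r * (r * r) := by
  have h1 := h.r4
  rw [eq_comm, ← mul_eq_one_iff_eq_inv]
  calc r * (r * r) * r = r * r * (r * r) := by group
    _ = 1 := h1

theorem ninv (h : D8 r n) : n⁻¹ = n := inv_of_invol h.n2

theorem nrn (h : D8 r n) : n * r * n = r⁻¹ := by
  have := h.inv
  rwa [h.ninv] at this

theorem nr_comm (h : D8 r n) : n * r = r⁻¹ * n := by
  calc n * r = n * r * n * n := by
        rw [mul_assoc (n * r), h.n2, mul_one]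
    _ = r⁻¹ * n := by rw [h.nrn]

theorem nz_comm (h : D8 r n) : n * (r * r) = (r * r) * n := by
  have h1 : n * (r * r) * n⁻¹ = r * r := by
    calc n * (r * r) * n⁻¹ = (n * r * n⁻¹) * (n * r * n⁻¹) := by group
      _ = r⁻¹ * r⁻¹ := by rw [h.inv]
      _ = (r * r)⁻¹ := by group
      _ = r * r := inv_of_invol h.r4
  exact comm_of_conj_eq h1

/-- Elements outside the cyclic subgroup are reflections. -/
theorem refl_zpow (h : D8 r n) (w : G) (hw : w ∈ zpowers r) : (n * w) * (n * w) = 1 := by
  obtain ⟨k, rfl⟩ := Subgroup.mem_zpowers_iff.1 hw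
  have h1 : n * r ^ k * n⁻¹ = (r⁻¹) ^ k := by
    rw [← h.inv, conj_zpow]
  calc n * r ^ k * (n * r ^ k) = (n * r ^ k * n⁻¹) * (n * n) * r ^ k := by group
    _ = 1 := by rw [h1, h.n2]; simp

theorem refl_inv (h : D8 r n) (w : G) (hw : w ∈ zpowers r) : (n * w) * r * (n * w)⁻¹ = r⁻¹ := by
  obtain ⟨k, rfl⟩ := Subgroup.mem_zpowers_iff.1 hw
  have h1 : r ^ k * r * (r ^ k)⁻¹ = r := by
    have : Commute (r ^ k) r := (Commute.refl r).zpow_left k
    rw [this.eq]
    group
  calc n * r ^ k * r * (n * r ^ k)⁻¹ = n * (r ^ k * r * (r ^ k)⁻¹) * n⁻¹ := by group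
    _ = r⁻¹ := by rw [h1, h.inv]

theorem not_mem (h : D8 r n) : n ∉ zpowers r := by
  intro hn
  obtain ⟨-, hW⟩ := zpowers_four r (r * r) rfl h.r4 h.z1
  rcases hW n hn with h1 | h1 | h1 | h1
  · exact h.ne1 h1
  · apply h.z1
    rw [← h.n2, h1]
  · exact h.nez h1
  · apply h.z1
    have h2 := h.n2
    rw [h1] at h2
    have h3 : r * (r * r) * (r * (r * r)) = (r * r) * ((r * r) * (r * r)) := by group
    rw [h3, h.r4, mul_one] at h2
    exact h2

/-- Conjugates of dihedral data. -/
theorem conj (h : D8 r n) (g : G) : D8 (g * r * g⁻¹) (g * n * g⁻¹) where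
  ord := by rw [orderOf_conj', h.ord]
  n2 := conj_invol g h.n2
  inv := by
    calc g * n * g⁻¹ * (g * r * g⁻¹) * (g * n * g⁻¹)⁻¹ = g * (n * r * n⁻¹) * g⁻¹ := by group
      _ = (g * r * g⁻¹)⁻¹ := by rw [h.inv]; group
  ne1 := conj_ne_one' g h.ne1
  nez := by
    intro h0
    apply h.nez
    apply conj_inj g
    rw [h0]
    group

/-- A reflection also gives dihedral data. -/
theorem refl (h : D8 r n) : D8 r (n * r) where
  ord := h.ord
  n2 := h.refl_zpow r (mem_zpowers r)
  inv := h.refl_inv r (mem_zpowers r)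
  ne1 := by
    intro h0
    apply h.not_mem
    have : n = r⁻¹ := eq_inv_of_mul_eq_one_left h0
    rw [this]
    exact inv_mem (mem_zpowers r)
  nez := by
    intro h0
    apply h.not_mem
    have : n = r := by
      have h1 : n * r = r * r := h0
      exact mul_right_cancel h1
    rw [this]
    exact mem_zpowers r

theorem refl_of_mem (h : D8 r n) (w : G) (hw : w ∈ zpowers r) : D8 r (n * w) where
  ord := h.ord
  n2 := h.refl_zpow w hw
  inv := h.refl_inv w hw
  ne1 := by
    intro h0
    apply h.not_mem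
    have : n = w⁻¹ := eq_inv_of_mul_eq_one_left h0
    rw [this]
    exact inv_mem hw
  nez := by
    intro h0
    apply h.not_mem
    have h2 : r * r ∈ zpowers r := mul_mem (mem_zpowers r) (mem_zpowers r)
    have : n = r * r * w⁻¹ := eq_mul_inv_of_mul_eq h0
    rw [this]
    exact mul_mem h2 (inv_mem hw)

end D8

/-- A subgroup of order 8 through `r` and `n`. -/
theorem D8.mem_cases {r n : G} (h : D8 r n) (S : Subgroup G) (hS : Nat.card S = 8) (hr : r ∈ S) (hn : n ∈ S)
    (g : G) (hg : g ∈ S) : g ∈ zpowers r ∨ n * g ∈ zpowers r := by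
  obtain ⟨hWc, -⟩ := zpowers_four r (r * r) rfl h.r4 h.z1
  have hWS : zpowers r ≤ S := (Subgroup.zpowers_le).2 hr
  have hidx : (zpowers r).relIndex S = 2 := by
    have h1 := Cfsg.Agent.Lib.Perm.SylowIn.card_mul_relIndex hWS
    rw [hWc, hS] at h1
    omega
  by_cases hgW : g ∈ zpowers r
  · exact Or.inl hgW
  · exact Or.inr (mul_mem_of_relIndex_two hidx hn hg h.not_mem hgW)

/-- The elements of `zpowers r`. -/
theorem D8.zp_cases {r n : G} (h : D8 r n) (g : G) (hg : g ∈ zpowers r) :
    g = 1 ∨ g = r ∨ g = r * r ∨ g = r⁻¹ := by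
  obtain ⟨-, hW⟩ := zpowers_four r (r * r) rfl h.r4 h.z1
  rcases hW g hg with h1 | h1 | h1 | h1
  · exact Or.inl h1
  · exact Or.inr (Or.inl h1)
  · exact Or.inr (Or.inr (Or.inl h1))
  · exact Or.inr (Or.inr (Or.inr (by rw [h1, h.r_inv])))

/-- The elements of a subgroup of order 8 through `r` and `n`. -/
theorem D8.mem_list {r n : G} (h : D8 r n) (S : Subgroup G) (hS : Nat.card S = 8) (hr : r ∈ S) (hn : n ∈ S)
    (g : G) (hg : g ∈ S) : g = 1 ∨ g = r ∨ g = r * r ∨ g = r⁻¹ ∨
      g = n ∨ g = n * r ∨ g = n * (r * r) ∨ g = n * r⁻¹ := by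
  rcases h.mem_cases S hS hr hn g hg with h1 | h1
  · rcases h.zp_cases g h1 with h2 | h2 | h2 | h2 <;> simp [h2]
  · have hgn : g = n * (n * g) := by
      rw [← mul_assoc, h.n2, one_mul]
    rcases h.zp_cases _ h1 with h2 | h2 | h2 | h2 <;> rw [h2] at hgn <;> simp [hgn]

variable [IsSimpleGroup G]

theorem card_sylow_two (hc : Ctx G) (S : Sylow 2 G) : Nat.card (S : Subgroup G) = 8 := by
  haveI : Fact (Nat.Prime 2) := ⟨Nat.prime_two⟩
  have := card_sylow_eq (p := 2) (a := 3) (m := 315) (by rw [hc.card]; norm_num) (by norm_num) S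
  rw [this]
  norm_num

omit [IsSimpleGroup G] in
/-- A subgroup of order 8 is a Sylow subgroup. -/
theorem exists_sylow_of_card_eight (hc : Ctx G) (T : Subgroup G) (hT : Nat.card T = 8) :
    ∃ P : Sylow 2 G, (P : Subgroup G) = T := by
  haveI : Fact (Nat.Prime 2) := ⟨Nat.prime_two⟩
  have hfac : (Nat.card G).factorization 2 = 3 := by
    rw [hc.card, show (2520 : ℕ) = 2 ^ 3 * 315 by norm_num,
      Nat.factorization_mul (by norm_num) (by norm_num), Finsupp.add_apply,
      Nat.Prime.factorization_pow Nat.prime_two, Finsupp.single_eq_same,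
      Nat.factorization_eq_zero_of_not_dvd (by norm_num)]
  exact ⟨Sylow.ofCard T (by rw [hT, hfac]; norm_num), Sylow.coe_ofCard _ _⟩

omit [IsSimpleGroup G] in
/-- Two subgroups of the Sylow order in a subgroup: conjugate. -/
theorem card_sylow_in (hc : Ctx G) (H : Subgroup G) (h8 : 8 ∣ Nat.card H) :
    ∃ m, Nat.card H = 2 ^ 3 * m ∧ ¬ 2 ∣ m := by
  obtain ⟨m, hm⟩ := h8
  refine ⟨m, by rw [hm]; norm_num, ?_⟩
  intro h2
  have h1 : Nat.card H ∣ 2520 := by
    rw [← hc.card]
    exact Subgroup.card_subgroup_dvd_card H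
  obtain ⟨a, rfl⟩ := h2
  have h3 : 16 ∣ 2520 := by
    refine Dvd.dvd.trans ?_ h1
    rw [hm]
    exact ⟨a, by ring⟩
  omega

/-- A 2-subgroup of the centralizer of an involution lies in a Sylow subgroup of the centralizer. -/
theorem sylow_in_cent (hc : Ctx G) (z : G) (hz : z * z = 1) (hz1 : z ≠ 1) (T : Subgroup G)
    (hTC : T ≤ centralizer ({z} : Set G)) (hT : IsPGroup 2 T) :
    ∃ P : Sylow 2 G, T ≤ (P : Subgroup G) ∧ z ∈ (P : Subgroup G) ∧
      (P : Subgroup G) ≤ centralizer ({z} : Set G) := by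
  classical
  haveI : Fact (Nat.Prime 2) := ⟨Nat.prime_two⟩
  set H := centralizer ({z} : Set G) with hH
  obtain ⟨m, hm, hm2⟩ := card_sylow_in hc H (eight_dvd hc z hz)
  have hT' : IsPGroup 2 (T.subgroupOf H) :=
    hT.comap_of_injective H.subtype H.subtype_injective
  obtain ⟨Q, hQ⟩ := hT'.exists_le_sylow
  have hQc : Nat.card (Q : Subgroup ↥H) = 2 ^ 3 := card_sylow_eq hm hm2 Q
  have hzH : z ∈ H := by
    rw [hH, Subgroup.mem_centralizer_singleton_iff]
  have hzQ : (⟨z, hzH⟩ : ↥H) ∈ (Q : Subgroup ↥H) := by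
    apply mem_of_mem_normalizer Q
    · rw [Subgroup.mem_normalizer_iff]
      intro h
      have h1 : (⟨z, hzH⟩ : ↥H) * h * (⟨z, hzH⟩ : ↥H)⁻¹ = h := by
        apply Subtype.ext
        have := (Subgroup.mem_centralizer_singleton_iff).1 h.2
        show z * (h : G) * z⁻¹ = h
        rw [← this]
        group
      rw [h1]
    · rw [Subgroup.orderOf_mk]
      exact orderOf_eq_two hz hz1
  obtain ⟨P, hP⟩ := exists_sylow_of_card_eight hc ((Q : Subgroup ↥H).map H.subtype) (by
    rw [Subgroup.card_map_of_injective H.subtype_injective, hQc]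
    norm_num)
  refine ⟨P, ?_, ?_, ?_⟩
  · rw [hP]
    intro t ht
    exact ⟨⟨t, hTC ht⟩, hQ (by rw [Subgroup.mem_subgroupOf]; exact ht), rfl⟩
  · rw [hP]
    exact ⟨⟨z, hzH⟩, hzQ, rfl⟩
  · rw [hP]
    exact Subgroup.map_subtype_le _

/-- All involutions are conjugate to the square of a fixed element of order 4. -/
theorem exists_base (hc : Ctx G) : ∃ r₀ : G, orderOf r₀ = 4 ∧ ∀ t : G, t * t = 1 → t ≠ 1 →
    ∃ g : G, g * (r₀ * r₀) * g⁻¹ = t := by
  classical
  obtain ⟨r, hr⟩ := exists_order_four hc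
  refine ⟨r, hr, ?_⟩
  intro t ht ht1
  have hz2 := sq_sq_of_order_four r hr
  have hz1 := sq_ne_one_of_order_four r hr
  obtain ⟨hWc, hWm⟩ := zpowers_four r (r * r) rfl hz2 hz1
  have hidx : (zpowers r).index % 4 = 2 := by
    have h1 := card_mul hc (zpowers r)
    rw [hWc] at h1
    omega
  obtain ⟨g, hg⟩ := exists_conj_mem_of_index (by rw [hc.card]; norm_num) (zpowers r) hidx t ht
  have hs2 : (g⁻¹ * t * g) * (g⁻¹ * t * g) = 1 := by
    have := conj_invol g⁻¹ ht
    simpa using this
  have hs1 : g⁻¹ * t * g ≠ 1 := by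
    have := conj_ne_one' g⁻¹ ht1
    simpa using this
  have hsz : g⁻¹ * t * g = r * r := by
    rcases hWm _ hg with h3 | h3 | h3 | h3
    · exact absurd h3 hs1
    · exfalso
      rw [h3] at hs2
      exact hz1 hs2
    · exact h3
    · exfalso
      rw [h3] at hs2
      have h4 : r * (r * r) * (r * (r * r)) = (r * r) * ((r * r) * (r * r)) := by group
      rw [h4, hz2, mul_one] at hs2
      exact hz1 hs2
  refine ⟨g, ?_⟩
  rw [← hsz]
  group

/-- Every involution is a square of an element of order 4. -/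
theorem exists_sqrt (hc : Ctx G) (t : G) (ht : t * t = 1) (ht1 : t ≠ 1) :
    ∃ r : G, orderOf r = 4 ∧ r * r = t := by
  obtain ⟨r₀, hr₀, hall⟩ := exists_base hc
  obtain ⟨g, hg⟩ := hall t ht ht1
  refine ⟨g * r₀ * g⁻¹, by rw [orderOf_conj', hr₀], ?_⟩
  rw [← hg]
  group

/-- All involutions are conjugate. -/
theorem invol_conj (hc : Ctx G) (s t : G) (hs : s * s = 1) (hs1 : s ≠ 1) (ht : t * t = 1) (ht1 : t ≠ 1) :
    ∃ g : G, g * s * g⁻¹ = t := by
  obtain ⟨r₀, hr₀, hall⟩ := exists_base hc
  obtain ⟨g, hg⟩ := hall t ht ht1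
  obtain ⟨h, hh⟩ := hall s hs hs1
  refine ⟨g * h⁻¹, ?_⟩
  rw [← hg, ← hh]
  group

/-- The Sylow 2-subgroups are dihedral. -/
theorem exists_reflection (hc : Ctx G) (r : G) (hr : orderOf r = 4) (S : Sylow 2 G)
    (hrS : r ∈ (S : Subgroup G)) : ∃ n ∈ (S : Subgroup G), D8 r n := by
  classical
  haveI : Fact (Nat.Prime 2) := ⟨Nat.prime_two⟩
  have hS := card_sylow_two hc S
  have hz2 := sq_sq_of_order_four r hr
  have hz1 := sq_ne_one_of_order_four r hr
  obtain ⟨hWc, hWm⟩ := zpowers_four r (r * r) rfl hz2 hz1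
  have hWS : zpowers r ≤ (S : Subgroup G) := (Subgroup.zpowers_le).2 hrS
  have hidx : (zpowers r).relIndex (S : Subgroup G) = 2 := by
    have h1 := Cfsg.Agent.Lib.Perm.SylowIn.card_mul_relIndex hWS
    rw [hWc, hS] at h1
    omega
  have hnorm := le_normalizer_of_index_prime Nat.prime_two hWS S.2 hidx
  have hzS : (S : Subgroup G) ≤ centralizer ({r * r} : Set G) := by
    intro s hs
    rw [Subgroup.mem_centralizer_singleton_iff]
    have h1 := sq_central_of_order_four (S : Subgroup G) hS r hrS hr s hs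
    exact comm_of_conj_eq h1
  by_contra hno
  push_neg at hno
  -- the action of `S` on `r`
  have hact : ∀ v ∈ (S : Subgroup G), v * r * v⁻¹ = r ∨ v * r * v⁻¹ = r⁻¹ := by
    intro v hv
    have h1 : v * r * v⁻¹ ∈ zpowers r := (mem_normalizer_iff.1 (hnorm hv) r).1 (mem_zpowers r)
    have hno' : orderOf (v * r * v⁻¹) = 4 := by rw [orderOf_conj', hr]
    rcases hWm _ h1 with h3 | h3 | h3 | h3
    · rw [h3, orderOf_one] at hno'
      omega
    · exact Or.inl h3
    · exfalso
      rw [h3] at hno'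
      rw [orderOf_eq_two hz2 hz1] at hno'
      omega
    · right
      rw [h3, ← mul_eq_one_iff_eq_inv]
      calc r * (r * r) * r = r * r * (r * r) := by group
        _ = 1 := hz2
  -- involutions other than `z` commute with `r`
  have hinv : ∀ v ∈ (S : Subgroup G), v * v = 1 → v ≠ 1 → v ≠ r * r → v * r = r * v := by
    intro v hv hv2 hv1 hvz
    rcases hact v hv with h1 | h1
    · exact comm_of_conj_eq h1
    · exact absurd ⟨hr, hv2, h1, hv1, hvz⟩ (hno v hv)
  by_cases hcase : ∃ v ∈ (S : Subgroup G), v * v = 1 ∧ v ≠ 1 ∧ v ≠ r * r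
  · -- abelian case: fusion
    obtain ⟨v, hvS, hv2, hv1, hvz⟩ := hcase
    have hvr := hinv v hvS hv2 hv1 hvz
    have hvW : v ∉ zpowers r := by
      intro hv
      rcases hWm v hv with h3 | h3 | h3 | h3
      · exact hv1 h3
      · apply hz1
        rw [← h3]
        exact hv2
      · exact hvz h3
      · apply hz1
        rw [h3] at hv2
        have h4 : r * (r * r) * (r * (r * r)) = (r * r) * ((r * r) * (r * r)) := by group
        rw [h4, hz2, mul_one] at hv2
        exact hv2
    -- every element of `S` commutes with `v` and has square `1` or `z`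
    have hcases : ∀ s ∈ (S : Subgroup G), s ∈ zpowers r ∨ v * s ∈ zpowers r := by
      intro s hs
      by_cases hsW : s ∈ zpowers r
      · exact Or.inl hsW
      · exact Or.inr (mul_mem_of_relIndex_two hidx hvS hs hvW hsW)
    have hvcomm : ∀ w ∈ zpowers r, v * w = w * v := by
      intro w hw
      obtain ⟨k, rfl⟩ := Subgroup.mem_zpowers_iff.1 hw
      exact ((show Commute v r from hvr).zpow_right k).eq
    have hsq : ∀ w ∈ zpowers r, w * w = 1 ∨ w * w = r * r := by
      intro w hw
      rcases hWm w hw with h3 | h3 | h3 | h3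
      · left
        rw [h3, one_mul]
      · right
        rw [h3]
      · left
        rw [h3]
        exact hz2
      · right
        rw [h3]
        calc r * (r * r) * (r * (r * r)) = r * r * ((r * r) * (r * r)) := by group
          _ = r * r := by rw [hz2, mul_one]
    have hSsq : ∀ s ∈ (S : Subgroup G), s * s = 1 ∨ s * s = r * r := by
      intro s hs
      rcases hcases s hs with h1 | h1
      · exact hsq s h1
      · have h2 := hsq _ h1
        have h3 : v * s * (v * s) = s * s := by
          have hc1 : s = v * (v * s) := by rw [← mul_assoc, hv2, one_mul]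
          have hc2 := hvcomm _ h1
          calc v * s * (v * s) = v * (s * v) * s := by group
            _ = v * (v * (v * s) * v) * s := by rw [← hc1]
            _ = (v * v) * ((v * s) * v) * s := by group
            _ = ((v * s) * v) * s := by rw [hv2, one_mul]
            _ = (v * (v * s)) * s := by rw [hc2]
            _ = s * s := by rw [← hc1]
        rwa [h3] at h2
    have hScomm : ∀ a ∈ (S : Subgroup G), ∀ b ∈ (S : Subgroup G), a * b = b * a := by
      have hW : ∀ a ∈ zpowers r, ∀ b ∈ zpowers r, Commute a b := by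
        intro a ha b hb
        obtain ⟨k, rfl⟩ := Subgroup.mem_zpowers_iff.1 ha
        obtain ⟨l, rfl⟩ := Subgroup.mem_zpowers_iff.1 hb
        exact (Commute.refl r).zpow_zpow k l
      have hvc : ∀ w ∈ zpowers r, Commute v w := hvcomm
      have hform : ∀ s ∈ (S : Subgroup G), ∃ w ∈ zpowers r, s = w ∨ s = v * w := by
        intro s hs
        rcases hcases s hs with h1 | h1
        · exact ⟨s, h1, Or.inl rfl⟩
        · exact ⟨v * s, h1, Or.inr (by rw [← mul_assoc, hv2, one_mul])⟩
      intro a ha b hb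
      obtain ⟨w₁, hw₁, h1⟩ := hform a ha
      obtain ⟨w₂, hw₂, h2⟩ := hform b hb
      have key : Commute a b := by
        rcases h1 with rfl | rfl <;> rcases h2 with rfl | rfl
        · exact hW _ hw₁ _ hw₂
        · exact Commute.mul_right (hvc _ hw₁).symm (hW _ hw₁ _ hw₂)
        · exact Commute.mul_left (hvc _ hw₂) (hW _ hw₁ _ hw₂)
        · exact Commute.mul_left (Commute.mul_right (Commute.refl v) (hvc _ hw₂))
            (Commute.mul_right (hvc _ hw₁).symm (hW _ hw₁ _ hw₂))
      exact key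
    -- fusion
    obtain ⟨g, hg⟩ := invol_conj hc (r * r) v hz2 hz1 hv2 hv1
    let A : Subgroup G := (S : Subgroup G).map (MulAut.conj g).toMonoidHom
    have hAc : Nat.card A = 2 ^ 3 := by
      rw [Subgroup.card_map_of_injective (MulAut.conj g).injective, hS]
      norm_num
    have hSle : (S : Subgroup G) ≤ centralizer ({v} : Set G) := by
      intro s hs
      rw [Subgroup.mem_centralizer_singleton_iff]
      exact hScomm s hs v hvS
    have hAle : A ≤ centralizer ({v} : Set G) := by
      rintro _ ⟨s, hs, rfl⟩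
      rw [Subgroup.mem_centralizer_singleton_iff]
      have h1 : s * (r * r) = (r * r) * s := by
        have := hzS hs
        rwa [Subgroup.mem_centralizer_singleton_iff] at this
      show g * s * g⁻¹ * v = v * (g * s * g⁻¹)
      rw [← hg]
      calc g * s * g⁻¹ * (g * (r * r) * g⁻¹) = g * (s * (r * r)) * g⁻¹ := by group
        _ = g * ((r * r) * s) * g⁻¹ := by rw [h1]
        _ = _ := by group
    obtain ⟨m, hm, hm2⟩ := card_sylow_in hc _ (eight_dvd hc v hv2)
    obtain ⟨c, hcC, hcm⟩ := exists_conj_of_card (p := 2) hAle hSle hAc (by rw [hS]; norm_num) hm hm2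
    have hcv : c * v = v * c := by
      rwa [Subgroup.mem_centralizer_singleton_iff] at hcC
    have hr' : c * (g * r * g⁻¹) * c⁻¹ ∈ (S : Subgroup G) :=
      hcm _ ⟨r, hrS, rfl⟩
    have hsqr : (c * (g * r * g⁻¹) * c⁻¹) * (c * (g * r * g⁻¹) * c⁻¹) = v := by
      calc (c * (g * r * g⁻¹) * c⁻¹) * (c * (g * r * g⁻¹) * c⁻¹) = c * (g * (r * r) * g⁻¹) * c⁻¹ := by group
        _ = c * v * c⁻¹ := by rw [hg]
        _ = v := conj_eq_of_comm hcv
    rcases hSsq _ hr' with h1 | h1
    · rw [hsqr] at h1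
      exact hv1 h1
    · rw [hsqr] at h1
      exact hvz h1
  · -- unique involution
    push_neg at hcase
    have hKset : (Kset (r * r)).card = 1 := by
      rw [Finset.card_eq_one]
      refine ⟨r * r, ?_⟩
      ext v
      rw [mem_Kset, Finset.mem_singleton]
      constructor
      · rintro ⟨hvc, hvz⟩
        obtain ⟨g, rfl⟩ := isConj_iff.1 hvc
        set v := g * (r * r) * g⁻¹ with hv
        have hv2 : v * v = 1 := conj_invol g hz2
        have hv1 : v ≠ 1 := conj_ne_one' g hz1
        have hTle : zpowers v ≤ centralizer ({r * r} : Set G) := by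
          rw [Subgroup.zpowers_le, Subgroup.mem_centralizer_singleton_iff]
          exact hvz.symm
        have hTp : IsPGroup 2 (zpowers v) := IsPGroup.of_card (n := 1) (by
          rw [Nat.card_zpowers, orderOf_eq_two hv2 hv1, pow_one])
        obtain ⟨P, hvP, hzP, -⟩ := sylow_in_cent hc (r * r) hz2 hz1 _ hTle hTp
        obtain ⟨h, hh⟩ := MulAction.exists_smul_eq G P S
        have hconj : ∀ a ∈ (P : Subgroup G), h * a * h⁻¹ ∈ (S : Subgroup G) := by
          intro a ha
          rw [← hh]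
          change h * a * h⁻¹ ∈ MulAut.conj h • (P : Subgroup G)
          exact Subgroup.smul_mem_pointwise_smul _ _ _ ha
        have hvP' := hconj v (hvP (mem_zpowers v))
        have hzP' := hconj _ hzP
        have e1 : h * v * h⁻¹ = r * r := hcase _ hvP' (conj_invol h hv2) (conj_ne_one' h hv1)
        have e2 : h * (r * r) * h⁻¹ = r * r := hcase _ hzP' (conj_invol h hz2) (conj_ne_one' h hz1)
        apply conj_inj h
        rw [e1, e2]
      · rintro rfl
        exact ⟨IsConj.refl _, rfl⟩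
    exact false_of_Kset_card_one (not_prime_card hc) (by rw [hc.card]; norm_num) (r * r) hz2 hz1 S
      (S.1.mul_mem hrS hrS) hzS hKset

end Cfsg.Agent.Lib.A7Rec
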