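import Mathlib
import Cfsg.Agent.Lib.A7Rec.Two
import Cfsg.Agent.Lib.SmallCen.D8Char
import Cfsg.Agent.Lib.PGroup.PowZ

/-!
# A simple group of order 2520 without a subgroup of index 7: centralizers of involutions have order 24
-/

set_option autoImplicit false
set_option linter.style.haveILetI false
set_option linter.unusedVariables false
set_option linter.unusedSectionVars false
set_option linter.unusedSimpArgs false

namespace Cfsg.Agent.Lib.A7Rec

open Subgroup Cfsg.Agent.Lib.SmallCen.SmallOrder Cfsg.Agent.Lib.SmallOrd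
open Cfsg.Agent.Lib.Basic.SmallSimple Cfsg.Agent.Lib.SmallOrd.ClassSign
open Cfsg.Agent.Lib.SmallOrd.InvolTools Cfsg.Agent.Lib.SmallOrd.OrderEight
open scoped Pointwise

variable {G : Type*} [Group G] [Finite G]

namespace D8

variable {r n : G}

/-- Elements of order 4 of a subgroup of order 8 through `r`, `n`. -/
theorem order_four_cases (h : D8 r n) (S : Subgroup G) (hS : Nat.card S = 8) (hr : r ∈ S) (hn : n ∈ S)
    (g : G) (hg : g ∈ S) (hgo : orderOf g = 4) : g = r ∨ g = r⁻¹ := by
  have hinv : g * g ≠ 1 := sq_ne_one_of_order_four g hgo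
  rcases h.mem_cases S hS hr hn g hg with h1 | h1
  · rcases h.zp_cases g h1 with h2 | h2 | h2 | h2
    · rw [h2] at hinv
      simp at hinv
    · exact Or.inl h2
    · exact absurd (by rw [h2]; exact h.r4) hinv
    · exact Or.inr h2
  · exfalso
    apply hinv
    have hgn : g = n * (n * g) := by rw [← mul_assoc, h.n2, one_mul]
    rw [hgn]
    exact h.refl_zpow _ h1

/-- A 3-group normalizing a dihedral group of order 8 centralizes it. -/
theorem comm_of_normalizes (h : D8 r n) (S : Subgroup G) (hS : Nat.card S = 8) (hr : r ∈ S) (hn : n ∈ S)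
    (T : Subgroup G) (hT : IsPGroup 3 T) (hN : ∀ e ∈ T, ∀ s ∈ S, e * s * e⁻¹ ∈ S) :
    ∀ e ∈ T, ∀ s ∈ S, e * s = s * e := by
  classical
  haveI : Fact (Nat.Prime 3) := ⟨by norm_num⟩
  have hr1 : r ≠ 1 := h.r1
  have hz1 : r * r ≠ 1 := h.z1
  have hri : r⁻¹ ≠ r := by
    intro h0
    apply hz1
    calc r * r = r⁻¹ * r := by rw [h0]
      _ = 1 := by group
  have hri1 : r⁻¹ ≠ 1 := by simpa using hr1
  have hzr : r * r ≠ r := by
    intro h0
    apply hr1
    exact mul_left_cancel (a := r) (by rw [h0, mul_one])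
  have hzri : r * r ≠ r⁻¹ := by
    intro h0
    apply hr1
    have h3 : r * r * r = 1 := by
      calc r * r * r = r⁻¹ * r := by rw [h0]
        _ = 1 := by group
    have h4 : r * (r * r * r) = (r * r) * (r * r) := by group
    rw [h3, mul_one, h.r4] at h4
    exact h4
  -- `T` centralizes `r`
  have hA1 : ∀ s ∈ T, ∀ a ∈ ({r, r⁻¹} : Finset G), s * a * s⁻¹ ∈ ({r, r⁻¹} : Finset G) := by
    intro s hs a ha
    have haS : a ∈ S := by
      simp only [Finset.mem_insert, Finset.mem_singleton] at ha
      rcases ha with rfl | rfl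
      · exact hr
      · exact inv_mem hr
    have hao : orderOf a = 4 := by
      simp only [Finset.mem_insert, Finset.mem_singleton] at ha
      rcases ha with rfl | rfl
      · exact h.ord
      · rw [orderOf_inv, h.ord]
    have h1 := h.order_four_cases S hS hr hn _ (hN s hs a haS) (by rw [orderOf_conj', hao])
    simpa using h1
  obtain ⟨a, ha, hac⟩ := exists_comm_of_odd (p := 3) T hT _ hA1 (by
    rw [Finset.card_pair (Ne.symm hri)]
    norm_num)
  have hTr : ∀ e ∈ T, e * r = r * e := by
    intro e he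
    simp only [Finset.mem_insert, Finset.mem_singleton] at ha
    rcases ha with rfl | rfl
    · exact hac e he
    · have h1 : Commute e r⁻¹ := hac e he
      exact (Commute.inv_right_iff.1 h1)
  have hTw : ∀ e ∈ T, ∀ w ∈ zpowers r, e * w = w * e := by
    intro e he w hw
    obtain ⟨k, rfl⟩ := Subgroup.mem_zpowers_iff.1 hw
    exact (Commute.zpow_right (show Commute e r from hTr e he) k).eq
  -- the reflections
  let A2 : Finset G := ({1, r, r * r, r⁻¹} : Finset G).image (fun w => n * w)
  have hA2c : A2.card = 4 := by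
    rw [Finset.card_image_of_injective _ (mul_right_injective n)]
    rw [Finset.card_insert_of_notMem, Finset.card_insert_of_notMem, Finset.card_pair]
    · exact hzri
    · simp only [Finset.mem_insert, Finset.mem_singleton, not_or]
      exact ⟨Ne.symm hzr, Ne.symm hri⟩
    · simp only [Finset.mem_insert, Finset.mem_singleton, not_or]
      exact ⟨Ne.symm hr1, Ne.symm hz1, Ne.symm hri1⟩
  have hWl : ∀ w ∈ ({1, r, r * r, r⁻¹} : Finset G), w ∈ zpowers r := by
    intro w hw
    simp only [Finset.mem_insert, Finset.mem_singleton] at hw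
    rcases hw with h0 | h0 | h0 | h0 <;> rw [h0]
    · exact one_mem _
    · exact mem_zpowers r
    · exact mul_mem (mem_zpowers r) (mem_zpowers r)
    · exact inv_mem (mem_zpowers r)
  have hA2m : ∀ a ∈ A2, a ∈ S ∧ a ∉ zpowers r := by
    intro a ha
    obtain ⟨w, hw, rfl⟩ := Finset.mem_image.1 ha
    have hwW : w ∈ zpowers r := hWl w hw
    have hwS : w ∈ S := (Subgroup.zpowers_le).2 hr hwW
    refine ⟨mul_mem hn hwS, fun h0 => h.not_mem ?_⟩
    have : n = n * w * w⁻¹ := by group
    rw [this]
    exact mul_mem h0 (inv_mem hwW)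
  have hA2S : ∀ s ∈ T, ∀ a ∈ A2, s * a * s⁻¹ ∈ A2 := by
    intro s hs a ha
    obtain ⟨ha1, ha2⟩ := hA2m a ha
    have h1 := hN s hs a ha1
    have h2 : s * a * s⁻¹ ∉ zpowers r := by
      intro h0
      apply ha2
      have h3 := hTw s hs _ h0
      have h4 : a = s * a * s⁻¹ := by
        have h5 : s * a = (s * a * s⁻¹) * s := by group
        exact mul_left_cancel (h5.trans h3.symm)
      rw [h4]
      exact h0
    rcases h.mem_cases S hS hr hn _ h1 with h3 | h3
    · exact absurd h3 h2
    · rw [Finset.mem_image]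
      refine ⟨n * (s * a * s⁻¹), ?_, by rw [← mul_assoc, h.n2, one_mul]⟩
      rcases h.zp_cases _ h3 with h4 | h4 | h4 | h4 <;> rw [h4] <;> simp
  obtain ⟨a2, ha2, hac2⟩ := exists_comm_of_odd (p := 3) T hT A2 hA2S (by rw [hA2c]; norm_num)
  have hTn : ∀ e ∈ T, e * n = n * e := by
    intro e he
    obtain ⟨w, hw, rfl⟩ := Finset.mem_image.1 ha2
    have hwW : w ∈ zpowers r := hWl w hw
    have h1 : Commute e (n * w) := hac2 e he
    have h2 : Commute e w := hTw e he w hwW
    have h3 : Commute e (n * w * w⁻¹) := h1.mul_right h2.inv_right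
    have h4 : n * w * w⁻¹ = n := by group
    rwa [h4] at h3
  intro e he s hs
  rcases h.mem_cases S hS hr hn s hs with h1 | h1
  · exact hTw e he s h1
  · have h2 : Commute e (n * s) := hTw e he _ h1
    have h3 : Commute e (n * (n * s)) := (show Commute e n from hTn e he).mul_right h2
    have h4 : n * (n * s) = s := by rw [← mul_assoc, h.n2, one_mul]
    rwa [h4] at h3

/-- The central involution of a dihedral group of order 8. -/
theorem central_eq (h : D8 r n) (S : Subgroup G) (hS : Nat.card S = 8) (hr : r ∈ S) (hn : n ∈ S)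
    (a : G) (ha : a ∈ S) (ha2 : a * a = 1) (ha1 : a ≠ 1) (har : a * r = r * a) (han : a * n = n * a) :
    a = r * r := by
  have hri : r⁻¹ ≠ r := by
    intro h0
    apply h.z1
    calc r * r = r⁻¹ * r := by rw [h0]
      _ = 1 := by group
  have hnr : n * r ≠ r * n := by
    intro h0
    apply hri
    have h1 := h.inv
    rw [h0] at h1
    rw [← h1]
    group
  have hnw : ∀ w ∈ zpowers r, (n * w) * r ≠ r * (n * w) := by
    intro w hw h0
    obtain ⟨k, rfl⟩ := Subgroup.mem_zpowers_iff.1 hw
    have hc : Commute r (r ^ k) := (Commute.refl r).zpow_right k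
    apply hnr
    have h1 : n * r ^ k * r = n * r * r ^ k := by
      rw [mul_assoc, ← hc.eq, mul_assoc]
    have h2 : r * (n * r ^ k) = r * n * r ^ k := by group
    rw [h1, h2] at h0
    exact mul_right_cancel h0
  rcases h.mem_list S hS hr hn a ha with h1 | h1 | h1 | h1 | h1 | h1 | h1 | h1
  · exact absurd h1 ha1
  · exfalso
    rw [h1] at ha2
    exact h.z1 ha2
  · exact h1
  · exfalso
    rw [h1] at ha2
    apply h.z1
    have : r * r = (r⁻¹ * r⁻¹)⁻¹ := by rw [mul_inv_rev, inv_inv]
    rw [this, ha2, inv_one]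
  · exfalso
    rw [h1] at har
    exact hnr har
  · exfalso
    rw [h1] at har
    exact hnw r (mem_zpowers r) har
  · exfalso
    rw [h1] at har
    exact hnw _ (mul_mem (mem_zpowers r) (mem_zpowers r)) har
  · exfalso
    rw [h1] at har
    exact hnw _ (inv_mem (mem_zpowers r)) har

end D8

/-- Transfer: a normal complement. -/
theorem exists_complement {K : Type*} [Group K] [Finite K] {p : ℕ} [Fact p.Prime] (P : Sylow p K)
    (hP : ∀ g ∈ normalizer ((P : Subgroup K) : Set K), ∀ a ∈ (P : Subgroup K), g * a = a * g) :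
    ∃ N : Subgroup K, N.Normal ∧ Nat.card N * Nat.card (P : Subgroup K) = Nat.card K := by
  have hle : normalizer ((P : Subgroup K) : Set K) ≤ centralizer ((P : Subgroup K) : Set K) := by
    intro g hg
    rw [Subgroup.mem_centralizer_iff]
    intro a ha
    exact (hP g hg a ha).symm
  exact ⟨_, inferInstance, (MonoidHom.ker_transferSylow_isComplement' P hle).card_mul_card⟩

/-- Sylow data in a subgroup. -/
theorem sylow_in {K : Type*} [Group K] [Finite K] {p : ℕ} [Fact p.Prime] {a m : ℕ}
    (hK : Nat.card K = p ^ a * m) (hm : ¬ p ∣ m) (P : Sylow p K) :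
    Nat.card (P : Subgroup K) = p ^ a ∧ ∃ k, Nat.card (normalizer ((P : Subgroup K) : Set K)) * k = Nat.card K ∧
      k ∣ m ∧ k % p = 1 := by
  have hpp : p.Prime := Fact.out
  have hc := card_sylow_eq hK hm P
  refine ⟨hc, Nat.card (Sylow p K), ?_, ?_, ?_⟩
  · rw [P.card_eq_index_normalizer]
    exact Subgroup.card_mul_index _
  · have h2 := P.card_dvd_index
    have h3 : (P : Subgroup K).index = m := by
      have h4 := Subgroup.card_mul_index (P : Subgroup K)
      rw [hc, hK] at h4
      exact Nat.eq_of_mul_eq_mul_left (pow_pos hpp.pos a) h4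
    rwa [h3] at h2
  · have h1 : Nat.card (Sylow p K) % p = 1 % p := card_sylow_modEq_one p K
    rwa [Nat.mod_eq_of_lt hpp.one_lt] at h1

/-- If a subgroup `P` has index two in a subgroup and `t ∉ P` is central, the big subgroup centralizes `P`. -/
theorem comm_of_relIndex_two {K : Type*} [Group K] [Finite K] {P N : Subgroup K} (hPN : P ≤ N)
    (hidx : P.relIndex N = 2) (hcomm : ∀ a ∈ P, ∀ b ∈ P, a * b = b * a) (t : K) (ht : t ∈ N) (htP : t ∉ P)
    (hc : ∀ a ∈ P, t * a = a * t) (g : K) (hg : g ∈ N) (a : K) (ha : a ∈ P) : g * a = a * g := by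
  by_cases hgP : g ∈ P
  · exact hcomm g hgP a ha
  · have h1 := mul_mem_of_relIndex_two hidx hg ht hgP htP
    have h2 := hcomm _ h1 a ha
    have h3 := hc a ha
    calc g * a = g * t * t⁻¹ * a := by group
      _ = g * t * (t⁻¹ * a) := by group
      _ = g * t * (a * t⁻¹) := by
          have : t⁻¹ * a = a * t⁻¹ := by
            calc t⁻¹ * a = t⁻¹ * (a * t) * t⁻¹ := by group
              _ = t⁻¹ * (t * a) * t⁻¹ := by rw [h3]
              _ = a * t⁻¹ := by group
          rw [this]
      _ = (g * t * a) * t⁻¹ := by group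
      _ = (a * (g * t)) * t⁻¹ := by rw [h2]
      _ = a * g := by group

/-- A product of two subgroups of coprime orders. -/
theorem mul_surj {H A B : Subgroup G} (hA : A ≤ H) (hB : B ≤ H) (hcard : Nat.card A * Nat.card B = Nat.card H)
    (hd : Nat.Coprime (Nat.card A) (Nat.card B)) (g : G) (hg : g ∈ H) :
    ∃ a ∈ A, ∃ b ∈ B, g = a * b := by
  have hdisj : ∀ x ∈ A, x ∈ B → x = 1 := by
    intro x hxA hxB
    have h1 := orderOf_dvd_natCard (⟨x, hxA⟩ : A)
    have h2 := orderOf_dvd_natCard (⟨x, hxB⟩ : B)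
    rw [Subgroup.orderOf_mk] at h1 h2
    exact orderOf_eq_one_iff.1 (Nat.eq_one_of_dvd_coprimes hd h1 h2)
  let f : ↥A × ↥B → ↥H := fun p => ⟨(p.1 : G) * (p.2 : G), mul_mem (hA p.1.2) (hB p.2.2)⟩
  have hf : Function.Injective f := by
    rintro ⟨a, b⟩ ⟨a', b'⟩ h
    have h1 : (a : G) * b = a' * b' := congrArg Subtype.val h
    have h2 : (a' : G)⁻¹ * a = b' * (b : G)⁻¹ := by
      calc (a' : G)⁻¹ * a = (a' : G)⁻¹ * (a * b) * (b : G)⁻¹ := by group
        _ = (a' : G)⁻¹ * (a' * b') * (b : G)⁻¹ := by rw [h1]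
        _ = _ := by group
    have h3 : (a' : G)⁻¹ * a = 1 := hdisj _ (mul_mem (inv_mem a'.2) a.2) (by
      rw [h2]
      exact mul_mem b'.2 (inv_mem b.2))
    have h4 : (a : G) = a' := (inv_mul_eq_one.1 h3).symm
    have h5 : (b : G) = b' := by
      rw [h4] at h1
      exact mul_left_cancel h1
    exact Prod.ext (Subtype.ext h4) (Subtype.ext h5)
  have hb := hf.bijective_of_nat_card_le (by
    rw [Nat.card_prod, hcard])
  obtain ⟨⟨a, b⟩, hab⟩ := hb.2 ⟨g, hg⟩
  exact ⟨a, a.2, b, b.2, (congrArg Subtype.val hab).symm⟩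

/-- An element mapping a subgroup into itself normalizes it. -/
theorem mem_normalizer_of_map (R : Subgroup G) (h : G) (hh : ∀ y ∈ R, h * y * h⁻¹ ∈ R) :
    h ∈ normalizer (R : Set G) := by
  have hle : R.map (MulAut.conj h).toMonoidHom ≤ R := by
    rintro _ ⟨y, hy, rfl⟩
    exact hh y hy
  have heq : R.map (MulAut.conj h).toMonoidHom = R :=
    Subgroup.eq_of_le_of_card_ge hle (by rw [Subgroup.card_map_of_injective (MulAut.conj h).injective])
  rw [Subgroup.mem_normalizer_iff]
  intro y
  constructor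
  · exact hh y
  · intro hy
    rw [← heq] at hy
    obtain ⟨z, hz, hzy⟩ := hy
    have : z = y := by
      apply conj_inj h
      exact hzy
    rwa [← this]

end Cfsg.Agent.Lib.A7Rec
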