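import Mathlib
import Cfsg.Agent.Lib.A7Rec.Cent

/-!
# A simple group of order 2520 without a subgroup of index 7: centralizers of involutions have order 24
-/

set_option autoImplicit false
set_option linter.style.haveILetI false
set_option linter.unusedVariables false
set_option linter.unusedSectionVars false
set_option linter.unusedSimpArgs false

namespace Cfsg.Agent.Lib.A7Rec

open Subgroup Cfsg.Agent.Lib.SmallCen.SmallOrder Cfsg.Agent.Lib.SmallOrd
open Cfsg.Agent.Lib.Basic.SmallSimple Cfsg.Agent.Lib.SmallOrd.ClassSign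
open Cfsg.Agent.Lib.SmallOrd.InvolTools Cfsg.Agent.Lib.SmallOrd.OrderEight
open scoped Pointwise

variable {G : Type*} [Group G] [Finite G]

/-- The four elements of the cyclic subgroup. -/
theorem D8.four_card {r n : G} (h : D8 r n) [DecidableEq G] : ({1, r, r * r, r⁻¹} : Finset G).card = 4 := by
  have hr1 : r ≠ 1 := h.r1
  have hz1 : r * r ≠ 1 := h.z1
  have hri : r⁻¹ ≠ r := by
    intro h0
    apply hz1
    calc r * r = r⁻¹ * r := by rw [h0]
      _ = 1 := by group
  have hri1 : r⁻¹ ≠ 1 := by simpa using hr1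
  have hzr : r * r ≠ r := by
    intro h0
    apply hr1
    exact mul_left_cancel (a := r) (by rw [h0, mul_one])
  have hzri : r * r ≠ r⁻¹ := by
    intro h0
    apply hr1
    have h3 : r * r * r = 1 := by
      calc r * r * r = r⁻¹ * r := by rw [h0]
        _ = 1 := by group
    have h4 : r * (r * r * r) = (r * r) * (r * r) := by group
    rw [h3, mul_one, h.r4] at h4
    exact h4
  rw [Finset.card_insert_of_notMem, Finset.card_insert_of_notMem, Finset.card_pair]
  · exact hzri
  · simp only [Finset.mem_insert, Finset.mem_singleton, not_or]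
    exact ⟨Ne.symm hzr, Ne.symm hri⟩
  · simp only [Finset.mem_insert, Finset.mem_singleton, not_or]
    exact ⟨Ne.symm hr1, Ne.symm hz1, Ne.symm hri1⟩

/-- The five involutions of the dihedral group. -/
theorem D8.five_card {r n : G} (h : D8 r n) [DecidableEq G] :
    (insert (r * r) (({1, r, r * r, r⁻¹} : Finset G).image (fun w => n * w))).card = 5 := by
  rw [Finset.card_insert_of_notMem, Finset.card_image_of_injective _ (mul_right_injective n), h.four_card]
  intro hz
  obtain ⟨w, hw, hwz⟩ := Finset.mem_image.1 hz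
  apply h.not_mem
  have hWl : w ∈ zpowers r := by
    simp only [Finset.mem_insert, Finset.mem_singleton] at hw
    rcases hw with h0 | h0 | h0 | h0 <;> rw [h0]
    · exact one_mem _
    · exact mem_zpowers r
    · exact mul_mem (mem_zpowers r) (mem_zpowers r)
    · exact inv_mem (mem_zpowers r)
  have hn : n = (n * w) * w⁻¹ := by group
  rw [hn, hwz]
  exact mul_mem (mul_mem (mem_zpowers r) (mem_zpowers r)) (inv_mem hWl)

variable [IsSimpleGroup G]

/-- Every Sylow 2-subgroup is dihedral. -/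
theorem sylow_D8 (hc : Ctx G) (S : Sylow 2 G) : ∃ r n, r ∈ (S : Subgroup G) ∧ n ∈ (S : Subgroup G) ∧ D8 r n := by
  classical
  haveI : Fact (Nat.Prime 2) := ⟨Nat.prime_two⟩
  obtain ⟨r₀, hr₀⟩ := exists_order_four hc
  have hQ : IsPGroup 2 (zpowers r₀) := IsPGroup.of_card (n := 2) (by
    rw [Nat.card_zpowers, hr₀]; norm_num)
  obtain ⟨S₀, hS₀⟩ := hQ.exists_le_sylow
  obtain ⟨g, hg⟩ := MulAction.exists_smul_eq G S₀ S
  have hrS : g * r₀ * g⁻¹ ∈ (S : Subgroup G) := by
    rw [← hg]
    change g * r₀ * g⁻¹ ∈ MulAut.conj g • (S₀ : Subgroup G)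
    exact Subgroup.smul_mem_pointwise_smul _ _ _ (hS₀ (mem_zpowers r₀))
  obtain ⟨n, hn, hD⟩ := exists_reflection hc (g * r₀ * g⁻¹) (by rw [orderOf_conj', hr₀]) S hrS
  exact ⟨_, n, hrS, hn, hD⟩

/-- A Sylow subgroup through an element of order 4. -/
theorem exists_sylow_of_order_four (r : G) (hr : orderOf r = 4) : ∃ S : Sylow 2 G, r ∈ (S : Subgroup G) := by
  haveI : Fact (Nat.Prime 2) := ⟨Nat.prime_two⟩
  have hQ : IsPGroup 2 (zpowers r) := IsPGroup.of_card (n := 2) (by
    rw [Nat.card_zpowers, hr]; norm_num)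
  obtain ⟨S₀, hS₀⟩ := hQ.exists_le_sylow
  exact ⟨S₀, hS₀ (mem_zpowers r)⟩

theorem five_not_dvd (hc : Ctx G) (a : G) (ha : ¬ orderOf a ∣ 5) : ¬ 5 ∣ Nat.card (centralizer ({a} : Set G)) := by
  intro h
  obtain ⟨x, hx⟩ := exists_prime_orderOf_dvd_card' (G := centralizer ({a} : Set G)) 5 h
  have hxo : orderOf (x : G) = 5 := by rw [Subgroup.orderOf_coe, hx]
  have hxa : (x : G) * a = a * x := (Subgroup.mem_centralizer_singleton_iff).1 x.2
  exact ha (orderOf_dvd_five hc x a hxo hxa.symm)

theorem seven_not_dvd (hc : Ctx G) (a : G) (ha : ¬ orderOf a ∣ 7) : ¬ 7 ∣ Nat.card (centralizer ({a} : Set G)) := by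
  intro h
  obtain ⟨x, hx⟩ := exists_prime_orderOf_dvd_card' (G := centralizer ({a} : Set G)) 7 h
  have hxo : orderOf (x : G) = 7 := by rw [Subgroup.orderOf_coe, hx]
  have hxa : (x : G) * a = a * x := (Subgroup.mem_centralizer_singleton_iff).1 x.2
  exact ha (orderOf_dvd_seven hc x a hxo hxa.symm)

/-- A subgroup of order 9 is a Sylow subgroup. -/
theorem exists_sylow_of_card_nine (hc : Ctx G) (T : Subgroup G) (hT : Nat.card T = 9) :
    ∃ P : Sylow 3 G, (P : Subgroup G) = T := by
  haveI : Fact (Nat.Prime 3) := ⟨by norm_num⟩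
  have hfac : (Nat.card G).factorization 3 = 2 := by
    rw [hc.card, show (2520 : ℕ) = 3 ^ 2 * 280 by norm_num,
      Nat.factorization_mul (by norm_num) (by norm_num), Finsupp.add_apply,
      Nat.Prime.factorization_pow (by norm_num), Finsupp.single_eq_same,
      Nat.factorization_eq_zero_of_not_dvd (by norm_num)]
  exact ⟨Sylow.ofCard T (by rw [hT, hfac]; norm_num), Sylow.coe_ofCard _ _⟩

/-- A Sylow 3-subgroup of the centralizer of an involution is normal in it. -/
theorem sylow3_normal_in_cent (hc : Ctx G) (t : G) (ht : t * t = 1) (ht1 : t ≠ 1) (a : ℕ) (ha : a = 1 ∨ a = 2)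
    (H : Subgroup G) (hHdef : H = centralizer ({t} : Set G))
    (hH : Nat.card H = 3 ^ a * 8) (P : Sylow 3 ↥H) :
    normalizer ((P : Subgroup ↥H) : Set ↥H) = ⊤ := by
  classical
  haveI : Fact (Nat.Prime 2) := ⟨Nat.prime_two⟩
  haveI : Fact (Nat.Prime 3) := ⟨by norm_num⟩
  obtain ⟨r, hr, hrt⟩ := exists_sqrt hc t ht ht1
  obtain ⟨S, hrS⟩ := exists_sylow_of_order_four r hr
  obtain ⟨n, hnS, hD⟩ := exists_reflection hc r hr S hrS
  have hS8 := card_sylow_two hc S
  have hSH : (S : Subgroup G) ≤ H := by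
    intro s hs
    rw [hHdef, Subgroup.mem_centralizer_singleton_iff, ← hrt]
    exact comm_of_conj_eq (sq_central_of_order_four (S : Subgroup G) hS8 r hrS hr s hs)
  obtain ⟨hPc, k, hk, hkd, hk3⟩ := sylow_in (a := a) (m := 8) hH (by norm_num) P
  have hk_cases : k = 1 ∨ k = 4 := by
    have key : ∀ d ∈ (8 : ℕ).divisors, d % 3 = 1 → d = 1 ∨ d = 4 := by decide +kernel
    exact key k (Nat.mem_divisors.2 ⟨hkd, by norm_num⟩) hk3
  rcases hk_cases with rfl | rfl
  · rw [mul_one] at hk
    exact Subgroup.eq_top_of_card_eq _ hk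
  · exfalso
    have hNc : Nat.card (normalizer ((P : Subgroup ↥H) : Set ↥H)) = 3 ^ a * 2 := by
      rw [hH] at hk
      omega
    set N := normalizer ((P : Subgroup ↥H) : Set ↥H) with hN
    have hPN : (P : Subgroup ↥H) ≤ N := Subgroup.le_normalizer
    have hrel : (P : Subgroup ↥H).relIndex N = 2 := by
      have h1 := Cfsg.Agent.Lib.Perm.SylowIn.card_mul_relIndex hPN
      rw [hPc, hNc] at h1
      have hpos : 0 < 3 ^ a := by positivity
      exact Nat.eq_of_mul_eq_mul_left hpos h1
    -- `P` is abelian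
    set A : Subgroup G := (P : Subgroup ↥H).map H.subtype with hA
    have hAc : Nat.card A = 3 ^ a := by
      rw [hA, Subgroup.card_map_of_injective H.subtype_injective, hPc]
    have hAp : IsPGroup 3 A := IsPGroup.of_card hAc
    obtain ⟨R, hAR⟩ := hAp.exists_le_sylow
    obtain ⟨hRc, hRN, hRcomm⟩ := sylow_three hc R
    have hPcomm : ∀ x ∈ (P : Subgroup ↥H), ∀ y ∈ (P : Subgroup ↥H), x * y = y * x := by
      intro x hx y hy
      apply Subtype.ext
      exact hRcomm _ (hAR ⟨x, hx, rfl⟩) _ (hAR ⟨y, hy, rfl⟩)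
    have htH : t ∈ H := by
      rw [hHdef, Subgroup.mem_centralizer_singleton_iff]
    have htc : ∀ x : ↥H, (⟨t, htH⟩ : ↥H) * x = x * ⟨t, htH⟩ := by
      intro x
      apply Subtype.ext
      have h0 : (x : G) ∈ centralizer ({t} : Set G) := by
        rw [← hHdef]
        exact x.2
      exact ((Subgroup.mem_centralizer_singleton_iff).1 h0).symm
    have htN : (⟨t, htH⟩ : ↥H) ∈ N := by
      rw [hN, Subgroup.mem_normalizer_iff]
      intro x
      have h1 : (⟨t, htH⟩ : ↥H) * x * (⟨t, htH⟩ : ↥H)⁻¹ = x := by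
        rw [htc x]
        group
      rw [h1]
    have htP : (⟨t, htH⟩ : ↥H) ∉ (P : Subgroup ↥H) := by
      intro h0
      have h1 := orderOf_dvd_natCard (⟨⟨t, htH⟩, h0⟩ : (P : Subgroup ↥H))
      rw [Subgroup.orderOf_mk, Subgroup.orderOf_mk, orderOf_eq_two ht ht1, hPc] at h1
      have h2 : Nat.Prime 2 := Nat.prime_two
      have h3 := h2.dvd_of_dvd_pow h1
      omega
    obtain ⟨Nn, hNn, hNc'⟩ := exists_complement P (fun g hg x hx =>
      comm_of_relIndex_two hPN hrel hPcomm _ htN htP (fun y _ => htc y) g hg x hx)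
    have hNn8 : Nat.card Nn = 8 := by
      rw [hPc, hH] at hNc'
      have hpos : 0 < 3 ^ a := by positivity
      apply Nat.eq_of_mul_eq_mul_right hpos
      rw [hNc']
      ring
    set M : Subgroup G := Nn.map H.subtype with hM
    have hMc : Nat.card M = 8 := by
      rw [hM, Subgroup.card_map_of_injective H.subtype_injective, hNn8]
    have hMH : M ≤ H := Subgroup.map_subtype_le _
    have hMnorm : ∀ h ∈ H, ∀ y ∈ M, h * y * h⁻¹ ∈ M := by
      rintro h hh _ ⟨y, hy, rfl⟩
      exact ⟨⟨h, hh⟩ * y * (⟨h, hh⟩ : ↥H)⁻¹, hNn.conj_mem y hy _, rfl⟩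
    obtain ⟨c, hcH, hcm⟩ := exists_conj_of_card (p := 2) (a := 3) (m := 3 ^ a) hSH hMH (by rw [hS8]; norm_num)
      (by rw [hMc]; norm_num) (by rw [hH]; ring) (by
        intro h2
        have h3 := Nat.prime_two.dvd_of_dvd_pow h2
        omega)
    have hSM : (S : Subgroup G) ≤ M := by
      intro y hy
      have h1 := hMnorm _ (inv_mem hcH) _ (hcm y hy)
      have h2 : c⁻¹ * (c * y * c⁻¹) * c⁻¹⁻¹ = y := by group
      rwa [h2] at h1
    have hSeq : (S : Subgroup G) = M := Subgroup.eq_of_le_of_card_ge hSM (by rw [hS8, hMc])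
    have hcomm := hD.comm_of_normalizes (S : Subgroup G) hS8 hrS hnS A hAp (by
      intro e he s hs
      rw [hSeq] at hs ⊢
      exact hMnorm e (Subgroup.map_subtype_le _ he) s hs)
    -- `S` normalizes `P`
    have hS2 : (S : Subgroup G).subgroupOf H ≤ N := by
      intro s hs
      rw [Subgroup.mem_subgroupOf] at hs
      rw [hN, Subgroup.mem_normalizer_iff]
      intro x
      have hc1 : ∀ x ∈ (P : Subgroup ↥H), s * x * s⁻¹ = x := by
        intro x hx
        apply Subtype.ext
        show (s : G) * x * (s : G)⁻¹ = x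
        have := hcomm x ⟨x, hx, rfl⟩ s hs
        rw [← this]
        group
      constructor
      · intro hx
        rw [hc1 x hx]
        exact hx
      · intro hx
        have h1 := hc1 _ hx
        have h2 : x = s * x * s⁻¹ := by
          have h3 : (s * x * s⁻¹) = x := by
            have hx2 := hc1 _ hx
            have h4 : s * (s * x * s⁻¹) * s⁻¹ = s * x * s⁻¹ := hx2
            exact conj_inj s h4
          exact h3.symm
        rw [h2]
        exact hx
    have h1 := Subgroup.card_dvd_of_le hS2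
    have h2 : Nat.card ((S : Subgroup G).subgroupOf H) = 8 := by
      rw [← hS8]
      exact Nat.card_congr (Subgroup.subgroupOfEquivOfLe hSH).toEquiv
    rw [h2, hNc] at h1
    have h3 : 4 ∣ 3 ^ a := by
      have : 4 * 2 ∣ 3 ^ a * 2 := by simpa using h1
      exact Nat.dvd_of_mul_dvd_mul_right (by norm_num) this
    rcases ha with rfl | rfl <;> omega

end Cfsg.Agent.Lib.A7Rec
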