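import Mathlib
import Cfsg.Agent.Lib.A7Rec.Cent2

/-!
# A simple group of order 2520 without a subgroup of index 7: the subgroups `U_t`
-/

set_option autoImplicit false
set_option linter.style.haveILetI false
set_option linter.unusedVariables false
set_option linter.unusedSectionVars false
set_option linter.unusedSimpArgs false

namespace Cfsg.Agent.Lib.A7Rec

open Subgroup Cfsg.Agent.Lib.SmallCen.SmallOrder Cfsg.Agent.Lib.SmallOrd
open Cfsg.Agent.Lib.Basic.SmallSimple Cfsg.Agent.Lib.SmallOrd.ClassSign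
open Cfsg.Agent.Lib.SmallOrd.InvolTools Cfsg.Agent.Lib.SmallOrd.OrderEight
open scoped Pointwise

variable {G : Type*} [Group G] [Finite G]

omit [Finite G] in
theorem cube_of_order_three {x : G} (hx : orderOf x = 3) : x ^ 3 = 1 := by
  rw [← hx]
  exact pow_orderOf_eq_one x

omit [Finite G] in
theorem ne_one_of_order_three {x : G} (hx : orderOf x = 3) : x ≠ 1 := by
  rintro rfl
  rw [orderOf_one] at hx
  omega

omit [Finite G] in
theorem sq_eq_inv_of_cube {x : G} (hx : x ^ 3 = 1) : x * x = x⁻¹ := by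
  rw [eq_inv_iff_mul_eq_one]
  calc x * x * x = x ^ 3 := by rw [show (3 : ℕ) = 2 + 1 from rfl, pow_succ, pow_two]
    _ = 1 := hx

omit [Finite G] in
theorem order_three_of_cube {x : G} (hx : x ^ 3 = 1) (h1 : x ≠ 1) : orderOf x = 3 :=
  orderOf_eq_prime hx h1

/-- The elements of a group of order 3. -/
theorem zp3 {x y : G} (hx : orderOf x = 3) (hy : y ∈ zpowers x) : y = 1 ∨ y = x ∨ y = x⁻¹ := by
  classical
  rw [mem_zpowers_iff_mem_range_orderOf, hx] at hy
  obtain ⟨k, hk, rfl⟩ := Finset.mem_image.1 hy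
  have hk3 := Finset.mem_range.1 hk
  interval_cases k
  · left; simp
  · right; left; simp
  · right; right
    rw [pow_two]
    exact sq_eq_inv_of_cube (cube_of_order_three hx)

/-- The unique subgroup of order 3 of the centralizer of `t`. -/
structure IsU (t u : G) : Prop where
  ord : orderOf u = 3
  comm : u * t = t * u
  uniq : ∀ e, e * t = t * e → e ^ 3 = 1 → e = 1 ∨ e = u ∨ e = u⁻¹

namespace IsU

variable {t u : G}

theorem of_mem (U : IsU t u) (e : G) (he : e * t = t * e) (he3 : orderOf e = 3) : IsU t e := by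
  refine ⟨he3, he, ?_⟩
  intro f hf hf3
  have h1 := U.uniq e he (cube_of_order_three he3)
  rcases h1 with h1 | h1 | h1
  · exact absurd h1 (ne_one_of_order_three he3)
  · rw [h1]
    exact U.uniq f hf hf3
  · rcases U.uniq f hf hf3 with h2 | h2 | h2
    · exact Or.inl h2
    · right; right
      rw [h1, h2, inv_inv]
    · right; left
      rw [h1, h2]

theorem inv (U : IsU t u) : IsU t u⁻¹ :=
  U.of_mem _ (by
    have h1 : Commute u t := U.comm
    exact h1.inv_left.eq) (by rw [orderOf_inv, U.ord])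

theorem conj (U : IsU t u) (g : G) : IsU (g * t * g⁻¹) (g * u * g⁻¹) := by
  refine ⟨by rw [orderOf_conj', U.ord], ?_, ?_⟩
  · calc g * u * g⁻¹ * (g * t * g⁻¹) = g * (u * t) * g⁻¹ := by group
      _ = g * (t * u) * g⁻¹ := by rw [U.comm]
      _ = _ := by group
  · intro e he he3
    have h1 : (g⁻¹ * e * g) * t = t * (g⁻¹ * e * g) := by
      apply conj_inj g
      calc g * ((g⁻¹ * e * g) * t) * g⁻¹ = e * (g * t * g⁻¹) := by group
        _ = (g * t * g⁻¹) * e := he
        _ = _ := by group
    have h3 : (g⁻¹ * e * g) ^ 3 = 1 := by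
      have : g⁻¹ * e * g = g⁻¹ * e * g⁻¹⁻¹ := by simp
      rw [this, conj_pow, he3]
      group
    rcases U.uniq _ h1 h3 with h4 | h4 | h4
    · left
      have : e = g * (g⁻¹ * e * g) * g⁻¹ := by group
      rw [this, h4]
      group
    · right; left
      rw [← h4]
      group
    · right; right
      have : (g * u * g⁻¹)⁻¹ = g * u⁻¹ * g⁻¹ := by group
      rw [this, ← h4]
      group

/-- Elements of the centralizer of `t` act as `±1` on `u`. -/
theorem conj_cases (U : IsU t u) (g : G) (hg : g * t = t * g) : g * u * g⁻¹ = u ∨ g * u * g⁻¹ = u⁻¹ := by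
  have h1 : (g * u * g⁻¹) * t = t * (g * u * g⁻¹) := by
    have hg' : Commute g t := hg
    have hu : Commute u t := U.comm
    exact ((hg'.mul_left hu).mul_left hg'.inv_left).eq
  have h3 : (g * u * g⁻¹) ^ 3 = 1 := by
    rw [conj_pow, cube_of_order_three U.ord]
    group
  rcases U.uniq _ h1 h3 with h4 | h4 | h4
  · exact absurd h4 (conj_ne_one' g (ne_one_of_order_three U.ord))
  · exact Or.inl h4
  · exact Or.inr h4

end IsU

variable [IsSimpleGroup G]

/-- The centralizer of an involution has order 24. -/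
theorem card_cent_eq (hc : Ctx G) (t : G) (ht : t * t = 1) (ht1 : t ≠ 1) :
    Nat.card (centralizer ({t} : Set G)) = 24 := by
  classical
  haveI : Fact (Nat.Prime 2) := ⟨Nat.prime_two⟩
  haveI : Fact (Nat.Prime 3) := ⟨by norm_num⟩
  have hto : orderOf t = 2 := orderOf_eq_two ht ht1
  have h8 := eight_dvd hc t ht
  have h5 := five_not_dvd hc t (by rw [hto]; norm_num)
  have h7 := seven_not_dvd hc t (by rw [hto]; norm_num)
  have hd : Nat.card (centralizer ({t} : Set G)) ∣ 2520 := by
    rw [← hc.card]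
    exact Subgroup.card_subgroup_dvd_card _
  have key : ∀ d ∈ (2520 : ℕ).divisors, 8 ∣ d → ¬ 5 ∣ d → ¬ 7 ∣ d → d = 8 ∨ d = 24 ∨ d = 72 := by
    decide +kernel
  rcases key _ (Nat.mem_divisors.2 ⟨hd, by norm_num⟩) h8 h5 h7 with h | h | h
  · exfalso
    obtain ⟨r, hr, hrt⟩ := exists_sqrt hc t ht ht1
    obtain ⟨S, hrS⟩ := exists_sylow_of_order_four r hr
    obtain ⟨n, hnS, hD⟩ := exists_reflection hc r hr S hrS
    have hS8 := card_sylow_two hc S
    have hSH : ∀ s ∈ (S : Subgroup G), s ∈ centralizer ({t} : Set G) := by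
      intro s hs
      rw [Subgroup.mem_centralizer_singleton_iff, ← hrt]
      exact comm_of_conj_eq (sq_central_of_order_four (S : Subgroup G) hS8 r hrS hr s hs)
    obtain ⟨e⟩ := Cfsg.Agent.Lib.PGroup.PowZ.nonempty_mulEquiv_dihedralGroup
      (G := ↥(centralizer ({t} : Set G))) (m := 4) (r := ⟨r, hSH r hrS⟩) (s := ⟨n, hSH n hnS⟩)
      (by rw [Subgroup.orderOf_mk, hr]) (Subtype.ext hD.n2) (Subtype.ext hD.inv) (by
        intro h0
        rw [Subgroup.mem_zpowers_iff] at h0
        obtain ⟨k, hk⟩ := h0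
        apply hD.not_mem
        rw [Subgroup.mem_zpowers_iff]
        exact ⟨k, congrArg Subtype.val hk⟩) (by rw [h])
    have h2 : ∀ H : Subgroup G, H.index ≠ 2 := by
      intro H hH
      have hne : H ≠ ⊤ := by
        rintro rfl
        rw [Subgroup.index_top] at hH
        omega
      have := index_ge hc H hne
      omega
    have := (Cfsg.Agent.Lib.SmallCen.D8Char.main e hto h2).1
    rw [hc.card] at this
    omega
  · exact h
  · exfalso
    obtain ⟨P⟩ : Nonempty (Sylow 3 ↥(centralizer ({t} : Set G))) := inferInstance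
    have hN := sylow3_normal_in_cent hc t ht ht1 2 (Or.inr rfl) _ rfl (by rw [h]; norm_num) P
    have hPc := card_sylow_eq (p := 3) (a := 2) (m := 8)
      (G := ↥(centralizer ({t} : Set G))) (by rw [h]; norm_num) (by norm_num) P
    obtain ⟨R, hR⟩ := exists_sylow_of_card_nine hc
      ((P : Subgroup ↥(centralizer ({t} : Set G))).map (centralizer ({t} : Set G)).subtype) (by
        rw [Subgroup.card_map_of_injective (centralizer ({t} : Set G)).subtype_injective, hPc]
        norm_num)
    obtain ⟨-, hRN, -⟩ := sylow_three hc R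
    have hle : centralizer ({t} : Set G) ≤ normalizer ((R : Subgroup G) : Set G) := by
      intro g hg
      apply mem_normalizer_of_map
      rw [hR]
      rintro _ ⟨y, hy, rfl⟩
      have hg' : (⟨g, hg⟩ : ↥(centralizer ({t} : Set G))) ∈
          normalizer ((P : Subgroup ↥(centralizer ({t} : Set G))) : Set ↥(centralizer ({t} : Set G))) := by
        rw [hN]
        trivial
      exact ⟨_, (Subgroup.mem_normalizer_iff.1 hg' y).1 hy, rfl⟩
    have h1 := Subgroup.card_dvd_of_le hle
    rw [h, hRN] at h1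
    omega

/-- Existence of `U_t`. -/
theorem exists_u (hc : Ctx G) (t : G) (ht : t * t = 1) (ht1 : t ≠ 1) : ∃ u : G, IsU t u := by
  classical
  haveI : Fact (Nat.Prime 3) := ⟨by norm_num⟩
  have h24 := card_cent_eq hc t ht ht1
  obtain ⟨P⟩ : Nonempty (Sylow 3 ↥(centralizer ({t} : Set G))) := inferInstance
  have hN := sylow3_normal_in_cent hc t ht ht1 1 (Or.inl rfl) _ rfl (by rw [h24]; norm_num) P
  have hPc := card_sylow_eq (p := 3) (a := 1) (m := 8)
    (G := ↥(centralizer ({t} : Set G))) (by rw [h24]; norm_num) (by norm_num) P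
  rw [pow_one] at hPc
  obtain ⟨x, hx⟩ := exists_prime_orderOf_dvd_card' (G := (P : Subgroup ↥(centralizer ({t} : Set G)))) 3
    (by rw [hPc])
  have hx1 : orderOf (x : ↥(centralizer ({t} : Set G))) = 3 := by
    rw [Subgroup.orderOf_coe, hx]
  have hx2 : orderOf ((x : ↥(centralizer ({t} : Set G))) : G) = 3 := by
    rw [Subgroup.orderOf_coe, hx1]
  have hzp : zpowers (x : ↥(centralizer ({t} : Set G))) = (P : Subgroup ↥(centralizer ({t} : Set G))) :=
    Subgroup.eq_of_le_of_card_ge ((Subgroup.zpowers_le).2 x.2) (by rw [Nat.card_zpowers, hx1, hPc])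
  refine ⟨((x : ↥(centralizer ({t} : Set G))) : G), hx2, (Subgroup.mem_centralizer_singleton_iff).1 (x : ↥(centralizer ({t} : Set G))).2, ?_⟩
  intro e he he3
  by_cases he1 : e = 1
  · exact Or.inl he1
  have heo : orderOf e = 3 := order_three_of_cube he3 he1
  have heH : e ∈ centralizer ({t} : Set G) := (Subgroup.mem_centralizer_singleton_iff).2 he
  have heo' : orderOf (⟨e, heH⟩ : ↥(centralizer ({t} : Set G))) = 3 := by
    rw [Subgroup.orderOf_mk, heo]
  have hQ : IsPGroup 3 (zpowers (⟨e, heH⟩ : ↥(centralizer ({t} : Set G)))) :=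
    IsPGroup.of_card (n := 1) (by rw [Nat.card_zpowers, heo', pow_one])
  obtain ⟨Q, hQ'⟩ := hQ.exists_le_sylow
  obtain ⟨g, hg⟩ := MulAction.exists_smul_eq ↥(centralizer ({t} : Set G)) P Q
  have hgP : g • P = P := by
    have : g ∈ normalizer ((P : Subgroup ↥(centralizer ({t} : Set G))) : Set ↥(centralizer ({t} : Set G))) := by
      rw [hN]
      trivial
    exact Sylow.smul_eq_iff_mem_normalizer.2 this
  rw [hgP] at hg
  subst hg
  have h1 : (⟨e, heH⟩ : ↥(centralizer ({t} : Set G))) ∈ (P : Subgroup ↥(centralizer ({t} : Set G))) :=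
    hQ' (mem_zpowers _)
  rw [← hzp] at h1
  rcases zp3 hx1 h1 with h2 | h2 | h2
  · exact Or.inl (congrArg Subtype.val h2)
  · exact Or.inr (Or.inl (congrArg Subtype.val h2))
  · exact Or.inr (Or.inr (congrArg Subtype.val h2))

/-- An element of order 3 commuting with an involution. -/
theorem isU_of_comm (hc : Ctx G) (t u : G) (ht : t * t = 1) (ht1 : t ≠ 1) (hu : orderOf u = 3)
    (hut : u * t = t * u) : IsU t u := by
  obtain ⟨u₀, U⟩ := exists_u hc t ht ht1
  exact U.of_mem u hut hu

/-- A Sylow 3-subgroup has no nontrivial element central in its normalizer. -/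
theorem exists_not_comm (hc : Ctx G) (R : Sylow 3 G) (u : G) (huR : u ∈ (R : Subgroup G)) (hu1 : u ≠ 1) :
    ∃ g ∈ normalizer ((R : Subgroup G) : Set G), g * u ≠ u * g := by
  classical
  haveI : Fact (Nat.Prime 3) := ⟨by norm_num⟩
  by_contra hall
  push_neg at hall
  obtain ⟨hRc, hRN, hRcomm⟩ := sylow_three hc R
  letI : CommGroup ↥(R : Subgroup G) :=
    { (inferInstance : Group ↥(R : Subgroup G)) with
      mul_comm := fun a b => Subtype.ext (hRcomm a a.2 b b.2) }
  let ϕ : ↥(R : Subgroup G) →* ↥(R : Subgroup G) := MonoidHom.id _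
  have hidx : (R : Subgroup G).index = 280 := by
    have h4 := card_mul hc (R : Subgroup G)
    rw [hRc] at h4
    omega
  have key : ∀ (k : ℕ) (g₀ : G), g₀⁻¹ * u ^ k * g₀ ∈ (R : Subgroup G) → g₀⁻¹ * u ^ k * g₀ = u ^ k := by
    intro k g₀ hb
    set a := u ^ k with ha
    have haR : a ∈ (R : Subgroup G) := pow_mem huR k
    set b := g₀⁻¹ * a * g₀ with hbdef
    have hgb : g₀ * b * g₀⁻¹ = a := by rw [hbdef]; group
    have hRle : (R : Subgroup G) ≤ centralizer ({a} : Set G) := by
      intro y hy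
      rw [Subgroup.mem_centralizer_singleton_iff]
      exact hRcomm y hy a haR
    let A : Subgroup G := (R : Subgroup G).map (MulAut.conj g₀).toMonoidHom
    have hAc : Nat.card A = 3 ^ 2 := by
      rw [Subgroup.card_map_of_injective (MulAut.conj g₀).injective, hRc]
      norm_num
    have hAle : A ≤ centralizer ({a} : Set G) := by
      rintro _ ⟨y, hy, rfl⟩
      rw [Subgroup.mem_centralizer_singleton_iff]
      have h1 := hRcomm y hy b hb
      show g₀ * y * g₀⁻¹ * a = a * (g₀ * y * g₀⁻¹)
      rw [← hgb]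
      calc g₀ * y * g₀⁻¹ * (g₀ * b * g₀⁻¹) = g₀ * (y * b) * g₀⁻¹ := by group
        _ = g₀ * (b * y) * g₀⁻¹ := by rw [h1]
        _ = _ := by group
    have hCd : Nat.card (centralizer ({a} : Set G)) ∣ 2520 := by
      rw [← hc.card]
      exact Subgroup.card_subgroup_dvd_card _
    obtain ⟨m, hm⟩ : 3 ^ 2 ∣ Nat.card (centralizer ({a} : Set G)) := by
      have := Subgroup.card_dvd_of_le hRle
      rwa [hRc] at this
    have hm3 : ¬ 3 ∣ m := by
      rintro ⟨l, rfl⟩
      rw [hm] at hCd
      have : 27 ∣ 2520 := Dvd.dvd.trans ⟨l, by ring⟩ hCd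
      omega
    obtain ⟨c, hcC, hcm⟩ := exists_conj_of_card (p := 3) hAle hRle hAc (by rw [hRc]; norm_num) hm hm3
    have hca : c * a = a * c := (Subgroup.mem_centralizer_singleton_iff).1 hcC
    have hh : c * g₀ ∈ normalizer ((R : Subgroup G) : Set G) := by
      apply mem_normalizer_of_map
      intro y hy
      have := hcm (g₀ * y * g₀⁻¹) ⟨y, hy, rfl⟩
      have h2 : c * g₀ * y * (c * g₀)⁻¹ = c * (g₀ * y * g₀⁻¹) * c⁻¹ := by group
      rwa [h2]
    have hua : (c * g₀) * a = a * (c * g₀) := by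
      rw [ha]
      exact (Commute.pow_right (show Commute (c * g₀) u from hall _ hh) k).eq
    have h3 : (c * g₀) * b = a * (c * g₀) := by
      calc (c * g₀) * b = c * (g₀ * b * g₀⁻¹) * g₀ := by group
        _ = c * a * g₀ := by rw [hgb]
        _ = a * c * g₀ := by rw [hca]
        _ = _ := by group
    rw [← hua] at h3
    exact mul_left_cancel h3
  have hker := (inferInstance : (MonoidHom.transfer ϕ).ker.Normal).eq_bot_or_eq_top
  rcases hker with h0 | h0
  · have hinj : Function.Injective (MonoidHom.transfer ϕ) := (MonoidHom.ker_eq_bot_iff _).1 h0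
    have := Nat.card_le_card_of_injective _ hinj
    rw [hRc, hc.card] at this
    omega
  · have h1 : u ∈ (MonoidHom.transfer ϕ).ker := by rw [h0]; trivial
    have h2 : MonoidHom.transfer ϕ u = 1 := h1
    rw [MonoidHom.transfer_eq_pow ϕ u key] at h2
    have h3 : u ^ (R : Subgroup G).index = 1 := congrArg Subtype.val h2
    rw [hidx] at h3
    have h4 := orderOf_dvd_of_pow_eq_one h3
    have h5 : orderOf u ∣ 9 := by
      have := orderOf_dvd_natCard (⟨u, huR⟩ : (R : Subgroup G))
      rwa [Subgroup.orderOf_mk, hRc] at this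
    have h6 : orderOf u = 1 := Nat.eq_one_of_dvd_coprimes (by norm_num : Nat.Coprime 280 9) h4 h5
    exact hu1 (orderOf_eq_one_iff.1 h6)

/-- No Sylow 2-subgroup centralizes an element of order 3. -/
theorem false_of_sylow_le_cent (hc : Ctx G) (u : G) (hu : orderOf u = 3) (S : Sylow 2 G)
    (hS : (S : Subgroup G) ≤ centralizer ({u} : Set G)) : False := by
  classical
  haveI : Fact (Nat.Prime 2) := ⟨Nat.prime_two⟩
  obtain ⟨r, n, hrS, hnS, hD⟩ := sylow_D8 hc S
  have hS8 := card_sylow_two hc S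
  set z := r * r with hz
  have hz2 : z * z = 1 := hD.r4
  have hz1 : z ≠ 1 := hD.z1
  set K := centralizer ({u} : Set G) with hK
  have hSz : (S : Subgroup G) ≤ centralizer ({z} : Set G) := by
    intro s hs
    rw [Subgroup.mem_centralizer_singleton_iff]
    exact comm_of_conj_eq (sq_central_of_order_four (S : Subgroup G) hS8 r hrS hD.ord s hs)
  have huK : ∀ s ∈ (S : Subgroup G), s * u = u * s := fun s hs =>
    (Subgroup.mem_centralizer_singleton_iff).1 (hS hs)
  have hzS : z ∈ (S : Subgroup G) := mul_mem hrS hrS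
  have huz : u * z = z * u := (huK z hzS).symm
  have hz24 := card_cent_eq hc z hz2 hz1
  -- the centralizer of `z` centralizes `u`
  have hzK : centralizer ({z} : Set G) ≤ K := by
    have h1 : (S : Subgroup G) ≤ centralizer ({z} : Set G) ⊓ K := le_inf hSz hS
    have h2 : zpowers u ≤ centralizer ({z} : Set G) ⊓ K := by
      rw [Subgroup.zpowers_le]
      exact ⟨(Subgroup.mem_centralizer_singleton_iff).2 huz, (Subgroup.mem_centralizer_singleton_iff).2 rfl⟩
    have h3 := Subgroup.card_dvd_of_le h1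
    have h4 := Subgroup.card_dvd_of_le h2
    rw [hS8] at h3
    rw [Nat.card_zpowers, hu] at h4
    have h5 : 24 ∣ Nat.card (centralizer ({z} : Set G) ⊓ K : Subgroup G) :=
      Nat.Coprime.mul_dvd_of_dvd_of_dvd (by norm_num : Nat.Coprime 8 3) h3 h4
    have h6 : centralizer ({z} : Set G) ⊓ K = centralizer ({z} : Set G) :=
      Subgroup.eq_of_le_of_card_ge inf_le_left (by
        rw [hz24]
        exact Nat.le_of_dvd Nat.card_pos h5)
    rw [← h6]
    exact inf_le_right
  -- the order of `K`
  have hKc : Nat.card K ≤ 72 := by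
    have h5 := five_not_dvd hc u (by rw [hu]; norm_num)
    have h7 := seven_not_dvd hc u (by rw [hu]; norm_num)
    have hd : Nat.card K ∣ 2520 := by
      rw [← hc.card]
      exact Subgroup.card_subgroup_dvd_card _
    have h8 := Subgroup.card_dvd_of_le hS
    rw [hS8] at h8
    have key : ∀ d ∈ (2520 : ℕ).divisors, 8 ∣ d → ¬ 5 ∣ d → ¬ 7 ∣ d → d ≤ 72 := by decide +kernel
    exact key _ (Nat.mem_divisors.2 ⟨hd, by norm_num⟩) h8 h5 h7
  obtain ⟨m, hm, hm2⟩ := card_sylow_in hc K (by
    have h8 := Subgroup.card_dvd_of_le hS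
    rwa [hS8] at h8)
  -- every involution of `K` is conjugate in `K` to `z`
  have hconj : ∀ q ∈ K, q * q = 1 → q ≠ 1 → ∃ c ∈ K, c * q * c⁻¹ = z := by
    intro q hqK hq2 hq1
    obtain ⟨g, hg⟩ := invol_conj hc z q hz2 hz1 hq2 hq1
    have huq : u * q = q * u := ((Subgroup.mem_centralizer_singleton_iff).1 hqK).symm
    have Uq := isU_of_comm hc q u hq2 hq1 hu huq
    have h1 : g * u * g⁻¹ = u ∨ g * u * g⁻¹ = u⁻¹ := by
      have h2 : (g * u * g⁻¹) * q = q * (g * u * g⁻¹) := by
        rw [← hg]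
        calc g * u * g⁻¹ * (g * z * g⁻¹) = g * (u * z) * g⁻¹ := by group
          _ = g * (z * u) * g⁻¹ := by rw [huz]
          _ = _ := by group
      have h3 : (g * u * g⁻¹) ^ 3 = 1 := by
        rw [conj_pow, cube_of_order_three hu]
        group
      rcases Uq.uniq _ h2 h3 with h4 | h4 | h4
      · exact absurd h4 (conj_ne_one' g (ne_one_of_order_three hu))
      · exact Or.inl h4
      · exact Or.inr h4
    let A : Subgroup G := (S : Subgroup G).map (MulAut.conj g).toMonoidHom
    have hAc : Nat.card A = 2 ^ 3 := by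
      rw [Subgroup.card_map_of_injective (MulAut.conj g).injective, hS8]
      norm_num
    have hAK : A ≤ K := by
      rintro _ ⟨s, hs, rfl⟩
      rw [hK, Subgroup.mem_centralizer_singleton_iff]
      have h2 : (g * s * g⁻¹) * (g * u * g⁻¹) = (g * u * g⁻¹) * (g * s * g⁻¹) := by
        calc (g * s * g⁻¹) * (g * u * g⁻¹) = g * (s * u) * g⁻¹ := by group
          _ = g * (u * s) * g⁻¹ := by rw [huK s hs]
          _ = _ := by group
      show g * s * g⁻¹ * u = u * (g * s * g⁻¹)
      rcases h1 with h3 | h3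
      · rwa [h3] at h2
      · rw [h3] at h2
        have h4 : Commute (g * s * g⁻¹) u⁻¹ := h2
        exact (Commute.inv_right_iff.1 h4)
    obtain ⟨c, hcK, hcm⟩ := exists_conj_of_card (p := 2) hAK hS hAc (by rw [hS8]; norm_num) hm hm2
    refine ⟨c, hcK, ?_⟩
    -- `c g` normalizes `S`
    have hh : c * g ∈ normalizer ((S : Subgroup G) : Set G) := by
      apply mem_normalizer_of_map
      intro y hy
      have := hcm (g * y * g⁻¹) ⟨y, hy, rfl⟩
      have h2 : c * g * y * (c * g)⁻¹ = c * (g * y * g⁻¹) * c⁻¹ := by group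
      rwa [h2]
    have hhS : ∀ y ∈ (S : Subgroup G), (c * g) * y * (c * g)⁻¹ ∈ (S : Subgroup G) :=
      fun y hy => (Subgroup.mem_normalizer_iff.1 hh y).1 hy
    have hhS' : ∀ y ∈ (S : Subgroup G), (c * g)⁻¹ * y * (c * g) ∈ (S : Subgroup G) := by
      intro y hy
      have := (Subgroup.mem_normalizer_iff.1 (inv_mem hh) y).1 hy
      simpa using this
    have hzc : ∀ y ∈ (S : Subgroup G), y * z = z * y := fun y hy =>
      (Subgroup.mem_centralizer_singleton_iff).1 (hSz hy)
    have hval : c * q * c⁻¹ = (c * g) * z * (c * g)⁻¹ := by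
      rw [← hg]
      group
    rw [hval]
    symm
    rw [hz]
    symm
    apply hD.central_eq (S : Subgroup G) hS8 hrS hnS _ (hhS z hzS) (conj_invol _ hz2) (conj_ne_one' _ hz1)
    · have h2 := hzc _ (hhS' r hrS)
      have h3 : (c * g) * z * (c * g)⁻¹ * r = (c * g) * (z * ((c * g)⁻¹ * r * (c * g))) * (c * g)⁻¹ := by group
      have h4 : r * ((c * g) * z * (c * g)⁻¹) = (c * g) * (((c * g)⁻¹ * r * (c * g)) * z) * (c * g)⁻¹ := by group
      rw [h3, h4, h2]
    · have h2 := hzc _ (hhS' n hnS)
      have h3 : (c * g) * z * (c * g)⁻¹ * n = (c * g) * (z * ((c * g)⁻¹ * n * (c * g))) * (c * g)⁻¹ := by group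
      have h4 : n * ((c * g) * z * (c * g)⁻¹) = (c * g) * (((c * g)⁻¹ * n * (c * g)) * z) * (c * g)⁻¹ := by group
      rw [h3, h4, h2]
  -- counting in `K`
  have hzKm : z ∈ K := hS hzS
  let z' : ↥K := ⟨z, hzKm⟩
  have hCz : centralizer ({z'} : Set ↥K) = (centralizer ({z} : Set G)).subgroupOf K := by
    ext x
    rw [Subgroup.mem_centralizer_singleton_iff, Subgroup.mem_subgroupOf,
      Subgroup.mem_centralizer_singleton_iff]
    constructor
    · intro h0
      exact congrArg Subtype.val h0
    · intro h0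
      exact Subtype.ext h0
  have hcard24 : Nat.card (centralizer ({z'} : Set ↥K)) = 24 := by
    rw [hCz, ← hz24]
    exact Nat.card_congr (Subgroup.subgroupOfEquivOfLe hzK).toEquiv
  have hcls := card_cls_mul z'
  rw [hcard24] at hcls
  have hclsle : (cls z').card ≤ 3 := by omega
  let F : Finset G := insert z (({1, r, z, r⁻¹} : Finset G).image (fun w => n * w))
  have hFc : F.card = 5 := hD.five_card
  have hFsub : F ⊆ (cls z').image Subtype.val := by
    intro q hq
    have hqS : q ∈ (S : Subgroup G) ∧ q * q = 1 ∧ q ≠ 1 := by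
      rcases Finset.mem_insert.1 hq with h0 | h0
      · rw [h0]
        exact ⟨hzS, hz2, hz1⟩
      · obtain ⟨w, hw, rfl⟩ := Finset.mem_image.1 h0
        have hwW : w ∈ zpowers r := by
          simp only [Finset.mem_insert, Finset.mem_singleton] at hw
          rcases hw with h1 | h1 | h1 | h1 <;> rw [h1]
          · exact one_mem _
          · exact mem_zpowers r
          · exact mul_mem (mem_zpowers r) (mem_zpowers r)
          · exact inv_mem (mem_zpowers r)
        have hD' := hD.refl_of_mem w hwW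
        exact ⟨mul_mem hnS ((Subgroup.zpowers_le).2 hrS hwW), hD'.n2, hD'.ne1⟩
    obtain ⟨hqS1, hq2, hq1⟩ := hqS
    obtain ⟨c, hcK, hcq⟩ := hconj q (hS hqS1) hq2 hq1
    rw [Finset.mem_image]
    refine ⟨⟨q, hS hqS1⟩, ?_, rfl⟩
    rw [mem_cls]
    rw [isConj_iff]
    refine ⟨⟨c, hcK⟩⁻¹, ?_⟩
    apply Subtype.ext
    show (c⁻¹ * z * c⁻¹⁻¹ : G) = q
    rw [← hcq]
    group
  have h1 := Finset.card_le_card hFsub
  have h2 : ((cls z').image Subtype.val).card ≤ (cls z').card := Finset.card_image_le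
  omega

end Cfsg.Agent.Lib.A7Rec
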