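import Mathlib
import Cfsg.Agent.Lib.A7Rec.Cent3

/-!
# A simple group of order 2520 without a subgroup of index 7: the structure of `C(t)` and of `C(u)`
-/

set_option autoImplicit false
set_option linter.style.haveILetI false
set_option linter.unusedVariables false
set_option linter.unusedSectionVars false
set_option linter.unusedSimpArgs false

namespace Cfsg.Agent.Lib.A7Rec

open Subgroup Cfsg.Agent.Lib.SmallCen.SmallOrder Cfsg.Agent.Lib.SmallOrd
open Cfsg.Agent.Lib.Basic.SmallSimple Cfsg.Agent.Lib.SmallOrd.ClassSign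
open Cfsg.Agent.Lib.SmallOrd.InvolTools Cfsg.Agent.Lib.SmallOrd.OrderEight
open scoped Pointwise

variable {G : Type*} [Group G] [Finite G] [IsSimpleGroup G]

omit [IsSimpleGroup G] in
/-- The elements of a group of order 2. -/
theorem zp2 {t y : G} (ht : t * t = 1) (ht1 : t ≠ 1) (hy : y ∈ zpowers t) : y = 1 ∨ y = t := by
  classical
  rw [mem_zpowers_iff_mem_range_orderOf, orderOf_eq_two ht ht1] at hy
  obtain ⟨k, hk, rfl⟩ := Finset.mem_image.1 hy
  have hk3 := Finset.mem_range.1 hk
  interval_cases k
  · left; simp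
  · right; simp

/-- Data for the centralizer `C(u)`, from a Sylow subgroup `R` through `u`. -/
theorem cu_complement (hc : Ctx G) (u : G) (hu : orderOf u = 3) (R : Sylow 3 G) (huR : u ∈ (R : Subgroup G))
    (hK : Nat.card (centralizer ({u} : Set G)) = 36) :
    (∀ g, g * u = u * g → g ∈ normalizer ((R : Subgroup G) : Set G) → g ∈ (R : Subgroup G)) ∧
    ∃ M : Subgroup G, Nat.card M = 4 ∧ M ≤ centralizer ({u} : Set G) ∧
      ∀ h, h * u = u * h → ∀ y ∈ M, h * y * h⁻¹ ∈ M := by
  classical
  haveI : Fact (Nat.Prime 3) := ⟨by norm_num⟩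
  set K := centralizer ({u} : Set G) with hKdef
  obtain ⟨hRc, hRN, hRcomm⟩ := sylow_three hc R
  have hRK : (R : Subgroup G) ≤ K := by
    intro y hy
    rw [hKdef, Subgroup.mem_centralizer_singleton_iff]
    exact hRcomm y hy u huR
  let P : Sylow 3 ↥K := R.subtype hRK
  have hPe : (P : Subgroup ↥K) = (R : Subgroup G).subgroupOf K := Sylow.coe_subtype _ _
  have hnorm : ∀ g : ↥K, g ∈ normalizer ((P : Subgroup ↥K) : Set ↥K) ↔
      (g : G) ∈ normalizer ((R : Subgroup G) : Set G) := by
    intro g
    rw [hPe, ← Subgroup.mem_subgroupOf, Subgroup.subgroupOf_normalizer_eq hRK]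
  obtain ⟨hPc, k, hk, hkd, hk3⟩ := sylow_in (a := 2) (m := 4) (by rw [hK]; norm_num) (by norm_num) P
  have hk_cases : k = 1 ∨ k = 4 := by
    have key : ∀ d ∈ (4 : ℕ).divisors, d % 3 = 1 → d = 1 ∨ d = 4 := by decide +kernel
    exact key k (Nat.mem_divisors.2 ⟨hkd, by norm_num⟩) hk3
  rcases hk_cases with rfl | rfl
  · exfalso
    rw [mul_one] at hk
    have hNt : normalizer ((P : Subgroup ↥K) : Set ↥K) = ⊤ := Subgroup.eq_top_of_card_eq _ hk
    have hle : K ≤ normalizer ((R : Subgroup G) : Set G) := by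
      intro g hg
      have : (⟨g, hg⟩ : ↥K) ∈ normalizer ((P : Subgroup ↥K) : Set ↥K) := by
        rw [hNt]
        trivial
      exact (hnorm _).1 this
    have heq : K = normalizer ((R : Subgroup G) : Set G) :=
      Subgroup.eq_of_le_of_card_ge hle (by rw [hRN, hK])
    obtain ⟨g, hg, hgu⟩ := exists_not_comm hc R u huR (ne_one_of_order_three hu)
    rw [← heq, hKdef, Subgroup.mem_centralizer_singleton_iff] at hg
    exact hgu hg
  · have hNc : Nat.card (normalizer ((P : Subgroup ↥K) : Set ↥K)) = 9 := by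
      rw [hK] at hk
      omega
    have hNP : normalizer ((P : Subgroup ↥K) : Set ↥K) = (P : Subgroup ↥K) := by
      symm
      apply Subgroup.eq_of_le_of_card_ge Subgroup.le_normalizer
      rw [hNc, hPc]
      norm_num
    have hself : ∀ g : ↥K, g ∈ normalizer ((P : Subgroup ↥K) : Set ↥K) → (g : G) ∈ (R : Subgroup G) := by
      intro g hg
      rw [hNP, hPe, Subgroup.mem_subgroupOf] at hg
      exact hg
    refine ⟨?_, ?_⟩
    · intro g hg hgN
      have hgK : g ∈ K := by
        rw [hKdef, Subgroup.mem_centralizer_singleton_iff]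
        exact hg
      exact hself ⟨g, hgK⟩ ((hnorm _).2 hgN)
    · obtain ⟨Nn, hNn, hNc'⟩ := exists_complement P (fun g hg x hx => by
        have h1 := hself g hg
        apply Subtype.ext
        rw [hPe, Subgroup.mem_subgroupOf] at hx
        exact hRcomm _ h1 _ hx)
      have hNn4 : Nat.card Nn = 4 := by
        rw [hPc, hK] at hNc'
        omega
      refine ⟨Nn.map K.subtype, ?_, Subgroup.map_subtype_le _, ?_⟩
      · rw [Subgroup.card_map_of_injective K.subtype_injective, hNn4]
      · rintro h hh _ ⟨y, hy, rfl⟩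
        have hhK : h ∈ K := by
          rw [hKdef, Subgroup.mem_centralizer_singleton_iff]
          exact hh
        exact ⟨⟨h, hhK⟩ * y * (⟨h, hhK⟩ : ↥K)⁻¹, hNn.conj_mem y hy _, rfl⟩

/-- No element of order 4 commutes with an element of order 3. -/
theorem no_order_twelve (hc : Ctx G) (r u : G) (hr : orderOf r = 4) (hu : orderOf u = 3) (hcomm : r * u = u * r) :
    False := by
  classical
  haveI : Fact (Nat.Prime 2) := ⟨Nat.prime_two⟩
  haveI : Fact (Nat.Prime 3) := ⟨by norm_num⟩
  obtain ⟨R, huR⟩ := exists_sylow_mem (p := 3) u hu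
  obtain ⟨hRc, hRN, hRcomm⟩ := sylow_three hc R
  set K := centralizer ({u} : Set G) with hKdef
  have hRK : (R : Subgroup G) ≤ K := by
    intro y hy
    rw [hKdef, Subgroup.mem_centralizer_singleton_iff]
    exact hRcomm y hy u huR
  have hrK : r ∈ K := by
    rw [hKdef, Subgroup.mem_centralizer_singleton_iff]
    exact hcomm
  have h4 : 4 ∣ Nat.card K := by
    have := Subgroup.card_dvd_of_le ((Subgroup.zpowers_le).2 hrK)
    rwa [Nat.card_zpowers, hr] at this
  have h9 : 9 ∣ Nat.card K := by
    have := Subgroup.card_dvd_of_le hRK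
    rwa [hRc] at this
  have h36 : 36 ∣ Nat.card K := Nat.Coprime.mul_dvd_of_dvd_of_dvd (by norm_num : Nat.Coprime 4 9) h4 h9
  have h5 := five_not_dvd hc u (by rw [hu]; norm_num)
  have h7 := seven_not_dvd hc u (by rw [hu]; norm_num)
  have hd : Nat.card K ∣ 2520 := by
    rw [← hc.card]
    exact Subgroup.card_subgroup_dvd_card _
  have key : ∀ d ∈ (2520 : ℕ).divisors, 36 ∣ d → ¬ 5 ∣ d → ¬ 7 ∣ d → d = 36 ∨ d = 72 := by decide +kernel
  rcases key _ (Nat.mem_divisors.2 ⟨hd, by norm_num⟩) h36 h5 h7 with h | h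
  · obtain ⟨hself, M, hMc, hMK, hMn⟩ := cu_complement hc u hu R huR h
    -- `r` is in `M`
    have hrM : r ∈ M := by
      have hm : Nat.card K = 2 ^ 2 * 9 := by rw [h]; norm_num
      obtain ⟨c, hcK, hcm⟩ := exists_conj_of_card (p := 2) (a := 2) (m := 9) ((Subgroup.zpowers_le).2 hrK) hMK
        (by rw [Nat.card_zpowers, hr]; norm_num) (by rw [hMc]; norm_num) hm (by norm_num)
      have h1 := hcm r (mem_zpowers r)
      have hcu : c * u = u * c := (Subgroup.mem_centralizer_singleton_iff).1 hcK
      have hcu' : c⁻¹ * u = u * c⁻¹ := ((show Commute c u from hcu).inv_left).eq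
      have h2 := hMn c⁻¹ hcu' _ h1
      have h3 : c⁻¹ * (c * r * c⁻¹) * c⁻¹⁻¹ = r := by group
      rwa [h3] at h2
    have hMz : M = zpowers r := by
      symm
      exact Subgroup.eq_of_le_of_card_ge ((Subgroup.zpowers_le).2 hrM) (by rw [hMc, Nat.card_zpowers, hr])
    have hz2 := sq_sq_of_order_four r hr
    have hz1 := sq_ne_one_of_order_four r hr
    obtain ⟨-, hWm⟩ := zpowers_four r (r * r) rfl hz2 hz1
    have hri : r⁻¹ ≠ r := by
      intro h0
      apply hz1
      calc r * r = r⁻¹ * r := by rw [h0]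
        _ = 1 := by group
    have hA1 : ∀ s ∈ (R : Subgroup G), ∀ a ∈ ({r, r⁻¹} : Finset G), s * a * s⁻¹ ∈ ({r, r⁻¹} : Finset G) := by
      intro s hs a ha
      have haM : a ∈ M ∧ orderOf a = 4 := by
        simp only [Finset.mem_insert, Finset.mem_singleton] at ha
        rcases ha with h0 | h0 <;> rw [h0]
        · exact ⟨hrM, hr⟩
        · exact ⟨inv_mem hrM, by rw [orderOf_inv, hr]⟩
      have h1 := hMn s ((Subgroup.mem_centralizer_singleton_iff).1 (hRK hs)) a haM.1
      rw [hMz] at h1
      have h2 : orderOf (s * a * s⁻¹) = 4 := by rw [orderOf_conj', haM.2]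
      simp only [Finset.mem_insert, Finset.mem_singleton]
      rcases hWm _ h1 with h3 | h3 | h3 | h3
      · rw [h3, orderOf_one] at h2
        omega
      · exact Or.inl h3
      · exfalso
        rw [h3, orderOf_eq_two hz2 hz1] at h2
        omega
      · right
        rw [h3, ← mul_eq_one_iff_eq_inv]
        calc r * (r * r) * r = r * r * (r * r) := by group
          _ = 1 := hz2
    obtain ⟨a, ha, hac⟩ := exists_comm_of_odd (p := 3) (R : Subgroup G) R.2 _ hA1 (by
      rw [Finset.card_pair (Ne.symm hri)]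
      norm_num)
    have hRr : ∀ e ∈ (R : Subgroup G), e * r = r * e := by
      intro e he
      simp only [Finset.mem_insert, Finset.mem_singleton] at ha
      rcases ha with h0 | h0
      · rw [h0] at hac
        exact hac e he
      · rw [h0] at hac
        have h1 : Commute e r⁻¹ := hac e he
        exact (Commute.inv_right_iff.1 h1)
    have hrR : r ∈ (R : Subgroup G) := by
      apply hself r hcomm
      apply mem_normalizer_of_map
      intro y hy
      rw [← hRr y hy]
      simpa using hy
    have h1 := orderOf_dvd_natCard (⟨r, hrR⟩ : (R : Subgroup G))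
    rw [Subgroup.orderOf_mk, hr, hRc] at h1
    omega
  · obtain ⟨T, hT⟩ := Sylow.exists_subgroup_card_pow_prime (G := K) 2 (n := 3) (by rw [h]; norm_num)
    obtain ⟨S, hS⟩ := exists_sylow_of_card_eight hc (T.map K.subtype) (by
      rw [Subgroup.card_map_of_injective K.subtype_injective, hT]
      norm_num)
    exact false_of_sylow_le_cent hc u hu S (by
      rw [hS]
      exact Subgroup.map_subtype_le _)

/-- The local structure of the centralizer of an involution. -/
structure Cen24 (t r n u : G) : Prop where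
  d8 : D8 r n
  rt : r * r = t
  U : IsU t u
  un : n * u = u * n
  ru : r * u * r⁻¹ = u⁻¹
  sy : ∃ S : Sylow 2 G, r ∈ (S : Subgroup G) ∧ n ∈ (S : Subgroup G)

/-- Existence of the structure. -/
theorem exists_cen24 (hc : Ctx G) (r : G) (hr : orderOf r = 4) (S : Sylow 2 G) (hrS : r ∈ (S : Subgroup G)) :
    ∃ n u, n ∈ (S : Subgroup G) ∧ Cen24 (r * r) r n u := by
  obtain ⟨n₀, hn₀S, hD⟩ := exists_reflection hc r hr S hrS
  obtain ⟨u, U⟩ := exists_u hc (r * r) hD.r4 hD.z1
  have hS8 := card_sylow_two hc S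
  have hrcase : r * u * r⁻¹ = u⁻¹ := by
    rcases U.conj_cases r (by group) with h1 | h1
    · exact absurd (comm_of_conj_eq h1) (fun h2 => no_order_twelve hc r u hr U.ord h2)
    · exact h1
  have hncomm : n₀ * (r * r) = (r * r) * n₀ := hD.nz_comm
  rcases U.conj_cases n₀ hncomm with h1 | h1
  · exact ⟨n₀, u, hn₀S, hD, rfl, U, comm_of_conj_eq h1, hrcase, S, hrS, hn₀S⟩
  · refine ⟨n₀ * r, u, mul_mem hn₀S hrS, hD.refl, rfl, U, ?_, hrcase, S, hrS, mul_mem hn₀S hrS⟩
    apply comm_of_conj_eq
    calc n₀ * r * u * (n₀ * r)⁻¹ = n₀ * (r * u * r⁻¹) * n₀⁻¹ := by group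
      _ = n₀ * u⁻¹ * n₀⁻¹ := by rw [hrcase]
      _ = (n₀ * u * n₀⁻¹)⁻¹ := by group
      _ = u := by rw [h1]; group

/-- Structure for every involution. -/
theorem exists_cen24' (hc : Ctx G) (t : G) (ht : t * t = 1) (ht1 : t ≠ 1) :
    ∃ r n u, Cen24 t r n u := by
  obtain ⟨r, hr, hrt⟩ := exists_sqrt hc t ht ht1
  obtain ⟨S, hrS⟩ := exists_sylow_of_order_four r hr
  obtain ⟨n, u, -, h⟩ := exists_cen24 hc r hr S hrS
  rw [hrt] at h
  exact ⟨r, n, u, h⟩

/-- The involutions commuting with an element of order 3 commuting with an involution. -/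
structure IsV (u a b : G) : Prop where
  a2 : a * a = 1
  a1 : a ≠ 1
  b2 : b * b = 1
  b1 : b ≠ 1
  ab : a ≠ b
  comm : a * b = b * a
  au : a * u = u * a
  bu : b * u = u * b
  ord : orderOf u = 3
  all : ∀ q, q * q = 1 → q ≠ 1 → q * u = u * q → q = a ∨ q = b ∨ q = a * b
  card : Nat.card (centralizer ({u} : Set G)) = 36

/-- The structure of `C(u)`. -/
theorem isV_of_cen24 (hc : Ctx G) {t r n u : G} (h : Cen24 t r n u) : IsV u t n := by
  classical
  haveI : Fact (Nat.Prime 2) := ⟨Nat.prime_two⟩
  haveI : Fact (Nat.Prime 3) := ⟨by norm_num⟩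
  have hD := h.d8
  have hu := h.U.ord
  have ht2 : t * t = 1 := by rw [← h.rt]; exact hD.r4
  have ht1 : t ≠ 1 := by rw [← h.rt]; exact hD.z1
  have hnt : n ≠ t := by rw [← h.rt]; exact hD.nez
  have hnt_comm : t * n = n * t := by
    rw [← h.rt]
    exact hD.nz_comm.symm
  have htu : t * u = u * t := h.U.comm.symm
  obtain ⟨R, huR⟩ := exists_sylow_mem (p := 3) u hu
  obtain ⟨hRc, hRN, hRcomm⟩ := sylow_three hc R
  set K := centralizer ({u} : Set G) with hKdef
  have hRK : (R : Subgroup G) ≤ K := by
    intro y hy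
    rw [hKdef, Subgroup.mem_centralizer_singleton_iff]
    exact hRcomm y hy u huR
  -- the order of `K`
  have h4 : 4 ∣ Nat.card K := by
    -- the Klein four-group
    obtain ⟨W, hWc, hWm⟩ := exists_subgroup_union (zpowers t) n (by
      intro hn
      rcases zp2 ht2 ht1 hn with h0 | h0
      · exact hD.ne1 h0
      · exact hnt h0) (by
      intro α hα
      rcases zp2 ht2 ht1 hα with h0 | h0 <;> rw [h0]
      · simpa using one_mem _
      · rw [← hnt_comm]
        simp [mem_zpowers t]) (by rw [hD.n2]; exact one_mem _)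
    have hWK : W ≤ K := by
      intro g hg
      rw [hKdef, Subgroup.mem_centralizer_singleton_iff]
      rcases hWm g hg with h0 | ⟨α, hα, rfl⟩
      · rcases zp2 ht2 ht1 h0 with h1 | h1 <;> rw [h1]
        · simp
        · exact htu
      · have h5 : α * u = u * α := by
          rcases zp2 ht2 ht1 hα with h1 | h1 <;> rw [h1]
          · simp
          · exact htu
        have h6 : Commute (n * α) u := Commute.mul_left h.un h5
        exact h6.eq
    have := Subgroup.card_dvd_of_le hWK
    rw [hWc, Nat.card_zpowers, orderOf_eq_two ht2 ht1] at this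
    exact this
  have h9 : 9 ∣ Nat.card K := by
    have := Subgroup.card_dvd_of_le hRK
    rwa [hRc] at this
  have h36 : 36 ∣ Nat.card K := Nat.Coprime.mul_dvd_of_dvd_of_dvd (by norm_num : Nat.Coprime 4 9) h4 h9
  have h5 := five_not_dvd hc u (by rw [hu]; norm_num)
  have h7 := seven_not_dvd hc u (by rw [hu]; norm_num)
  have hd : Nat.card K ∣ 2520 := by
    rw [← hc.card]
    exact Subgroup.card_subgroup_dvd_card _
  have key : ∀ d ∈ (2520 : ℕ).divisors, 36 ∣ d → ¬ 5 ∣ d → ¬ 7 ∣ d → d = 36 ∨ d = 72 := by decide +kernel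
  have hK36 : Nat.card K = 36 := by
    rcases key _ (Nat.mem_divisors.2 ⟨hd, by norm_num⟩) h36 h5 h7 with h' | h'
    · exact h'
    · exfalso
      obtain ⟨T, hT⟩ := Sylow.exists_subgroup_card_pow_prime (G := K) 2 (n := 3) (by rw [h']; norm_num)
      obtain ⟨S, hS⟩ := exists_sylow_of_card_eight hc (T.map K.subtype) (by
        rw [Subgroup.card_map_of_injective K.subtype_injective, hT]
        norm_num)
      exact false_of_sylow_le_cent hc u hu S (by
        rw [hS]
        exact Subgroup.map_subtype_le _)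
  obtain ⟨-, M, hMc, hMK, hMn⟩ := cu_complement hc u hu R huR hK36
  -- involutions of `K` lie in `M`
  have hinvM : ∀ q, q * q = 1 → q ≠ 1 → q * u = u * q → q ∈ M := by
    intro q hq2 hq1 hqu
    by_contra hqM
    obtain ⟨W, hWc, hWm⟩ := exists_subgroup_union M q hqM (fun α hα => hMn q hqu α hα) (by
      rw [hq2]
      exact one_mem _)
    have hWK : W ≤ K := by
      intro g hg
      rcases hWm g hg with h0 | ⟨α, hα, rfl⟩
      · exact hMK h0
      · exact mul_mem ((Subgroup.mem_centralizer_singleton_iff).2 hqu) (hMK hα)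
    have := Subgroup.card_dvd_of_le hWK
    rw [hWc, hMc, hK36] at this
    omega
  have hall : ∀ q, q * q = 1 → q ≠ 1 → q * u = u * q → q = t ∨ q = n ∨ q = t * n := by
    haveI : Fintype G := Fintype.ofFinite G
    have hMf : (Finset.univ.filter (· ∈ M)).card = 4 := by
      rw [← hMc, Nat.card_eq_fintype_card, Fintype.card_subtype]
    have htM := hinvM t ht2 ht1 htu
    have hnM := hinvM n hD.n2 hD.ne1 h.un
    have hsub : ({1, t, n, t * n} : Finset G) ⊆ Finset.univ.filter (· ∈ M) := by
      intro c hc'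
      simp only [Finset.mem_insert, Finset.mem_singleton] at hc'
      simp only [Finset.mem_filter, Finset.mem_univ, true_and]
      rcases hc' with h0 | h0 | h0 | h0 <;> rw [h0]
      · exact one_mem _
      · exact htM
      · exact hnM
      · exact mul_mem htM hnM
    have htninv : t * n ≠ 1 := by
      intro h0
      apply hnt
      have := eq_inv_of_mul_eq_one_right h0
      rw [this, inv_of_invol ht2]
    have hcard4 : ({1, t, n, t * n} : Finset G).card = 4 := by
      rw [Finset.card_insert_of_notMem, Finset.card_insert_of_notMem, Finset.card_pair]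
      · intro h0
        apply ht1
        have h1 : t * n = 1 * n := by rw [one_mul]; exact h0.symm
        exact mul_right_cancel h1
      · simp only [Finset.mem_insert, Finset.mem_singleton, not_or]
        refine ⟨Ne.symm hnt, ?_⟩
        intro h0
        apply hD.ne1
        have : t * t = t * (t * n) := by rw [← h0]
        rw [ht2, ← mul_assoc, ht2, one_mul] at this
        exact this.symm
      · simp only [Finset.mem_insert, Finset.mem_singleton, not_or]
        exact ⟨Ne.symm ht1, Ne.symm hD.ne1, Ne.symm htninv⟩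
    have heq := Finset.eq_of_subset_of_card_le hsub (by rw [hMf, hcard4])
    intro q hq2 hq1 hqu
    have hqf : q ∈ Finset.univ.filter (· ∈ M) := by simp [hinvM q hq2 hq1 hqu]
    rw [← heq] at hqf
    simp only [Finset.mem_insert, Finset.mem_singleton] at hqf
    rcases hqf with h0 | h0 | h0 | h0
    · exact absurd h0 hq1
    · exact Or.inl h0
    · exact Or.inr (Or.inl h0)
    · exact Or.inr (Or.inr h0)
  exact ⟨ht2, ht1, hD.n2, hD.ne1, hnt.symm, hnt_comm, htu, h.un, hu, hall, hK36⟩

end Cfsg.Agent.Lib.A7Rec
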