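import Mathlib

/-!
# A subgroup `B ∪ B n B` from a relation on `n`
-/

set_option autoImplicit false
set_option linter.style.haveILetI false
set_option linter.unusedVariables false
set_option linter.unusedSectionVars false
set_option linter.unusedSimpArgs false

namespace Cfsg.Agent.Lib.A7Rec

open Subgroup

variable {G : Type*} [Group G] [Finite G]

/-- The carrier of `B ∪ B n B`. -/
def Car (B : Subgroup G) (n g : G) : Prop := g ∈ B ∨ ∃ b₁ ∈ B, ∃ b₂ ∈ B, g = b₁ * n * b₂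

omit [Finite G] in
theorem Car.mul_right {B : Subgroup G} {n g b : G} (h : Car B n g) (hb : b ∈ B) : Car B n (g * b) := by
  rcases h with h | ⟨b₁, hb₁, b₂, hb₂, rfl⟩
  · exact Or.inl (mul_mem h hb)
  · exact Or.inr ⟨b₁, hb₁, b₂ * b, mul_mem hb₂ hb, by group⟩

omit [Finite G] in
theorem Car.mul_left {B : Subgroup G} {n g b : G} (h : Car B n g) (hb : b ∈ B) : Car B n (b * g) := by
  rcases h with h | ⟨b₁, hb₁, b₂, hb₂, rfl⟩
  · exact Or.inl (mul_mem hb h)
  · exact Or.inr ⟨b * b₁, mul_mem hb hb₁, b₂, hb₂, by group⟩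

/-- The group `B ∪ B n B`. -/
theorem closure_main (R B : Subgroup G) (w n : G) (hRB : R ≤ B)
    (hB : ∀ g ∈ B, ∃ β ∈ R, ∃ w' ∈ zpowers w, g = β * w') (hwB : w ∈ B)
    (hRn : ∀ g ∈ B, ∀ β ∈ R, g * β * g⁻¹ ∈ R) (hn2 : n * n = 1) (hnw : n * w * n⁻¹ = w⁻¹) (hnB : n ∉ B)
    (hdisj : ∀ e ∈ R, n * e * n⁻¹ ∈ B → e = 1) (hkey : ∀ β ∈ R, Car B n (n * β * n)) :
    ∃ M : Subgroup G, Nat.card M = Nat.card B * (Nat.card R + 1) := by
  classical
  have hni : n⁻¹ = n := inv_eq_of_mul_eq_one_left hn2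
  have hWB : zpowers w ≤ B := (Subgroup.zpowers_le).2 hwB
  have hnzp : ∀ w' ∈ zpowers w, n * w' * n = w'⁻¹ := by
    intro w' hw'
    obtain ⟨k, rfl⟩ := Subgroup.mem_zpowers_iff.1 hw'
    have h1 : n * w ^ k * n⁻¹ = (n * w * n⁻¹) ^ k := (conj_zpow).symm
    rw [hni] at h1 hnw
    rw [h1, hnw]
    group
  have hstep : ∀ b ∈ B, Car B n (n * b * n) := by
    intro b hb
    obtain ⟨β, hβ, w', hw', rfl⟩ := hB b hb
    have h1 : n * (β * w') * n = (n * β * n) * (n * w' * n) := by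
      calc n * (β * w') * n = n * β * (n * n) * w' * n := by rw [hn2]; group
        _ = _ := by group
    rw [h1, hnzp w' hw']
    exact (hkey β hβ).mul_right (inv_mem (hWB hw'))
  let M : Subgroup G :=
    { carrier := {g | Car B n g}
      mul_mem' := by
        intro x y hx hy
        rcases hx with hx | ⟨b₁, hb₁, b₂, hb₂, rfl⟩
        · exact Car.mul_left hy hx
        · rcases hy with hy | ⟨b₃, hb₃, b₄, hb₄, rfl⟩
          · exact Car.mul_right (Or.inr ⟨b₁, hb₁, b₂, hb₂, rfl⟩) hy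
          · have h1 : b₁ * n * b₂ * (b₃ * n * b₄) = b₁ * (n * (b₂ * b₃) * n) * b₄ := by group
            show Car B n _
            rw [h1]
            exact ((hstep _ (mul_mem hb₂ hb₃)).mul_left hb₁).mul_right hb₄
      one_mem' := Or.inl (one_mem _)
      inv_mem' := by
        intro x hx
        rcases hx with hx | ⟨b₁, hb₁, b₂, hb₂, rfl⟩
        · exact Or.inl (inv_mem hx)
        · refine Or.inr ⟨b₂⁻¹, inv_mem hb₂, b₁⁻¹, inv_mem hb₁, ?_⟩
          rw [mul_inv_rev, mul_inv_rev, hni]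
          group }
  refine ⟨M, ?_⟩
  haveI : Fintype G := Fintype.ofFinite G
  let f : ↥B × ↥R → G := fun p => (p.1 : G) * n * (p.2 : G)
  have hf : Function.Injective f := by
    rintro ⟨b, β⟩ ⟨b', β'⟩ h
    have h1 : (b : G) * n * β = b' * n * β' := h
    have h2 : n * ((β' : G) * (β : G)⁻¹) * n⁻¹ = (b' : G)⁻¹ * b := by
      rw [hni]
      calc n * ((β' : G) * (β : G)⁻¹) * n = (b' : G)⁻¹ * (b' * n * β') * (β : G)⁻¹ * n := by group
        _ = (b' : G)⁻¹ * (b * n * β) * (β : G)⁻¹ * n := by rw [h1]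
        _ = (b' : G)⁻¹ * b * (n * n) := by group
        _ = _ := by rw [hn2, mul_one]
    have h3 : (β' : G) * (β : G)⁻¹ = 1 :=
      hdisj _ (mul_mem β'.2 (inv_mem β.2)) (by rw [h2]; exact mul_mem (inv_mem b'.2) b.2)
    have h4 : (β' : G) = β := mul_inv_eq_one.1 h3
    have h5 : (b : G) = b' := by
      rw [← h4] at h1
      exact mul_right_cancel (mul_right_cancel h1)
    exact Prod.ext (Subtype.ext h5) (Subtype.ext h4.symm)
  let Bf : Finset G := Finset.univ.filter (· ∈ B)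
  let If : Finset G := Finset.univ.image f
  have hBf : Bf.card = Nat.card B := by
    rw [Nat.card_eq_fintype_card, Fintype.card_subtype]
  have hIf : If.card = Nat.card B * Nat.card R := by
    rw [Finset.card_image_of_injective _ hf, Finset.card_univ, Fintype.card_prod,
      Nat.card_eq_fintype_card, Nat.card_eq_fintype_card]
  have hdis : Disjoint Bf If := by
    rw [Finset.disjoint_left]
    intro g hg hg'
    obtain ⟨⟨b, β⟩, -, rfl⟩ := Finset.mem_image.1 hg'
    simp only [Bf, Finset.mem_filter, Finset.mem_univ, true_and] at hg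
    apply hnB
    have h1 : n = (b : G)⁻¹ * (f (b, β)) * (β : G)⁻¹ := by
      show n = (b : G)⁻¹ * ((b : G) * n * β) * (β : G)⁻¹
      group
    rw [h1]
    exact mul_mem (mul_mem (inv_mem b.2) hg) (inv_mem (hRB β.2))
  have hMf : Finset.univ.filter (· ∈ M) = Bf ∪ If := by
    ext g
    simp only [Finset.mem_filter, Finset.mem_univ, true_and, Finset.mem_union, Bf, If, Finset.mem_image]
    constructor
    · intro hgM
      have hgM' : Car B n g := hgM
      rcases hgM' with hg | ⟨b₁, hb₁, b₂, hb₂, rfl⟩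
      · exact Or.inl hg
      · right
        obtain ⟨β, hβ, w', hw', rfl⟩ := hB b₂ hb₂
        have hw'B := hWB hw'
        have hβ' : w'⁻¹ * β * w' ∈ R := by
          have := hRn w'⁻¹ (inv_mem hw'B) β hβ
          simpa using this
        refine ⟨(⟨b₁ * w'⁻¹, mul_mem hb₁ (inv_mem hw'B)⟩, ⟨_, hβ'⟩), ?_⟩
        show b₁ * w'⁻¹ * n * (w'⁻¹ * β * w') = b₁ * n * (β * w')
        have h1 : n * w'⁻¹ * n = w' := by
          have := hnzp w'⁻¹ (inv_mem hw')
          simpa using this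
        have h2 : w'⁻¹ * n = n * w' := by
          calc w'⁻¹ * n = n * (n * w'⁻¹ * n) := by
                rw [← mul_assoc, ← mul_assoc, hn2, one_mul]
            _ = n * w' := by rw [h1]
        calc b₁ * w'⁻¹ * n * (w'⁻¹ * β * w') = b₁ * (w'⁻¹ * n) * (w'⁻¹ * β * w') := by group
          _ = b₁ * (n * w') * (w'⁻¹ * β * w') := by rw [h2]
          _ = _ := by group
    · rintro (hg | ⟨⟨b, β⟩, rfl⟩)
      · exact Or.inl hg
      · exact Or.inr ⟨b, b.2, β, hRB β.2, rfl⟩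
  have hMc : Nat.card M = (Finset.univ.filter (· ∈ M)).card := by
    rw [Nat.card_eq_fintype_card, Fintype.card_subtype]
  rw [hMc, hMf, Finset.card_union_of_disjoint hdis, hBf, hIf]
  ring

/-- Goodness is invariant under `w`. -/
theorem good_conj {B : Subgroup G} {w n β : G} (hn2 : n * n = 1) (hnw : n * w * n⁻¹ = w⁻¹) (hwB : w ∈ B)
    (h : Car B n (n * β * n)) : Car B n (n * (w * β * w⁻¹) * n) := by
  have hni : n⁻¹ = n := inv_eq_of_mul_eq_one_left hn2
  rw [hni] at hnw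
  have h1 : n * w⁻¹ * n = w := by
    calc n * w⁻¹ * n = (n * w * n)⁻¹ := by
          simp only [mul_inv_rev, hni, mul_assoc]
      _ = w := by rw [hnw, inv_inv]
  have h2 : n * (w * β * w⁻¹) * n = (n * w * n) * (n * β * n) * (n * w⁻¹ * n) := by
    calc n * (w * β * w⁻¹) * n = n * w * (n * n) * β * (n * n) * w⁻¹ * n := by
          rw [hn2]; group
      _ = _ := by group
  rw [h2, hnw, h1]
  exact (h.mul_left (inv_mem hwB)).mul_right hwB

/-- Goodness is invariant under powers of `w`. -/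
theorem good_conj_zpow {B : Subgroup G} {w n β : G} (hn2 : n * n = 1) (hnw : n * w * n⁻¹ = w⁻¹) (hwB : w ∈ B)
    (hw4 : w ^ 4 = 1) (w' : G) (hw' : w' ∈ zpowers w) (h : Car B n (n * β * n)) :
    Car B n (n * (w' * β * w'⁻¹) * n) := by
  have key : ∀ k : ℕ, Car B n (n * (w ^ k * β * (w ^ k)⁻¹) * n) := by
    intro k
    induction k with
    | zero => simpa using h
    | succ k ih =>
      have := good_conj hn2 hnw hwB ih
      have h2 : w * (w ^ k * β * (w ^ k)⁻¹) * w⁻¹ = w ^ (k + 1) * β * (w ^ (k + 1))⁻¹ := by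
        rw [pow_succ']
        group
      rwa [h2] at this
  obtain ⟨k, rfl⟩ := Subgroup.mem_zpowers_iff.1 hw'
  have h3 : ∃ m : ℕ, w ^ k = w ^ m := by
    refine ⟨(k % 4).toNat, ?_⟩
    have h4 : (k % 4 : ℤ) ≥ 0 := Int.emod_nonneg _ (by norm_num)
    have h5 : ((k % 4).toNat : ℤ) = k % 4 := Int.toNat_of_nonneg h4
    rw [← zpow_natCast, h5]
    conv_lhs => rw [← Int.mul_ediv_add_emod k 4]
    rw [zpow_add, zpow_mul]
    have : w ^ (4 : ℤ) = 1 := by
      rw [show (4 : ℤ) = ((4 : ℕ) : ℤ) by norm_num, zpow_natCast, hw4]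
    rw [this]
    simp
  obtain ⟨m, hm⟩ := h3
  rw [hm]
  exact key m

/-- The relation `(n₀ β)³ = 1` for a reflection `n₀ = n w'` gives goodness. -/
theorem good_of_rel {B : Subgroup G} {w n β w' : G} (hn2 : n * n = 1) (hnw : n * w * n⁻¹ = w⁻¹) (hwB : w ∈ B)
    (hw4 : w ^ 4 = 1) (hw' : w' ∈ zpowers w) (hβB : β ∈ B) (hrel : (n * w' * β) ^ 3 = 1) :
    Car B n (n * β * n) := by
  have hni : n⁻¹ = n := inv_eq_of_mul_eq_one_left hn2
  have hnzp : n * w' * n = w'⁻¹ := by
    obtain ⟨k, rfl⟩ := Subgroup.mem_zpowers_iff.1 hw'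
    have h1 : n * w ^ k * n⁻¹ = (n * w * n⁻¹) ^ k := (conj_zpow).symm
    rw [hni] at h1 hnw
    rw [h1, hnw]
    group
  have hw'B : w' ∈ B := (Subgroup.zpowers_le).2 hwB hw'
  have hn₀2 : (n * w') * (n * w') = 1 := by
    calc (n * w') * (n * w') = (n * w' * n) * w' := by group
      _ = 1 := by rw [hnzp]; group
  have hn₀i : (n * w')⁻¹ = n * w' := inv_eq_of_mul_eq_one_left hn₀2
  have h1 : (n * w') * β * (n * w') = β⁻¹ * (n * w') * β⁻¹ := by
    have h2 : (n * w' * β) * (n * w' * β) * (n * w' * β) = 1 := by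
      rw [← hrel, show (3 : ℕ) = 2 + 1 from rfl, pow_succ, pow_two]
    have h3 : ((n * w') * β * (n * w')) * (β * (n * w') * β) = 1 := by
      rw [← h2]; group
    rw [eq_inv_of_mul_eq_one_left h3]
    have h3' : (β * (n * w') * β)⁻¹ = β⁻¹ * (n * w')⁻¹ * β⁻¹ := by group
    rw [h3', hn₀i]
  have h4 : n * (w' * β * w'⁻¹) * n = (n * w') * β * (n * w') := by
    have h5 : w'⁻¹ * n = n * w' := by
      calc w'⁻¹ * n = (n * w' * n) * n := by rw [hnzp]
        _ = n * w' * (n * n) := by group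
        _ = n * w' := by rw [hn2, mul_one]
    calc n * (w' * β * w'⁻¹) * n = n * w' * β * (w'⁻¹ * n) := by simp only [mul_assoc]
      _ = _ := by rw [h5]
  have h6 : Car B n (n * (w' * β * w'⁻¹) * n) := by
    rw [h4, h1]
    exact Or.inr ⟨β⁻¹, inv_mem hβB, w' * β⁻¹, mul_mem hw'B (inv_mem hβB), by group⟩
  have h7 := good_conj_zpow hn2 hnw hwB hw4 w'⁻¹ (inv_mem hw') h6
  have h8 : w'⁻¹ * (w' * β * w'⁻¹) * w'⁻¹⁻¹ = β := by group
  rwa [h8] at h7

end Cfsg.Agent.Lib.A7Rec
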