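import Mathlib
import Cfsg.Agent.Lib.A7Rec.Cent4

/-!
# A simple group of order 2520 without a subgroup of index 7: calculus in `C(t)`
-/

set_option autoImplicit false
set_option linter.style.haveILetI false
set_option linter.unusedVariables false
set_option linter.unusedSectionVars false
set_option linter.unusedSimpArgs false

namespace Cfsg.Agent.Lib.A7Rec

open Subgroup Cfsg.Agent.Lib.SmallCen.SmallOrder Cfsg.Agent.Lib.SmallOrd
open Cfsg.Agent.Lib.Basic.SmallSimple Cfsg.Agent.Lib.SmallOrd.ClassSign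
open Cfsg.Agent.Lib.SmallOrd.InvolTools Cfsg.Agent.Lib.SmallOrd.OrderEight
open scoped Pointwise

variable {G : Type*} [Group G] [Finite G] [IsSimpleGroup G]

namespace Cen24

variable {t r n u : G}

theorem t2 (h : Cen24 t r n u) : t * t = 1 := by rw [← h.rt]; exact h.d8.r4

theorem t1 (h : Cen24 t r n u) : t ≠ 1 := by rw [← h.rt]; exact h.d8.z1

theorem ut (h : Cen24 t r n u) : u * t = t * u := h.U.comm

theorem nt (h : Cen24 t r n u) : n * t = t * n := by rw [← h.rt]; exact h.d8.nz_comm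

theorem n_ne_t (h : Cen24 t r n u) : n ≠ t := by rw [← h.rt]; exact h.d8.nez

theorem r_t (h : Cen24 t r n u) : r * t = t * r := by rw [← h.rt]; group

theorem ord_r (h : Cen24 t r n u) : orderOf r = 4 := h.d8.ord

theorem ord_u (h : Cen24 t r n u) : orderOf u = 3 := h.U.ord

theorem u3 (h : Cen24 t r n u) : u ^ 3 = 1 := cube_of_order_three h.ord_u

theorem r_inv_eq (h : Cen24 t r n u) : r⁻¹ = r * t := by rw [← h.rt]; exact h.d8.r_inv

theorem rinv_u (h : Cen24 t r n u) : r⁻¹ * u * r = u⁻¹ := by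
  rw [h.r_inv_eq]
  have h1 := h.ru
  have h2 : (r * t) * u * (r * t)⁻¹ = r * (t * u * t⁻¹) * r⁻¹ := by group
  have h3 : t * u * t⁻¹ = u := conj_eq_of_comm h.ut.symm
  have h4 : (r * t)⁻¹ = r := by
    rw [← h.r_inv_eq, inv_inv]
  rw [h4] at h2
  rw [h2, h3, h1]

/-- The reflection inverting `u`. -/
theorem nr_u (h : Cen24 t r n u) : (n * r) * u * (n * r)⁻¹ = u⁻¹ := by
  calc (n * r) * u * (n * r)⁻¹ = n * (r * u * r⁻¹) * n⁻¹ := by group
    _ = n * u⁻¹ * n⁻¹ := by rw [h.ru]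
    _ = (n * u * n⁻¹)⁻¹ := by group
    _ = u⁻¹ := by rw [conj_eq_of_comm h.un]

theorem rinv_sq (h : Cen24 t r n u) : r⁻¹ * r⁻¹ = t := by
  have h1 : r⁻¹ * r⁻¹ = (r * r)⁻¹ := by group
  rw [h1, h.rt]
  exact inv_of_invol h.t2

/-- Replacing `r` by its inverse. -/
theorem rinv (h : Cen24 t r n u) : Cen24 t r⁻¹ n u := by
  obtain ⟨S, hrS, hnS⟩ := h.sy
  have hD := h.d8
  refine ⟨⟨by rw [orderOf_inv, hD.ord], hD.n2, ?_, hD.ne1, ?_⟩, h.rinv_sq, h.U, h.un, ?_, S, inv_mem hrS, hnS⟩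
  · calc n * r⁻¹ * n⁻¹ = (n * r * n⁻¹)⁻¹ := by group
      _ = _ := by rw [hD.inv]
  · rw [h.rinv_sq]
    exact h.n_ne_t
  · simpa using h.rinv_u

/-- Replacing `u` by its inverse. -/
theorem uinv (h : Cen24 t r n u) : Cen24 t r n u⁻¹ := by
  refine ⟨h.d8, h.rt, h.U.inv, ?_, ?_, h.sy⟩
  · exact (show Commute n u from h.un).inv_right.eq
  · calc r * u⁻¹ * r⁻¹ = (r * u * r⁻¹)⁻¹ := by group
      _ = _ := by rw [h.ru]

/-- Replacing `u` by an element of order 3 of the centralizer. -/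
theorem with_u (h : Cen24 t r n u) (e : G) (he : e * t = t * e) (he3 : orderOf e = 3) : Cen24 t r n e := by
  rcases h.U.uniq e he (cube_of_order_three he3) with h1 | h1 | h1
  · exact absurd h1 (ne_one_of_order_three he3)
  · rw [h1]
    exact h
  · rw [h1]
    exact h.uinv

theorem nr_invol (h : Cen24 t r n u) : (n * r) * (n * r) = 1 := h.d8.refl_zpow r (mem_zpowers r)

theorem nr_ne_one (h : Cen24 t r n u) : n * r ≠ 1 := h.d8.refl.ne1

theorem nri_eq (h : Cen24 t r n u) : n * r⁻¹ = (n * r) * t := by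
  rw [h.r_inv_eq, mul_assoc]

theorem nr_t (h : Cen24 t r n u) : (n * r) * t = t * (n * r) := by
  have h1 : Commute n t := h.nt
  have h2 : Commute r t := h.r_t
  exact (h1.mul_left h2).eq

/-- `u` is conjugated to its inverse by the elements of the coset. -/
theorem conj_b_of_inv {s b : G} (hs : s * u * s⁻¹ = u⁻¹) (hb : b = 1 ∨ b = u ∨ b = u⁻¹) : s * b * s⁻¹ = b⁻¹ := by
  rcases hb with h0 | h0 | h0 <;> rw [h0]
  · simp
  · exact hs
  · calc s * u⁻¹ * s⁻¹ = (s * u * s⁻¹)⁻¹ := by group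
      _ = _ := by rw [hs]

theorem conj_b_of_comm {s b : G} (hs : s * u = u * s) (hb : b = 1 ∨ b = u ∨ b = u⁻¹) : s * b = b * s := by
  rcases hb with h0 | h0 | h0 <;> rw [h0]
  · simp
  · exact hs
  · exact (show Commute s u from hs).inv_right.eq

/-- Elements of a Sylow 2-subgroup and of `⟨u⟩` meet trivially. -/
theorem b_eq_one_of_mem (h : Cen24 t r n u) {S : Subgroup G} (hS : Nat.card S = 8) {b : G} (hbS : b ∈ S)
    (hb : b = 1 ∨ b = u ∨ b = u⁻¹) : b = 1 := by
  have h1 := orderOf_dvd_natCard (⟨b, hbS⟩ : S)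
  rw [Subgroup.orderOf_mk, hS] at h1
  rcases hb with h0 | h0 | h0
  · exact h0
  · rw [h0, h.ord_u] at h1
    omega
  · rw [h0, orderOf_inv, h.ord_u] at h1
    omega

/-- The normal form in `C(t)`. -/
theorem nf (hc : Ctx G) (h : Cen24 t r n u) (g : G) (hg : g * t = t * g) :
    ∃ (S : Sylow 2 G) (s b : G), r ∈ (S : Subgroup G) ∧ n ∈ (S : Subgroup G) ∧ s ∈ (S : Subgroup G) ∧
      (s = 1 ∨ s = r ∨ s = t ∨ s = r⁻¹ ∨ s = n ∨ s = n * r ∨ s = n * t ∨ s = n * r⁻¹) ∧
      (b = 1 ∨ b = u ∨ b = u⁻¹) ∧ g = s * b := by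
  obtain ⟨S, hrS, hnS⟩ := h.sy
  have hS8 := card_sylow_two hc S
  have hSH : (S : Subgroup G) ≤ centralizer ({t} : Set G) := by
    intro s hs
    rw [Subgroup.mem_centralizer_singleton_iff, ← h.rt]
    exact comm_of_conj_eq (sq_central_of_order_four (S : Subgroup G) hS8 r hrS h.ord_r s hs)
  have hB : zpowers u ≤ centralizer ({t} : Set G) := by
    rw [Subgroup.zpowers_le, Subgroup.mem_centralizer_singleton_iff]
    exact h.ut
  obtain ⟨s, hs, b, hb, rfl⟩ := mul_surj hSH hB (by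
    rw [hS8, Nat.card_zpowers, h.ord_u, card_cent_eq hc t h.t2 h.t1]) (by
    rw [hS8, Nat.card_zpowers, h.ord_u]
    norm_num) g ((Subgroup.mem_centralizer_singleton_iff).2 hg)
  refine ⟨S, s, b, hrS, hnS, hs, ?_, zp3 h.ord_u hb, rfl⟩
  have := h.d8.mem_list (S : Subgroup G) hS8 hrS hnS s hs
  rwa [h.rt] at this

/-- The elements of the list commuting with `u`, the others invert `u`. -/
theorem act_list (h : Cen24 t r n u) :
    (1 : G) * u = u * 1 ∧ t * u = u * t ∧ n * u = u * n ∧ (n * t) * u = u * (n * t) ∧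
    r * u * r⁻¹ = u⁻¹ ∧ r⁻¹ * u * r⁻¹⁻¹ = u⁻¹ ∧ (n * r) * u * (n * r)⁻¹ = u⁻¹ ∧
      (n * r⁻¹) * u * (n * r⁻¹)⁻¹ = u⁻¹ := by
  refine ⟨by simp, h.ut.symm, h.un, ?_, h.ru, by simpa using h.rinv_u, h.nr_u, ?_⟩
  · exact ((show Commute n u from h.un).mul_left (show Commute t u from h.ut.symm)).eq
  · calc (n * r⁻¹) * u * (n * r⁻¹)⁻¹ = n * (r⁻¹ * u * r) * n⁻¹ := by group
      _ = n * u⁻¹ * n⁻¹ := by rw [h.rinv_u]
      _ = (n * u * n⁻¹)⁻¹ := by group
      _ = u⁻¹ := by rw [conj_eq_of_comm h.un]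

theorem u_ne_inv (h : Cen24 t r n u) : u ≠ u⁻¹ := by
  intro h0
  have h1 : u * u = 1 := by
    calc u * u = u * u⁻¹ := by rw [← h0]
      _ = 1 := by group
  have h2 := orderOf_dvd_of_pow_eq_one (x := u) (n := 2) (by rw [pow_two]; exact h1)
  rw [h.ord_u] at h2
  omega

/-- Involutions of `C(t)` inverting `u`. -/
theorem invol_inv (hc : Ctx G) (h : Cen24 t r n u) (g : G) (hg : g * t = t * g) (hg2 : g * g = 1)
    (hgu : g * u * g⁻¹ = u⁻¹) :
    ∃ b, (b = 1 ∨ b = u ∨ b = u⁻¹) ∧ (g = n * r * b ∨ g = n * r⁻¹ * b) := by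
  obtain ⟨S, s, b, hrS, hnS, hsS, hs, hb, rfl⟩ := h.nf hc g hg
  refine ⟨b, hb, ?_⟩
  have hbu : b * u = u * b := by
    rcases hb with h0 | h0 | h0 <;> rw [h0]
    · simp
    · exact (show Commute u⁻¹ u from (Commute.refl u).inv_left).eq
  have hsu : s * u * s⁻¹ = u⁻¹ := by
    calc s * u * s⁻¹ = s * b * u * b⁻¹ * s⁻¹ * (b * b⁻¹) := by
          rw [mul_assoc s b u, hbu]; group
      _ = (s * b) * u * (s * b)⁻¹ := by group
      _ = u⁻¹ := hgu
  have hinvb := conj_b_of_inv hsu hb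
  have hsb : s * b = b⁻¹ * s := by
    calc s * b = s * b * s⁻¹ * s := by group
      _ = b⁻¹ * s := by rw [hinvb]
  have hss : s * s = 1 := by
    have h1 : b⁻¹ * (s * s) * b⁻¹⁻¹ = 1 := by
      calc b⁻¹ * (s * s) * b⁻¹⁻¹ = (b⁻¹ * s) * (s * b) := by group
        _ = (s * b) * (s * b) := by rw [← hsb]
        _ = 1 := hg2
    exact (conj_ne_one_iff b⁻¹).1 h1
  have hne := h.u_ne_inv
  obtain ⟨h1, h2, h3, h4, h5, h6, h7, h8⟩ := h.act_list
  have hcontra : s * u = u * s → False := by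
    intro hcomm
    apply hne
    rw [conj_eq_of_comm hcomm] at hsu
    exact hsu
  rcases hs with h0 | h0 | h0 | h0 | h0 | h0 | h0 | h0
  · exact (hcontra (by rw [h0]; exact h1)).elim
  · exfalso
    rw [h0] at hss
    exact h.d8.z1 hss
  · exact (hcontra (by rw [h0]; exact h2)).elim
  · exfalso
    rw [h0, h.rinv_sq] at hss
    exact h.t1 hss
  · exact (hcontra (by rw [h0]; exact h3)).elim
  · left
    rw [h0]
  · exact (hcontra (by rw [h0]; exact h4)).elim
  · right
    rw [h0]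

/-- An element of `⟨u⟩` whose square lies in a Sylow 2-subgroup is trivial. -/
theorem b_eq_one_of_sq_mem (h : Cen24 t r n u) {S : Subgroup G} (hS : Nat.card S = 8) {b : G} (hbS : b * b ∈ S)
    (hb : b = 1 ∨ b = u ∨ b = u⁻¹) : b = 1 := by
  have h3 := h.u3
  have huu : u * u = u⁻¹ := sq_eq_inv_of_cube h3
  have huu' : u⁻¹ * u⁻¹ = u := by
    calc u⁻¹ * u⁻¹ = (u * u)⁻¹ := by group
      _ = u := by rw [huu, inv_inv]
  rcases hb with h0 | h0 | h0
  · exact h0
  · exfalso
    rw [h0, huu] at hbS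
    have := h.b_eq_one_of_mem hS hbS (Or.inr (Or.inr rfl))
    exact ne_one_of_order_three h.ord_u (by simpa using this)
  · exfalso
    rw [h0, huu'] at hbS
    have := h.b_eq_one_of_mem hS hbS (Or.inr (Or.inl rfl))
    exact ne_one_of_order_three h.ord_u this

theorem n_not_comm_r (h : Cen24 t r n u) : n * r ≠ r * n := by
  intro h0
  have h1 := h.d8.inv
  rw [h0] at h1
  have h2 : r = r⁻¹ := by
    rw [← h1]
    group
  apply h.d8.z1
  calc r * r = r⁻¹ * r := by rw [← h2]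
    _ = 1 := by group

theorem r_ne_inv (h : Cen24 t r n u) : r ≠ r⁻¹ := by
  intro h2
  apply h.d8.z1
  calc r * r = r⁻¹ * r := by rw [← h2]
    _ = 1 := by group

/-- The centralizer of `r`. -/
theorem comm_r (hc : Ctx G) (h : Cen24 t r n u) (g : G) (hg : g * r = r * g) : g ∈ zpowers r := by
  have hgt : g * t = t * g := by
    rw [← h.rt]
    exact ((show Commute g r from hg).mul_right hg).eq
  obtain ⟨S, s, b, hrS, hnS, hsS, hs, hb, rfl⟩ := h.nf hc g hgt
  have hS8 := card_sylow_two hc S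
  have hbr := conj_b_of_inv h.ru hb
  have hbb : b * b ∈ (S : Subgroup G) := by
    have h1 : s⁻¹ * (r * s * r⁻¹) = b * b := by
      have h2 : r * (s * b) * r⁻¹ = s * b := by
        rw [← hg]
        group
      have h3 : r * (s * b) * r⁻¹ = (r * s * r⁻¹) * (r * b * r⁻¹) := by group
      rw [h3, hbr] at h2
      have h4 : r * s * r⁻¹ = s * b * b := by
        calc r * s * r⁻¹ = (r * s * r⁻¹) * b⁻¹ * b := by group
          _ = s * b * b := by rw [h2]
      rw [h4]
      group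
    rw [← h1]
    exact mul_mem (inv_mem hsS) (mul_mem (mul_mem hrS hsS) (inv_mem hrS))
  have hb1 := h.b_eq_one_of_sq_mem hS8 hbb hb
  rw [hb1, mul_one] at hg ⊢
  have hW : ∀ w ∈ zpowers r, n * w * r = r * (n * w) → False := by
    intro w hw h0
    have h1 := h.d8.refl_inv w hw
    have h2 : r = r⁻¹ := by
      rw [← h1]
      exact (conj_eq_of_comm h0).symm
    exact h.r_ne_inv h2
  have htW : t ∈ zpowers r := by
    rw [← h.rt]
    exact mul_mem (mem_zpowers r) (mem_zpowers r)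
  rcases hs with h0 | h0 | h0 | h0 | h0 | h0 | h0 | h0 <;> rw [h0]
  · exact one_mem _
  · exact mem_zpowers r
  · exact htW
  · exact inv_mem (mem_zpowers r)
  · exfalso
    rw [h0] at hg
    exact h.n_not_comm_r hg
  · exfalso
    rw [h0] at hg
    exact hW r (mem_zpowers r) hg
  · exfalso
    rw [h0] at hg
    exact hW t htW hg
  · exfalso
    rw [h0] at hg
    exact hW r⁻¹ (inv_mem (mem_zpowers r)) hg

/-- The centralizer of the Klein group `⟨t, n r⟩`. -/
theorem comm_nr (hc : Ctx G) (h : Cen24 t r n u) (g : G) (hg : g * t = t * g)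
    (hgn : g * (n * r) = (n * r) * g) : g = 1 ∨ g = t ∨ g = n * r ∨ g = n * r⁻¹ := by
  obtain ⟨S, s, b, hrS, hnS, hsS, hs, hb, rfl⟩ := h.nf hc g hg
  have hS8 := card_sylow_two hc S
  set N := n * r with hN
  have hN2 : N * N = 1 := h.nr_invol
  have hNi : N⁻¹ = N := inv_of_invol hN2
  have hNS : N ∈ (S : Subgroup G) := mul_mem hnS hrS
  have hbN := conj_b_of_inv h.nr_u hb
  have hbb : b * b ∈ (S : Subgroup G) := by
    have h1 : b * N = N * b⁻¹ := by
      have h2 : N * b * N⁻¹ = b⁻¹ := hbN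
      rw [hNi] at h2
      have h3 : b⁻¹ * N = N * b := by
        rw [← h2]
        calc N * b * N * N = N * b * (N * N) := by group
          _ = N * b := by rw [hN2, mul_one]
      calc b * N = b * (N * b * b⁻¹) := by group
        _ = b * (b⁻¹ * N * b⁻¹) := by rw [← h3]
        _ = N * b⁻¹ := by group
    have h2 : (N * s)⁻¹ * (s * N) = b * b := by
      have h3 : s * N * b⁻¹ = N * s * b := by
        calc s * N * b⁻¹ = s * (N * b⁻¹) := by group
          _ = s * (b * N) := by rw [h1]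
          _ = s * b * N := by group
          _ = N * (s * b) := hgn
          _ = N * s * b := by group
      calc (N * s)⁻¹ * (s * N) = (N * s)⁻¹ * (s * N * b⁻¹) * b := by group
        _ = (N * s)⁻¹ * (N * s * b) * b := by rw [h3]
        _ = b * b := by group
    rw [← h2]
    exact mul_mem (inv_mem (mul_mem hNS hsS)) (mul_mem hsS hNS)
  have hb1 := h.b_eq_one_of_sq_mem hS8 hbb hb
  rw [hb1, mul_one] at hgn ⊢
  have hnr := h.n_not_comm_r
  have hr_ne := h.r_ne_inv
  have hn2 := h.d8.n2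
  have hni : n⁻¹ = n := h.d8.ninv
  rcases hs with h0 | h0 | h0 | h0 | h0 | h0 | h0 | h0
  · exact Or.inl h0
  · exfalso
    apply hnr
    rw [h0, hN] at hgn
    have h1 : r * (n * r) = (r * n) * r := by group
    have h2 : (n * r) * r = (n * r) * r := rfl
    rw [h1] at hgn
    exact (mul_right_cancel hgn).symm
  · exact Or.inr (Or.inl h0)
  · exfalso
    apply hnr
    rw [h0, hN] at hgn
    have h1 : r⁻¹ * (n * r) * r⁻¹ = r⁻¹ * n := by group
    have h2 : (n * r * r⁻¹) = n := by group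
    have h3 : r⁻¹ * (n * r) = n := by
      calc r⁻¹ * (n * r) = n * r * r⁻¹ := hgn
        _ = n := h2
    calc n * r = r * (r⁻¹ * (n * r)) := by group
      _ = r * n := by rw [h3]
  · exfalso
    apply hr_ne
    rw [h0, hN] at hgn
    have h1 : n * (n * r) = r := by rw [← mul_assoc, hn2, one_mul]
    rw [h1, h.d8.nrn] at hgn
    exact hgn
  · exact Or.inr (Or.inr (Or.inl h0))
  · exfalso
    apply hr_ne
    rw [h0, hN] at hgn
    have ht : t * n = n * t := h.nt.symm
    have h1 : n * t * (n * r) = t * r := by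
      calc n * t * (n * r) = (t * n) * (n * r) := by rw [ht]
        _ = t * (n * n) * r := by group
        _ = t * r := by rw [hn2, mul_one]
    have h2 : n * r * (n * t) = r⁻¹ * t := by
      have h3 := h.d8.nrn
      calc n * r * (n * t) = (n * r * n) * t := by group
        _ = r⁻¹ * t := by rw [h3]
    rw [h1, h2] at hgn
    have h4 : t * r = r * t := h.r_t.symm
    have h5 : t * r⁻¹ = r⁻¹ * t := (show Commute t r from h4).inv_right.eq
    rw [← h5] at hgn
    exact mul_left_cancel hgn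
  · exact Or.inr (Or.inr (Or.inr h0))

end Cen24

end Cfsg.Agent.Lib.A7Rec
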