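import Mathlib
import Cfsg.Agent.Lib.A7Rec.Frame

/-!
# A simple group of order 2520 without a subgroup of index 7: the normalizer of a Sylow 3-subgroup
-/

set_option autoImplicit false
set_option linter.style.haveILetI false
set_option linter.unusedVariables false
set_option linter.unusedSectionVars false
set_option linter.unusedSimpArgs false

namespace Cfsg.Agent.Lib.A7Rec

open Subgroup Cfsg.Agent.Lib.SmallCen.SmallOrder Cfsg.Agent.Lib.SmallOrd
open Cfsg.Agent.Lib.Basic.SmallSimple Cfsg.Agent.Lib.SmallOrd.ClassSign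
open Cfsg.Agent.Lib.SmallOrd.InvolTools Cfsg.Agent.Lib.SmallOrd.OrderEight
open scoped Pointwise

variable {G : Type*} [Group G] [Finite G] [IsSimpleGroup G]

omit [IsSimpleGroup G] in
/-- A product of two subgroups meeting trivially. -/
theorem mul_surj' {H A B : Subgroup G} (hA : A ≤ H) (hB : B ≤ H) (hcard : Nat.card A * Nat.card B = Nat.card H)
    (hdisj : ∀ x ∈ A, x ∈ B → x = 1) (g : G) (hg : g ∈ H) :
    ∃ a ∈ A, ∃ b ∈ B, g = a * b := by
  let f : ↥A × ↥B → ↥H := fun p => ⟨(p.1 : G) * (p.2 : G), mul_mem (hA p.1.2) (hB p.2.2)⟩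
  have hf : Function.Injective f := by
    rintro ⟨a, b⟩ ⟨a', b'⟩ h
    have h1 : (a : G) * b = a' * b' := congrArg Subtype.val h
    have h2 : (a' : G)⁻¹ * a = b' * (b : G)⁻¹ := by
      calc (a' : G)⁻¹ * a = (a' : G)⁻¹ * (a * b) * (b : G)⁻¹ := by group
        _ = (a' : G)⁻¹ * (a' * b') * (b : G)⁻¹ := by rw [h1]
        _ = _ := by group
    have h3 : (a' : G)⁻¹ * a = 1 := hdisj _ (mul_mem (inv_mem a'.2) a.2) (by
      rw [h2]
      exact mul_mem b'.2 (inv_mem b.2))
    have h4 : (a : G) = a' := (inv_mul_eq_one.1 h3).symm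
    have h5 : (b : G) = b' := by
      rw [h4] at h1
      exact mul_left_cancel h1
    exact Prod.ext (Subtype.ext h4) (Subtype.ext h5)
  have hb := hf.bijective_of_nat_card_le (by
    rw [Nat.card_prod, hcard])
  obtain ⟨⟨a, b⟩, hab⟩ := hb.2 ⟨g, hg⟩
  exact ⟨a, a.2, b, b.2, (congrArg Subtype.val hab).symm⟩

/-- An element of order 3 commuting with an involution. -/
def IsT3 (u : G) : Prop := orderOf u = 3 ∧ ∃ t : G, t * t = 1 ∧ t ≠ 1 ∧ u * t = t * u

theorem IsT3.conj {u : G} (h : IsT3 u) (g : G) : IsT3 (g * u * g⁻¹) := by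
  obtain ⟨h1, t, ht, ht1, hut⟩ := h
  refine ⟨by rw [orderOf_conj', h1], g * t * g⁻¹, conj_invol g ht, conj_ne_one' g ht1, ?_⟩
  calc g * u * g⁻¹ * (g * t * g⁻¹) = g * (u * t) * g⁻¹ := by group
    _ = g * (t * u) * g⁻¹ := by rw [hut]
    _ = _ := by group

theorem IsT3.inv {u : G} (h : IsT3 u) : IsT3 u⁻¹ := by
  obtain ⟨h1, t, ht, ht1, hut⟩ := h
  exact ⟨by rw [orderOf_inv, h1], t, ht, ht1, (show Commute u t from hut).inv_left.eq⟩

theorem exists_cen24_of_T3 (hc : Ctx G) {u : G} (h : IsT3 u) : ∃ t r n, Cen24 t r n u := by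
  obtain ⟨h1, t, ht, ht1, hut⟩ := h
  obtain ⟨r, n, u₀, H⟩ := exists_cen24' hc t ht ht1
  exact ⟨t, r, n, H.with_u u hut h1⟩

theorem IsT3.isV (hc : Ctx G) {u : G} (h : IsT3 u) : ∃ a b, IsV u a b := by
  obtain ⟨t, r, n, H⟩ := exists_cen24_of_T3 hc h
  exact ⟨t, n, isV_of_cen24 hc H⟩

namespace IsV

variable {u a b : G}

theorem ab2 (V : IsV u a b) : (a * b) * (a * b) = 1 := by
  calc (a * b) * (a * b) = a * (b * a) * b := by group
    _ = a * (a * b) * b := by rw [V.comm]
    _ = (a * a) * (b * b) := by group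
    _ = 1 := by rw [V.a2, V.b2, one_mul]

theorem ab1 (V : IsV u a b) : a * b ≠ 1 := by
  intro h0
  apply V.ab
  have h1 := eq_inv_of_mul_eq_one_left h0
  rw [h1, inv_of_invol V.b2]

theorem abu (V : IsV u a b) : (a * b) * u = u * (a * b) :=
  ((show Commute a u from V.au).mul_left (show Commute b u from V.bu)).eq

theorem ne_a (V : IsV u a b) : a * b ≠ a := by
  intro h0
  exact V.b1 (mul_left_cancel (a := a) (by rw [h0, mul_one]))

theorem ne_b (V : IsV u a b) : a * b ≠ b := by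
  intro h0
  exact V.a1 (mul_right_cancel (b := b) (by rw [h0, one_mul]))

/-- Properties of the members of the list. -/
theorem mem_props (V : IsV u a b) (v : G) (hv : v = a ∨ v = b ∨ v = a * b) :
    v * v = 1 ∧ v ≠ 1 ∧ v * u = u * v := by
  rcases hv with h0 | h0 | h0 <;> rw [h0]
  · exact ⟨V.a2, V.a1, V.au⟩
  · exact ⟨V.b2, V.b1, V.bu⟩
  · exact ⟨V.ab2, V.ab1, V.abu⟩

/-- Three distinct members of the list have product one. -/
theorem prod_eq (V : IsV u a b) (x y z : G) (hx : x = a ∨ x = b ∨ x = a * b) (hy : y = a ∨ y = b ∨ y = a * b)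
    (hz : z = a ∨ z = b ∨ z = a * b) (hxy : x ≠ y) (hyz : y ≠ z) (hxz : x ≠ z) : x * y * z = 1 := by
  have e1 := V.ab2
  have e2 : a * (a * b) * b = 1 := by
    calc a * (a * b) * b = (a * a) * (b * b) := by group
      _ = 1 := by rw [V.a2, V.b2, one_mul]
  have e3 : b * a * (a * b) = 1 := by
    calc b * a * (a * b) = b * (a * a) * b := by group
      _ = 1 := by rw [V.a2, mul_one, V.b2]
  have e4 : b * (a * b) * a = 1 := by
    calc b * (a * b) * a = (b * a) * (b * a) := by group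
      _ = (a * b) * (a * b) := by rw [← V.comm]
      _ = 1 := e1
  have e5 : (a * b) * a * b = 1 := by
    calc (a * b) * a * b = (a * b) * (a * b) := by group
      _ = 1 := e1
  have e6 : (a * b) * b * a = 1 := by
    calc (a * b) * b * a = a * (b * b) * a := by group
      _ = 1 := by rw [V.b2, mul_one, V.a2]
  rcases hx with h1 | h1 | h1 <;> rcases hy with h2 | h2 | h2 <;> rcases hz with h3 | h3 | h3 <;>
    first
    | exact absurd (h1.trans h2.symm) hxy
    | exact absurd (h2.trans h3.symm) hyz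
    | exact absurd (h1.trans h3.symm) hxz
    | (rw [h1, h2, h3]; assumption)

/-- The involutions of `C(u)` are permuted by `C(u)`. -/
theorem conj_mem (V : IsV u a b) (g : G) (hg : g * u = u * g) (v : G) (hv : v = a ∨ v = b ∨ v = a * b) :
    g * v * g⁻¹ = a ∨ g * v * g⁻¹ = b ∨ g * v * g⁻¹ = a * b := by
  obtain ⟨h1, h2, h3⟩ := V.mem_props v hv
  apply V.all _ (conj_invol g h1) (conj_ne_one' g h2)
  have h4 : Commute g u := hg
  have h5 : Commute v u := h3
  exact ((h4.mul_left h5).mul_left h4.inv_left).eq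

end IsV

/-- An element of order 3 in `C(x)` outside `⟨x⟩` permutes the involutions of `C(x)` in a 3-cycle. -/
theorem IsV.cube (hc : Ctx G) {x a b : G} (V : IsV x a b) (v : G) (hv : v = a ∨ v = b ∨ v = a * b) (r : G)
    (hrx : r * x = x * r) (hr3 : r ^ 3 = 1) (hr1 : r ≠ 1) (hrx1 : r ≠ x) (hrx2 : r ≠ x⁻¹) : (v * r) ^ 3 = 1 := by
  have hnofix : ∀ w, (w = a ∨ w = b ∨ w = a * b) → r * w * r⁻¹ ≠ w := by
    intro w hw h0
    obtain ⟨h1, h2, h3⟩ := V.mem_props w hw
    have U := isU_of_comm hc w x h1 h2 V.ord h3.symm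
    rcases U.uniq r (comm_of_conj_eq h0) hr3 with h4 | h4 | h4
    · exact hr1 h4
    · exact hrx1 h4
    · exact hrx2 h4
  have hp := V.conj_mem r hrx v hv
  have hq := V.conj_mem r hrx _ hp
  have hvp := hnofix v hv
  have hpq := hnofix _ hp
  have hrr : r * r = r⁻¹ := sq_eq_inv_of_cube hr3
  have hvq : v ≠ r * (r * v * r⁻¹) * r⁻¹ := by
    intro h0
    apply hnofix v hv
    have h1 : r⁻¹ * v * r = v := by
      have h2 : r * (r * v * r⁻¹) * r⁻¹ = r⁻¹ * v * r := by
        calc r * (r * v * r⁻¹) * r⁻¹ = (r * r) * v * (r * r)⁻¹ := by group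
          _ = r⁻¹ * v * (r⁻¹)⁻¹ := by rw [hrr]
          _ = r⁻¹ * v * r := by rw [inv_inv]
      rw [← h2]
      exact h0.symm
    have h2 : v = r * (r⁻¹ * v * r) * r⁻¹ := by group
    rw [h1] at h2
    exact h2.symm
  have hprod := V.prod_eq v _ _ hv hp hq (Ne.symm hvp) (Ne.symm hpq) hvq
  calc (v * r) ^ 3 = (v * r) * (v * r) * (v * r) := by rw [show (3 : ℕ) = 2 + 1 from rfl, pow_succ, pow_two]
    _ = v * (r * v * r⁻¹) * (r * (r * v * r⁻¹) * r⁻¹) * r ^ 3 := by group
    _ = 1 := by rw [hprod, hr3, one_mul]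

/-- A Sylow 3-subgroup contains an element commuting with an involution. -/
theorem exists_T3_in (hc : Ctx G) (R : Sylow 3 G) : ∃ u ∈ (R : Subgroup G), IsT3 u := by
  classical
  haveI : Fact (Nat.Prime 3) := ⟨by norm_num⟩
  obtain ⟨r, hr⟩ := exists_order_four hc
  obtain ⟨S, hrS⟩ := exists_sylow_of_order_four r hr
  obtain ⟨n, u, -, H⟩ := exists_cen24 hc r hr S hrS
  obtain ⟨R₀, huR⟩ := exists_sylow_mem (p := 3) u H.ord_u
  obtain ⟨g, hg⟩ := MulAction.exists_smul_eq G R₀ R
  have hT : IsT3 u := ⟨H.ord_u, r * r, H.t2, H.t1, H.ut⟩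
  refine ⟨g * u * g⁻¹, ?_, hT.conj g⟩
  rw [← hg]
  change g * u * g⁻¹ ∈ MulAut.conj g • (R₀ : Subgroup G)
  exact Subgroup.smul_mem_pointwise_smul _ _ _ huR

/-- A generic fact: four element subgroup without elements of order 4 has two distinct nonidentity involutions. -/
theorem exists_two_of_card_four (T : Subgroup G) (hT : Nat.card T = 4) :
    ∃ a ∈ T, ∃ b ∈ T, a ≠ 1 ∧ b ≠ 1 ∧ a ≠ b := by
  classical
  have hT2 : 2 < Nat.card T := by omega
  haveI : Fintype T := Fintype.ofFinite T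
  rw [Nat.card_eq_fintype_card] at hT2
  obtain ⟨a, b, c, h1, h2, h3⟩ := Fintype.two_lt_card_iff.1 hT2
  have key : ∀ x y : T, x ≠ y → (x : G) ≠ y := fun x y h h0 => h (Subtype.ext h0)
  by_cases ha : (a : G) = 1
  · have hb : (b : G) ≠ 1 := fun h0 => h1 (Subtype.ext (ha.trans h0.symm))
    have hc : (c : G) ≠ 1 := fun h0 => h2 (Subtype.ext (ha.trans h0.symm))
    exact ⟨b, b.2, c, c.2, hb, hc, key _ _ h3⟩
  · by_cases hb : (b : G) = 1
    · have hc : (c : G) ≠ 1 := fun h0 => h3 (Subtype.ext (hb.trans h0.symm))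
      exact ⟨a, a.2, c, c.2, ha, hc, key _ _ h2⟩
    · exact ⟨a, a.2, b, b.2, ha, hb, key _ _ h1⟩

/-- Exponent 3. -/
theorem sylow3_exp (hc : Ctx G) (R : Sylow 3 G) (e : G) (he : e ∈ (R : Subgroup G)) : e ^ 3 = 1 := by
  classical
  haveI : Fact (Nat.Prime 3) := ⟨by norm_num⟩
  haveI : Fact (Nat.Prime 2) := ⟨Nat.prime_two⟩
  obtain ⟨hRc, hRN, hRcomm⟩ := sylow_three hc R
  obtain ⟨u, huR, hT⟩ := exists_T3_in hc R
  have hu := hT.1
  obtain ⟨a', b', V⟩ := hT.isV hc
  obtain ⟨hself, -⟩ := cu_complement hc u hu R huR V.card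
  by_contra he3
  have heo : orderOf e = 9 := by
    have h1 : orderOf e ∣ 9 := by
      have := orderOf_dvd_natCard (⟨e, he⟩ : (R : Subgroup G))
      rwa [Subgroup.orderOf_mk, hRc] at this
    have key : ∀ d ∈ (9 : ℕ).divisors, d = 1 ∨ d = 3 ∨ d = 9 := by decide +kernel
    rcases key _ (Nat.mem_divisors.2 ⟨h1, by norm_num⟩) with h2 | h2 | h2
    · exfalso
      apply he3
      rw [orderOf_eq_one_iff.1 h2]
      simp
    · exfalso
      apply he3
      rw [← h2]
      exact pow_orderOf_eq_one e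
    · exact h2
  have hzp : zpowers e = (R : Subgroup G) :=
    Subgroup.eq_of_le_of_card_ge ((Subgroup.zpowers_le).2 he) (by rw [Nat.card_zpowers, heo, hRc])
  -- elements of order 3 of `R` are in `⟨e ^ 3⟩`
  have he3o : orderOf (e ^ 3) = 3 := by
    rw [orderOf_pow' e (by norm_num), heo]
    norm_num
  have hord3 : ∀ y ∈ (R : Subgroup G), y ^ 3 = 1 → y ∈ zpowers (e ^ 3) := by
    intro y hy hy3
    rw [← hzp, mem_zpowers_iff_mem_range_orderOf, heo] at hy
    obtain ⟨k, hk, rfl⟩ := Finset.mem_image.1 hy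
    rw [← pow_mul] at hy3
    have h1 := orderOf_dvd_of_pow_eq_one hy3
    rw [heo] at h1
    have h2 : 3 ∣ k := by omega
    obtain ⟨l, rfl⟩ := h2
    rw [pow_mul]
    exact pow_mem (mem_zpowers _) l
  have hu3 := cube_of_order_three hu
  have huz := zp3 he3o (hord3 u huR hu3)
  have hact : ∀ g ∈ normalizer ((R : Subgroup G) : Set G), g * u * g⁻¹ = u ∨ g * u * g⁻¹ = u⁻¹ := by
    intro g hg
    have h1 : g * u * g⁻¹ ∈ (R : Subgroup G) := (mem_normalizer_iff.1 hg u).1 huR
    have h2 : (g * u * g⁻¹) ^ 3 = 1 := by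
      rw [conj_pow, hu3]
      group
    have h3 := zp3 he3o (hord3 _ h1 h2)
    have hu1 := ne_one_of_order_three hu
    have hne := conj_ne_one' g hu1
    rcases huz with h4 | h4 | h4
    · exact absurd h4 hu1
    · rcases h3 with h5 | h5 | h5
      · exact absurd h5 hne
      · left; rw [h5, h4]
      · right; rw [h5, h4]
    · rcases h3 with h5 | h5 | h5
      · exact absurd h5 hne
      · right; rw [h5, h4, inv_inv]
      · left; rw [h5, h4]
  -- a subgroup of order 4 of the normalizer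
  obtain ⟨T, hT4⟩ := Sylow.exists_subgroup_card_pow_prime (G := normalizer ((R : Subgroup G) : Set G)) 2 (n := 2)
    (by rw [hRN]; norm_num)
  have hT' : Nat.card (T.map (normalizer ((R : Subgroup G) : Set G)).subtype) = 4 := by
    rw [Subgroup.card_map_of_injective (normalizer ((R : Subgroup G) : Set G)).subtype_injective, hT4]
    norm_num
  have hTN : T.map (normalizer ((R : Subgroup G) : Set G)).subtype ≤ normalizer ((R : Subgroup G) : Set G) :=
    Subgroup.map_subtype_le _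
  obtain ⟨a, ha, b, hb, ha1, hb1, hab⟩ := exists_two_of_card_four _ hT'
  have hnot : ∀ c ∈ T.map (normalizer ((R : Subgroup G) : Set G)).subtype, c * u = u * c → c = 1 := by
    intro c hc' hcu
    have h1 := hself c hcu (hTN hc')
    have h2 := orderOf_dvd_natCard (⟨c, h1⟩ : (R : Subgroup G))
    have h3 := orderOf_dvd_natCard (⟨c, hc'⟩ : T.map (normalizer ((R : Subgroup G) : Set G)).subtype)
    rw [Subgroup.orderOf_mk, hRc] at h2
    rw [Subgroup.orderOf_mk, hT'] at h3
    exact orderOf_eq_one_iff.1 (Nat.eq_one_of_dvd_coprimes (by norm_num : Nat.Coprime 9 4) h2 h3)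
  have hinv : ∀ c ∈ T.map (normalizer ((R : Subgroup G) : Set G)).subtype, c ≠ 1 → c * u * c⁻¹ = u⁻¹ := by
    intro c hc' hc1
    rcases hact c (hTN hc') with h1 | h1
    · exact absurd (hnot c hc' (comm_of_conj_eq h1)) hc1
    · exact h1
  have h1 := hinv a ha ha1
  have h2 := hinv b hb hb1
  have h3 : a⁻¹ * b = 1 := by
    apply hnot _ (mul_mem (inv_mem ha) hb)
    apply comm_of_conj_eq
    calc a⁻¹ * b * u * (a⁻¹ * b)⁻¹ = a⁻¹ * (b * u * b⁻¹) * a := by group
      _ = a⁻¹ * u⁻¹ * a := by rw [h2]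
      _ = a⁻¹ * (a * u * a⁻¹) * a := by rw [h1]
      _ = u := by group
  exact hab (inv_mul_eq_one.1 h3)

/-- An involution normalizing a Sylow 3-subgroup has no nontrivial fixed point on it. -/
theorem no_fix (hc : Ctx G) (R : Sylow 3 G) (a : G) (haN : a ∈ normalizer ((R : Subgroup G) : Set G))
    (ha2 : a * a = 1) (ha1 : a ≠ 1) (e : G) (he : e ∈ (R : Subgroup G)) (hae : a * e = e * a) : e = 1 := by
  classical
  by_contra he1
  obtain ⟨hRc, hRN, hRcomm⟩ := sylow_three hc R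
  have heo : orderOf e = 3 := order_three_of_cube (sylow3_exp hc R e he) he1
  have hT : IsT3 e := ⟨heo, a, ha2, ha1, hae.symm⟩
  have hai : a⁻¹ = a := inv_of_invol ha2
  -- `a` does not centralize `R`
  have hnc : ¬ ∀ r ∈ (R : Subgroup G), a * r = r * a := by
    intro hall
    have h1 : (R : Subgroup G) ≤ centralizer ({a} : Set G) := by
      intro r hr
      rw [Subgroup.mem_centralizer_singleton_iff]
      exact (hall r hr).symm
    have h2 := Subgroup.card_dvd_of_le h1
    rw [hRc, card_cent_eq hc a ha2 ha1] at h2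
    omega
  push_neg at hnc
  obtain ⟨r, hr, hra⟩ := hnc
  have hara : a * r * a ∈ (R : Subgroup G) := by
    have := (mem_normalizer_iff.1 haN r).1 hr
    rwa [hai] at this
  set e₂ := r * (a * r * a)⁻¹ with he₂
  have he₂R : e₂ ∈ (R : Subgroup G) := mul_mem hr (inv_mem hara)
  have he₂inv : a * e₂ * a = e₂⁻¹ := by
    have h1 : a * e₂ * a = (a * r * a) * r⁻¹ := by
      rw [he₂]
      calc a * (r * (a * r * a)⁻¹) * a = (a * r * a) * (a * (a * r * a)⁻¹ * a) := by
            simp only [mul_assoc]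
            rw [← mul_assoc a a, ha2, one_mul]
        _ = (a * r * a) * r⁻¹ := by
            congr 1
            calc a * (a * r * a)⁻¹ * a = a * (a⁻¹ * r⁻¹ * a⁻¹) * a := by group
              _ = (a * a⁻¹) * r⁻¹ * (a⁻¹ * a) := by group
              _ = r⁻¹ := by group
    rw [h1, he₂, mul_inv_rev, inv_inv]
  have he₂1 : e₂ ≠ 1 := by
    intro h0
    have h1 : r = a * r * a := by
      have := mul_inv_eq_one.1 h0
      exact this
    apply hra
    calc a * r = a * (a * r * a) := by rw [← h1]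
      _ = (a * a) * r * a := by group
      _ = r * a := by rw [ha2, one_mul]
  obtain ⟨a', b', V⟩ := hT.isV hc
  have haL : a = a' ∨ a = b' ∨ a = a' * b' := V.all a ha2 ha1 hae
  have he₂e : e₂ * e = e * e₂ := hRcomm _ he₂R _ he
  have hconj := V.conj_mem e₂ he₂e a haL
  have hcomm : (e₂ * a * e₂⁻¹) * a = a * (e₂ * a * e₂⁻¹) := by
    have hab : a' * b' = b' * a' := V.comm
    have hc1 : Commute a' b' := hab
    have hv : ∀ x y : G, (x = a' ∨ x = b' ∨ x = a' * b') → (y = a' ∨ y = b' ∨ y = a' * b') → x * y = y * x := by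
      intro x y hx hy
      rcases hx with h1 | h1 | h1 <;> rcases hy with h2 | h2 | h2 <;> rw [h1, h2]
      · exact hab
      · exact ((Commute.refl a').mul_right hc1).eq
      · exact hab.symm
      · exact (hc1.symm.mul_right (Commute.refl b')).eq
      · exact ((Commute.refl a').mul_left hc1.symm).eq
      · exact (hc1.mul_left (Commute.refl b')).eq
    exact hv _ _ hconj haL
  -- the commutator
  have hq : (e₂ * a * e₂⁻¹) * a = e₂ * e₂ := by
    calc (e₂ * a * e₂⁻¹) * a = e₂ * (a * e₂⁻¹ * a) := by group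
      _ = e₂ * (a * e₂ * a)⁻¹ := by
          congr 1
          simp only [mul_inv_rev, hai, mul_assoc]
      _ = e₂ * e₂ := by rw [he₂inv, inv_inv]
  have hq2 : (e₂ * e₂) * (e₂ * e₂) = 1 := by
    rw [← hq]
    calc (e₂ * a * e₂⁻¹) * a * ((e₂ * a * e₂⁻¹) * a) = (e₂ * a * e₂⁻¹) * (a * (e₂ * a * e₂⁻¹)) * a := by group
      _ = (e₂ * a * e₂⁻¹) * ((e₂ * a * e₂⁻¹) * a) * a := by rw [hcomm]
      _ = ((e₂ * a * e₂⁻¹) * (e₂ * a * e₂⁻¹)) * (a * a) := by group
      _ = 1 := by rw [conj_invol e₂ ha2, ha2, one_mul]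
  have h3 := sylow3_exp hc R e₂ he₂R
  apply he₂1
  have h4 : e₂ ^ 4 = 1 := by
    calc e₂ ^ 4 = (e₂ * e₂) * (e₂ * e₂) := by
          rw [show (4 : ℕ) = 2 + 2 from rfl, pow_add, pow_two]
      _ = 1 := hq2
  calc e₂ = e₂ ^ 4 * (e₂ ^ 3)⁻¹ := by
        rw [show (4 : ℕ) = 3 + 1 from rfl, pow_succ']
        group
    _ = 1 := by rw [h4, h3]; group

/-- (C1): involutions normalizing a Sylow 3-subgroup invert it. -/
theorem invol_inverts (hc : Ctx G) (R : Sylow 3 G) (a : G) (haN : a ∈ normalizer ((R : Subgroup G) : Set G))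
    (ha2 : a * a = 1) (ha1 : a ≠ 1) (e : G) (he : e ∈ (R : Subgroup G)) : a * e * a⁻¹ = e⁻¹ := by
  obtain ⟨hRc, hRN, hRcomm⟩ := sylow_three hc R
  have hai : a⁻¹ = a := inv_of_invol ha2
  have hae : a * e * a⁻¹ ∈ (R : Subgroup G) := (mem_normalizer_iff.1 haN e).1 he
  have h1 : e * (a * e * a⁻¹) = 1 := by
    apply no_fix hc R a haN ha2 ha1 _ (mul_mem he hae)
    apply comm_of_conj_eq
    calc a * (e * (a * e * a⁻¹)) * a⁻¹ = (a * e * a⁻¹) * ((a * a) * e * (a⁻¹ * a⁻¹)) := by group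
      _ = (a * e * a⁻¹) * e := by
          rw [ha2, hai, ha2]
          group
      _ = e * (a * e * a⁻¹) := hRcomm _ hae _ he
  exact (eq_inv_of_mul_eq_one_right h1)

/-- An order-4 subgroup of the normalizer is cyclic. -/
theorem exists_four_in_T (hc : Ctx G) (R : Sylow 3 G) (T : Subgroup G) (hTN : T ≤ normalizer ((R : Subgroup G) : Set G))
    (hT : Nat.card T = 4) : ∃ w ∈ T, orderOf w = 4 := by
  classical
  by_contra hno
  push_neg at hno
  obtain ⟨hRc, hRN, hRcomm⟩ := sylow_three hc R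
  have hexp : ∀ a ∈ T, a * a = 1 := by
    intro a ha
    have h1 : orderOf a ∣ 4 := by
      have := orderOf_dvd_natCard (⟨a, ha⟩ : T)
      rwa [Subgroup.orderOf_mk, hT] at this
    have h8 : ∀ d ∈ (4 : ℕ).divisors, d = 1 ∨ d = 2 ∨ d = 4 := by decide +kernel
    rcases h8 _ (Nat.mem_divisors.2 ⟨h1, by norm_num⟩) with h2 | h2 | h2
    · rw [orderOf_eq_one_iff.1 h2]
      simp
    · rw [← pow_two, ← h2]
      exact pow_orderOf_eq_one a
    · exact absurd h2 (hno a ha)
  obtain ⟨a, ha, b, hb, ha1, hb1, hab⟩ := exists_two_of_card_four T hT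
  have hab1 : a * b ≠ 1 := by
    intro h0
    apply hab
    have := eq_inv_of_mul_eq_one_left h0
    rw [this, inv_of_invol (hexp b hb)]
  obtain ⟨u, huR, hT3⟩ := exists_T3_in hc R
  have h1 := invol_inverts hc R a (hTN ha) (hexp a ha) ha1 u huR
  have h2 := invol_inverts hc R b (hTN hb) (hexp b hb) hb1 u huR
  have h3 := invol_inverts hc R (a * b) (hTN (mul_mem ha hb)) (hexp _ (mul_mem ha hb)) hab1 u huR
  have h4 : (a * b) * u * (a * b)⁻¹ = u := by
    calc (a * b) * u * (a * b)⁻¹ = a * (b * u * b⁻¹) * a⁻¹ := by group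
      _ = a * u⁻¹ * a⁻¹ := by rw [h2]
      _ = (a * u * a⁻¹)⁻¹ := by group
      _ = u := by rw [h1, inv_inv]
  rw [h4] at h3
  have hu1 := ne_one_of_order_three hT3.1
  have h5 : u * u = 1 := by
    calc u * u = u * u⁻¹ := by rw [← h3]
      _ = 1 := by group
  have h6 := orderOf_dvd_of_pow_eq_one (x := u) (n := 2) (by rw [pow_two]; exact h5)
  rw [hT3.1] at h6
  omega

/-- An element of order 4 in the normalizer. -/
theorem exists_w (hc : Ctx G) (R : Sylow 3 G) :
    ∃ w ∈ normalizer ((R : Subgroup G) : Set G), orderOf w = 4 := by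
  haveI : Fact (Nat.Prime 2) := ⟨Nat.prime_two⟩
  obtain ⟨hRc, hRN, hRcomm⟩ := sylow_three hc R
  obtain ⟨T, hT4⟩ := Sylow.exists_subgroup_card_pow_prime (G := normalizer ((R : Subgroup G) : Set G)) 2 (n := 2)
    (by rw [hRN]; norm_num)
  obtain ⟨w, hw, hwo⟩ := exists_four_in_T hc R (T.map (normalizer ((R : Subgroup G) : Set G)).subtype)
    (Subgroup.map_subtype_le _) (by
      rw [Subgroup.card_map_of_injective (normalizer ((R : Subgroup G) : Set G)).subtype_injective, hT4]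
      norm_num)
  exact ⟨w, Subgroup.map_subtype_le _ hw, hwo⟩

/-- An involution of the normalizer is a square. -/
theorem exists_sqrt_in (hc : Ctx G) (R : Sylow 3 G) (a : G) (haN : a ∈ normalizer ((R : Subgroup G) : Set G))
    (ha2 : a * a = 1) (ha1 : a ≠ 1) : ∃ w ∈ normalizer ((R : Subgroup G) : Set G), orderOf w = 4 ∧ w * w = a := by
  classical
  haveI : Fact (Nat.Prime 2) := ⟨Nat.prime_two⟩
  obtain ⟨hRc, hRN, hRcomm⟩ := sylow_three hc R
  set N := normalizer ((R : Subgroup G) : Set G) with hN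
  have hao : orderOf (⟨a, haN⟩ : ↥N) = 2 := by
    rw [Subgroup.orderOf_mk]
    exact orderOf_eq_two ha2 ha1
  have hQ : IsPGroup 2 (zpowers (⟨a, haN⟩ : ↥N)) :=
    IsPGroup.of_card (n := 1) (by rw [Nat.card_zpowers, hao, pow_one])
  obtain ⟨Q, hQ'⟩ := hQ.exists_le_sylow
  have hQc : Nat.card (Q : Subgroup ↥N) = 2 ^ 2 :=
    card_sylow_eq (m := 9) (by rw [hRN]; norm_num) (by norm_num) Q
  have haT : a ∈ (Q : Subgroup ↥N).map N.subtype := ⟨⟨a, haN⟩, hQ' (mem_zpowers _), rfl⟩
  have hTc : Nat.card ((Q : Subgroup ↥N).map N.subtype) = 4 := by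
    rw [Subgroup.card_map_of_injective N.subtype_injective, hQc]
    norm_num
  obtain ⟨w, hw, hwo⟩ := exists_four_in_T hc R _ (Subgroup.map_subtype_le _) hTc
  refine ⟨w, Subgroup.map_subtype_le _ hw, hwo, ?_⟩
  have hzp : zpowers w = (Q : Subgroup ↥N).map N.subtype :=
    Subgroup.eq_of_le_of_card_ge ((Subgroup.zpowers_le).2 hw) (by rw [Nat.card_zpowers, hwo, hTc])
  rw [← hzp] at haT
  have hz2 := sq_sq_of_order_four w hwo
  have hz1 := sq_ne_one_of_order_four w hwo
  obtain ⟨-, hWm⟩ := zpowers_four w (w * w) rfl hz2 hz1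
  rcases hWm a haT with h3 | h3 | h3 | h3
  · exact absurd h3 ha1
  · exfalso
    rw [h3] at ha2
    exact hz1 ha2
  · exact h3.symm
  · exfalso
    rw [h3] at ha2
    have h4 : w * (w * w) * (w * (w * w)) = (w * w) * ((w * w) * (w * w)) := by group
    rw [h4, hz2, mul_one] at ha2
    exact hz1 ha2

end Cfsg.Agent.Lib.A7Rec
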