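import Mathlib
import Cfsg.Agent.Lib.A7Rec.NR

/-!
# A simple group of order 2520 without a subgroup of index 7: an element cycling a four-group
-/

set_option autoImplicit false
set_option linter.style.haveILetI false
set_option linter.unusedVariables false
set_option linter.unusedSectionVars false
set_option linter.unusedSimpArgs false

namespace Cfsg.Agent.Lib.A7Rec

open Subgroup Cfsg.Agent.Lib.SmallCen.SmallOrder Cfsg.Agent.Lib.SmallOrd
open Cfsg.Agent.Lib.Basic.SmallSimple Cfsg.Agent.Lib.SmallOrd.ClassSign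
open Cfsg.Agent.Lib.SmallOrd.InvolTools Cfsg.Agent.Lib.SmallOrd.OrderEight
open scoped Pointwise

variable {G : Type*} [Group G] [Finite G] [IsSimpleGroup G]

namespace Cen24

variable {t r n u : G}

theorem N_inv (h : Cen24 t r n u) : (n * r)⁻¹ = n * r := inv_of_invol h.nr_invol

theorem t_inv (h : Cen24 t r n u) : t⁻¹ = t := inv_of_invol h.t2

theorem n_inv (h : Cen24 t r n u) : n⁻¹ = n := h.d8.ninv

/-- `r` moves the reflection. -/
theorem r_conj_N (h : Cen24 t r n u) : r * (n * r) * r⁻¹ = (n * r) * t := by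
  have h1 : r * n = n * r⁻¹ := by
    have := h.d8.nr_comm
    calc r * n = r * (n * r) * r⁻¹ := by group
      _ = r * (r⁻¹ * n) * r⁻¹ := by rw [this]
      _ = n * r⁻¹ := by group
  calc r * (n * r) * r⁻¹ = (r * n) * r * r⁻¹ := by group
    _ = (n * r⁻¹) * r * r⁻¹ := by rw [h1]
    _ = n * r⁻¹ := by group
    _ = _ := h.nri_eq

/-- `n` moves the reflection. -/
theorem n_conj_N (h : Cen24 t r n u) : n * (n * r) * n⁻¹ = (n * r) * t := by
  have h1 : r * n = n * r⁻¹ := by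
    have := h.d8.nr_comm
    calc r * n = r * (n * r) * r⁻¹ := by group
      _ = r * (r⁻¹ * n) * r⁻¹ := by rw [this]
      _ = n * r⁻¹ := by group
  calc n * (n * r) * n⁻¹ = (n * n) * (r * n⁻¹) := by group
    _ = r * n := by rw [h.d8.n2, h.n_inv, one_mul]
    _ = n * r⁻¹ := h1
    _ = _ := h.nri_eq

theorem n_conj_t (h : Cen24 t r n u) : n * t * n⁻¹ = t := conj_eq_of_comm h.nt

theorem r_conj_t (h : Cen24 t r n u) : r * t * r⁻¹ = t := conj_eq_of_comm h.r_t

theorem N_t_comm (h : Cen24 t r n u) : t * (n * r) = (n * r) * t := h.nr_t.symm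

/-- The product `N t` is an involution. -/
theorem Nt2 (h : Cen24 t r n u) : ((n * r) * t) * ((n * r) * t) = 1 := by
  calc ((n * r) * t) * ((n * r) * t) = (n * r) * (t * (n * r)) * t := by group
    _ = (n * r) * ((n * r) * t) * t := by rw [h.N_t_comm]
    _ = ((n * r) * (n * r)) * (t * t) := by group
    _ = 1 := by rw [h.nr_invol, h.t2, one_mul]

/-- `N t ≠ 1`. -/
theorem Nt1 (h : Cen24 t r n u) : (n * r) * t ≠ 1 := by
  intro h0
  apply h.d8.refl.nez
  rw [h.rt]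
  have h1 := eq_inv_of_mul_eq_one_left h0
  rw [h1, h.t_inv]

theorem N_ne_t (h : Cen24 t r n u) : n * r ≠ t := by
  have := h.d8.refl.nez
  rwa [h.rt] at this

theorem Nt_ne_t (h : Cen24 t r n u) : (n * r) * t ≠ t := by
  intro h0
  exact h.nr_ne_one (mul_right_cancel (b := t) (by rw [h0, one_mul]))

theorem Nt_ne_N (h : Cen24 t r n u) : (n * r) * t ≠ n * r := by
  intro h0
  exact h.t1 (mul_left_cancel (a := n * r) (by rw [h0, mul_one]))

/-- The reflection `N t` inverts `u`. -/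
theorem Nt_u (h : Cen24 t r n u) : ((n * r) * t) * u * ((n * r) * t)⁻¹ = u⁻¹ := by
  calc ((n * r) * t) * u * ((n * r) * t)⁻¹ = (n * r) * (t * u * t⁻¹) * (n * r)⁻¹ := by group
    _ = (n * r) * u * (n * r)⁻¹ := by rw [conj_eq_of_comm h.ut.symm]
    _ = u⁻¹ := h.nr_u

/-- No element of order three commutes with both `t` and `N`. -/
theorem no_common (h : Cen24 t r n u) (e : G) (he : orderOf e = 3) (het : e * t = t * e)
    (heN : e * (n * r) = (n * r) * e) : False := by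
  have H := h.with_u e het he
  have h1 := H.nr_u
  rw [conj_eq_of_comm heN.symm] at h1
  exact H.u_ne_inv h1

/-- An involution of `C(t)` commuting with `n` commutes with `u`. -/
theorem comm_n (hc : Ctx G) (h : Cen24 t r n u) (g : G) (hg : g * t = t * g) (hgn : g * n = n * g) :
    g * u = u * g := by
  obtain ⟨S, s, b, hrS, hnS, hsS, hs, hb, rfl⟩ := h.nf hc g hg
  have hbn : n * b = b * n := conj_b_of_comm h.un hb
  have hsn : s * n = n * s := by
    have h1 : s * n * b = n * s * b := by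
      calc s * n * b = s * (n * b) := mul_assoc ..
        _ = s * (b * n) := by rw [hbn]
        _ = s * b * n := (mul_assoc ..).symm
        _ = n * (s * b) := hgn
        _ = n * s * b := (mul_assoc ..).symm
    exact mul_right_cancel h1
  have hbu : b * u = u * b := by
    rcases hb with h0 | h0 | h0 <;> rw [h0]
    · simp
    · exact (show Commute u⁻¹ u from (Commute.refl u).inv_left).eq
  have hsu : s * u = u * s := by
    obtain ⟨h1, h2, h3, h4, h5, h6, h7, h8⟩ := h.act_list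
    have hnr := h.n_not_comm_r
    have hnN : ∀ c : G, (n * c) * n = n * (n * c) → c * n = n * c := by
      intro c hc'
      have h9 : n * (c * n) = n * (n * c) := by rw [← hc']; group
      exact mul_left_cancel h9
    rcases hs with h0 | h0 | h0 | h0 | h0 | h0 | h0 | h0 <;> rw [h0] at hsn ⊢
    · exact h1
    · exact (hnr hsn.symm).elim
    · exact h.ut.symm
    · exfalso
      apply hnr
      have := (show Commute r⁻¹ n from hsn).inv_left
      simpa using this.eq.symm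
    · exact h.un
    · exfalso
      exact hnr (hnN r hsn).symm
    · exact ((show Commute n u from h.un).mul_left (show Commute t u from h.ut.symm)).eq
    · exfalso
      apply hnr
      have h9 := hnN _ hsn
      have := (show Commute r⁻¹ n from h9).inv_left
      simpa using this.eq.symm
  calc s * b * u = s * (b * u) := mul_assoc ..
    _ = s * (u * b) := by rw [hbu]
    _ = (s * u) * b := (mul_assoc ..).symm
    _ = (u * s) * b := by rw [hsu]
    _ = _ := mul_assoc ..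

/-- The cycle lemma: an element moving `t ↦ N ↦ N t`. -/
theorem cycle (hc : Ctx G) (h : Cen24 t r n u) :
    ∃ k : G, k * t * k⁻¹ = n * r ∧ k * (n * r) * k⁻¹ = (n * r) * t := by
  classical
  haveI : Fact (Nat.Prime 2) := ⟨Nat.prime_two⟩
  have hN2 := h.nr_invol
  have hN1 := h.nr_ne_one
  obtain ⟨g₀, hg₀⟩ := invol_conj hc t (n * r) h.t2 h.t1 hN2 hN1
  obtain ⟨S, hrS, hnS⟩ := h.sy
  have hS8 := card_sylow_two hc S
  have hSt : ∀ s ∈ (S : Subgroup G), s * t = t * s := by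
    intro s hs
    rw [← h.rt]
    exact comm_of_conj_eq (sq_central_of_order_four (S : Subgroup G) hS8 r hrS h.ord_r s hs)
  have hTC : zpowers t ≤ centralizer ({n * r} : Set G) := by
    rw [Subgroup.zpowers_le, Subgroup.mem_centralizer_singleton_iff]
    exact h.nr_t.symm
  have hTp : IsPGroup 2 (zpowers t) :=
    IsPGroup.of_card (n := 1) (by rw [Nat.card_zpowers, orderOf_eq_two h.t2 h.t1, pow_one])
  obtain ⟨P, htP, hNP, hPC⟩ := sylow_in_cent hc (n * r) hN2 hN1 (zpowers t) hTC hTp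
  have htP' : t ∈ (P : Subgroup G) := htP (mem_zpowers t)
  have hP8 := card_sylow_two hc P
  let A : Subgroup G := (S : Subgroup G).map (MulAut.conj g₀).toMonoidHom
  have hAc : Nat.card A = 8 := by
    show Nat.card ((S : Subgroup G).map (MulAut.conj g₀).toMonoidHom) = 8
    rw [Subgroup.card_map_of_injective (MulAut.conj g₀).injective, hS8]
  have hAC : A ≤ centralizer ({n * r} : Set G) := by
    rintro _ ⟨s, hs, rfl⟩
    rw [Subgroup.mem_centralizer_singleton_iff]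
    show g₀ * s * g₀⁻¹ * (n * r) = (n * r) * (g₀ * s * g₀⁻¹)
    rw [← hg₀, conj_mul, conj_mul, hSt s hs]
  have hCN := card_cent_eq hc (n * r) hN2 hN1
  obtain ⟨c, hcC, hcm⟩ := exists_conj_of_card (p := 2) (a := 3) (m := 3) hAC hPC (by rw [hAc]; norm_num)
    (by rw [hP8]; norm_num) (by rw [hCN]; norm_num) (by norm_num)
  have hcN : c * (n * r) = (n * r) * c := (Subgroup.mem_centralizer_singleton_iff).1 hcC
  set g₁ := c * g₀ with hg₁
  have hg₁t : g₁ * t * g₁⁻¹ = n * r := by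
    calc g₁ * t * g₁⁻¹ = c * (g₀ * t * g₀⁻¹) * c⁻¹ := by rw [hg₁]; group
      _ = c * (n * r) * c⁻¹ := by rw [hg₀]
      _ = n * r := conj_eq_of_comm hcN
  have hmemP : ∀ s ∈ (S : Subgroup G), g₁ * s * g₁⁻¹ ∈ (P : Subgroup G) := by
    intro s hs
    have h1 := hcm (g₀ * s * g₀⁻¹) ⟨s, hs, rfl⟩
    have h2 : g₁ * s * g₁⁻¹ = c * (g₀ * s * g₀⁻¹) * c⁻¹ := by rw [hg₁]; group
    rwa [h2]
  have hD := h.d8.conj g₁
  have hlist := hD.mem_list (P : Subgroup G) hP8 (hmemP r hrS) (hmemP n hnS) t htP'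
  have hrr : (g₁ * r * g₁⁻¹) * (g₁ * r * g₁⁻¹) = n * r := by
    rw [conj_mul, h.rt, hg₁t]
  rw [hrr] at hlist
  set u' := g₁ * u * g₁⁻¹ with hu'
  have hu'3 : orderOf u' = 3 := by rw [hu', orderOf_conj', h.ord_u]
  have hu'N : u' * (n * r) = (n * r) * u' := by
    rw [← hg₁t, hu', conj_mul, conj_mul, h.ut]
  have hnot : ¬ (t * u' = u' * t) := fun h0 => h.no_common u' hu'3 h0.symm hu'N
  have hnu' : (g₁ * n * g₁⁻¹) * u' = u' * (g₁ * n * g₁⁻¹) := by
    rw [hu', conj_mul, conj_mul, h.un]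
  have htN := h.N_t_comm
  have hNi := h.N_inv
  rcases hlist with h0 | h0 | h0 | h0 | h0 | h0 | h0 | h0
  · exact (h.t1 h0).elim
  · exfalso
    apply hN1
    rw [← hrr, ← h0, h.t2]
  · exact (h.N_ne_t h0.symm).elim
  · exfalso
    apply hN1
    have h1 : (g₁ * r * g₁⁻¹)⁻¹ * (g₁ * r * g₁⁻¹)⁻¹ = ((g₁ * r * g₁⁻¹) * (g₁ * r * g₁⁻¹))⁻¹ := by group
    rw [hrr, ← h0, h.t2] at h1
    have h2 := h1.symm
    rwa [inv_eq_one] at h2
  · exfalso
    apply hnot
    rw [h0]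
    exact hnu'
  · -- case A
    have hA : g₁ * (n * r) * g₁⁻¹ = t := by
      rw [h0, conj_mul]
    refine ⟨g₁ * r, ?_, ?_⟩
    · calc g₁ * r * t * (g₁ * r)⁻¹ = g₁ * (r * t * r⁻¹) * g₁⁻¹ := by group
        _ = g₁ * t * g₁⁻¹ := by rw [h.r_conj_t]
        _ = _ := hg₁t
    · calc g₁ * r * (n * r) * (g₁ * r)⁻¹ = g₁ * (r * (n * r) * r⁻¹) * g₁⁻¹ := by group
        _ = g₁ * ((n * r) * t) * g₁⁻¹ := by rw [h.r_conj_N]
        _ = (g₁ * (n * r) * g₁⁻¹) * (g₁ * t * g₁⁻¹) := by rw [conj_mul]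
        _ = t * (n * r) := by rw [hA, hg₁t]
        _ = _ := htN
  · exfalso
    apply hnot
    rw [h0]
    have h1 : Commute (g₁ * n * g₁⁻¹) u' := hnu'
    have h2 : Commute (n * r) u' := hu'N.symm
    exact (h1.mul_left h2).eq
  · -- case B
    have hB : g₁ * ((n * r) * t) * g₁⁻¹ = t := by
      have h1 : (g₁ * n * g₁⁻¹) * (g₁ * r * g₁⁻¹)⁻¹ = g₁ * (n * r⁻¹) * g₁⁻¹ := by group
      rw [← h.nri_eq, ← h1, ← h0]
    refine ⟨g₁, hg₁t, ?_⟩
    have h1 : g₁ * ((n * r) * t) * g₁⁻¹ = (g₁ * (n * r) * g₁⁻¹) * (g₁ * t * g₁⁻¹) := by rw [conj_mul]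
    rw [hB, hg₁t] at h1
    -- `t = K N`, so `K = t N = N t`
    calc g₁ * (n * r) * g₁⁻¹ = (g₁ * (n * r) * g₁⁻¹) * ((n * r) * (n * r)) := by rw [hN2, mul_one]
      _ = ((g₁ * (n * r) * g₁⁻¹) * (n * r)) * (n * r) := by group
      _ = t * (n * r) := by rw [← h1]
      _ = _ := htN

end Cen24

/-- The general cycle lemma. -/
theorem cycle_general (hc : Ctx G) (a b e : G) (ha2 : a * a = 1) (ha1 : a ≠ 1) (hb2 : b * b = 1) (hb1 : b ≠ 1)
    (hab : a * b = b * a) (hne : b ≠ a) (he : orderOf e = 3) (hea : e * a = a * e)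
    (hbe : b * e * b⁻¹ = e⁻¹) : ∃ φ : G, φ * a * φ⁻¹ = b ∧ φ * b * φ⁻¹ = b * a := by
  classical
  haveI : Fact (Nat.Prime 2) := ⟨Nat.prime_two⟩
  have hTC : zpowers b ≤ centralizer ({a} : Set G) := by
    rw [Subgroup.zpowers_le, Subgroup.mem_centralizer_singleton_iff]
    exact hab.symm
  have hTp : IsPGroup 2 (zpowers b) :=
    IsPGroup.of_card (n := 1) (by rw [Nat.card_zpowers, orderOf_eq_two hb2 hb1, pow_one])
  obtain ⟨P, hbP, haP, hPC⟩ := sylow_in_cent hc a ha2 ha1 (zpowers b) hTC hTp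
  have hb' : b ∈ (P : Subgroup G) := hbP (mem_zpowers b)
  have hP8 := card_sylow_two hc P
  obtain ⟨r₀, n₀, hr₀, hn₀, hD⟩ := sylow_D8 hc P
  have hcomm : ∀ s ∈ (P : Subgroup G), a * s = s * a := fun s hs =>
    ((Subgroup.mem_centralizer_singleton_iff).1 (hPC hs)).symm
  have har := hD.central_eq (P : Subgroup G) hP8 hr₀ hn₀ a haP ha2 ha1 (hcomm _ hr₀) (hcomm _ hn₀)
  obtain ⟨n₁, u₁, hn₁, H₀⟩ := exists_cen24 hc r₀ hD.ord P hr₀
  rw [← har] at H₀
  have H := H₀.with_u e hea he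
  have hlist := H.d8.mem_list (P : Subgroup G) hP8 hr₀ hn₁ b hb'
  rw [H.rt] at hlist
  have hnc : ¬ (b * e = e * b) := by
    intro h0
    rw [conj_eq_of_comm h0] at hbe
    exact H.u_ne_inv hbe
  rcases hlist with h0 | h0 | h0 | h0 | h0 | h0 | h0 | h0
  · exact (hb1 h0).elim
  · exfalso
    apply ha1
    rw [← H.rt, ← h0, hb2]
  · exact (hne h0).elim
  · exfalso
    apply ha1
    rw [← H.rinv_sq, ← h0, hb2]
  · exact (hnc (by rw [h0]; exact H.un)).elim
  · obtain ⟨k, hk1, hk2⟩ := H.cycle hc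
    rw [← h0] at hk1 hk2
    exact ⟨k, hk1, hk2⟩
  · exfalso
    apply hnc
    rw [h0]
    exact ((show Commute n₁ e from H.un).mul_left (show Commute a e from hea.symm)).eq
  · obtain ⟨k, hk1, hk2⟩ := H.rinv.cycle hc
    rw [← h0] at hk1 hk2
    exact ⟨k, hk1, hk2⟩

namespace Cen24

variable {t r n u : G}

theorem pow3_conj (k y : G) : k ^ 3 * y * (k ^ 3)⁻¹ = k * (k * (k * y * k⁻¹) * k⁻¹) * k⁻¹ := by
  have h1 : k ^ 3 = k * (k * k) := by rw [pow_succ, pow_two, mul_assoc]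
  rw [h1]
  simp only [mul_inv_rev, mul_assoc]

/-- An element of order three cycling the four-group. -/
theorem exists_rho (hc : Ctx G) (h : Cen24 t r n u) :
    ∃ ρ : G, ρ ^ 3 = 1 ∧ ρ * t * ρ⁻¹ = n * r ∧ ρ * (n * r) * ρ⁻¹ = (n * r) * t := by
  obtain ⟨k, hk1, hk2⟩ := h.cycle hc
  have hN2 := h.nr_invol
  have ht2 := h.t2
  have htN := h.N_t_comm
  have hk3 : k * ((n * r) * t) * k⁻¹ = t := by
    rw [← conj_mul, hk2, hk1]
    calc (n * r) * t * (n * r) = t * (n * r) * (n * r) := by rw [htN]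
      _ = t * ((n * r) * (n * r)) := by group
      _ = t := by rw [hN2, mul_one]
  have hct : k ^ 3 * t * (k ^ 3)⁻¹ = t := by rw [pow3_conj, hk1, hk2, hk3]
  have hcN : k ^ 3 * (n * r) * (k ^ 3)⁻¹ = n * r := by rw [pow3_conj, hk2, hk3, hk1]
  have hg1 : k ^ 3 * t = t * k ^ 3 := comm_of_conj_eq hct
  have hg2 : k ^ 3 * (n * r) = (n * r) * k ^ 3 := comm_of_conj_eq hcN
  have hg := h.comm_nr hc (k ^ 3) hg1 hg2
  have h6 : k ^ 3 * k ^ 3 = 1 := by
    rcases hg with h0 | h0 | h0 | h0 <;> rw [h0]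
    · simp
    · exact ht2
    · exact hN2
    · rw [h.nri_eq]
      exact h.Nt2
  refine ⟨k ^ 4, ?_, ?_, ?_⟩
  · calc (k ^ 4) ^ 3 = (k ^ 3 * k ^ 3) * (k ^ 3 * k ^ 3) := by group
      _ = 1 := by rw [h6, one_mul]
  · calc k ^ 4 * t * (k ^ 4)⁻¹ = k * (k ^ 3 * t * (k ^ 3)⁻¹) * k⁻¹ := by group
      _ = _ := by rw [hct, hk1]
  · calc k ^ 4 * (n * r) * (k ^ 4)⁻¹ = k * (k ^ 3 * (n * r) * (k ^ 3)⁻¹) * k⁻¹ := by group
      _ = _ := by rw [hcN, hk2]

/-- One of `n`, `n t` inverts `ρ`. -/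
theorem rho_inverted (hc : Ctx G) (h : Cen24 t r n u) (ρ : G) (hρt : ρ * t * ρ⁻¹ = n * r)
    (hρN : ρ * (n * r) * ρ⁻¹ = (n * r) * t) :
    ∃ ι : G, (ι = n ∨ ι = n * t) ∧ ι * ρ * ι⁻¹ = ρ⁻¹ := by
  have hN2 := h.nr_invol
  have ht2 := h.t2
  have htN := h.N_t_comm
  have hn2 := h.d8.n2
  have hni := h.n_inv
  have hti := h.t_inv
  have hNi := h.N_inv
  have hnt := h.n_conj_t
  have hnN := h.n_conj_N
  -- `ρ (N t) ρ⁻¹ = t`
  have hρNt : ρ * ((n * r) * t) * ρ⁻¹ = t := by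
    rw [← conj_mul, hρN, hρt]
    calc (n * r) * t * (n * r) = t * (n * r) * (n * r) := by rw [htN]
      _ = t * ((n * r) * (n * r)) := by group
      _ = t := by rw [hN2, mul_one]
  have hnNt : n * ((n * r) * t) * n⁻¹ = n * r := by
    rw [← conj_mul, hnN, hnt]
    calc (n * r) * t * t = (n * r) * (t * t) := by group
      _ = n * r := by rw [ht2, mul_one]
  have hv1 : (n * ρ * n⁻¹ * ρ) * t * (n * ρ * n⁻¹ * ρ)⁻¹ = t := by
    calc (n * ρ * n⁻¹ * ρ) * t * (n * ρ * n⁻¹ * ρ)⁻¹ = n * (ρ * (n⁻¹ * (ρ * t * ρ⁻¹) * n) * ρ⁻¹) * n⁻¹ := by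
          group
      _ = n * (ρ * (n * (n * r) * n⁻¹) * ρ⁻¹) * n⁻¹ := by rw [hρt]; simp only [hni]
      _ = n * (ρ * ((n * r) * t) * ρ⁻¹) * n⁻¹ := by rw [hnN]
      _ = n * t * n⁻¹ := by rw [hρNt]
      _ = t := hnt
  have hv2 : (n * ρ * n⁻¹ * ρ) * (n * r) * (n * ρ * n⁻¹ * ρ)⁻¹ = n * r := by
    calc (n * ρ * n⁻¹ * ρ) * (n * r) * (n * ρ * n⁻¹ * ρ)⁻¹ = n * (ρ * (n⁻¹ * (ρ * (n * r) * ρ⁻¹) * n) * ρ⁻¹) * n⁻¹ := by
          group
      _ = n * (ρ * (n * ((n * r) * t) * n⁻¹) * ρ⁻¹) * n⁻¹ := by rw [hρN]; simp only [hni]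
      _ = n * (ρ * (n * r) * ρ⁻¹) * n⁻¹ := by rw [hnNt]
      _ = n * ((n * r) * t) * n⁻¹ := by rw [hρN]
      _ = _ := hnNt
  have hcases := h.comm_nr hc (n * ρ * n⁻¹ * ρ) (comm_of_conj_eq hv1) (comm_of_conj_eq hv2)
  have hkey : ∀ v, n * ρ * n⁻¹ * ρ = v → ρ = (n * v * n⁻¹) * ρ * v⁻¹ := by
    intro v hv
    have hA : n * ρ * n⁻¹ = v * ρ⁻¹ := by rw [← hv]; group
    calc ρ = (n * n) * ρ * (n * n)⁻¹ := by rw [hn2]; group
      _ = n * (n * ρ * n⁻¹) * n⁻¹ := by group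
      _ = n * (v * ρ⁻¹) * n⁻¹ := by rw [hA]
      _ = (n * v * n⁻¹) * (n * ρ * n⁻¹)⁻¹ := by group
      _ = (n * v * n⁻¹) * (v * ρ⁻¹)⁻¹ := by rw [hA]
      _ = _ := by group
  rcases hcases with h0 | h0 | h0 | h0
  · -- `v₁ = 1`
    exact ⟨n, Or.inl rfl, eq_inv_of_mul_eq_one_left h0⟩
  · -- `v₁ = t`: impossible
    exfalso
    have h1 := hkey _ h0
    rw [hnt, hti] at h1
    have h2 : ρ * t = t * ρ := by
      calc ρ * t = (t * ρ * t) * t := by rw [← h1]
        _ = t * ρ * (t * t) := by group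
        _ = t * ρ := by rw [ht2, mul_one]
    rw [conj_eq_of_comm h2] at hρt
    exact h.N_ne_t hρt.symm
  · -- `v₁ = N`
    refine ⟨n * t, Or.inr rfl, ?_⟩
    have hA : n * ρ * n⁻¹ = (n * r) * ρ⁻¹ := by rw [← h0]; group
    have h2 : t * ρ * t⁻¹ = t * (n * r) * ρ := by
      calc t * ρ * t⁻¹ = t * (ρ * t⁻¹ * ρ⁻¹) * ρ := by group
        _ = t * (ρ * t * ρ⁻¹) * ρ := by rw [hti]
        _ = _ := by rw [hρt]
    calc (n * t) * ρ * (n * t)⁻¹ = n * (t * ρ * t⁻¹) * n⁻¹ := by group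
      _ = n * (t * (n * r) * ρ) * n⁻¹ := by rw [h2]
      _ = (n * t * n⁻¹) * (n * (n * r) * n⁻¹) * (n * ρ * n⁻¹) := by group
      _ = t * ((n * r) * t) * ((n * r) * ρ⁻¹) := by rw [hnt, hnN, hA]
      _ = (t * (n * r)) * t * (n * r) * ρ⁻¹ := by group
      _ = ((n * r) * t) * t * (n * r) * ρ⁻¹ := by rw [htN]
      _ = (n * r) * (t * t) * (n * r) * ρ⁻¹ := by group
      _ = ((n * r) * (n * r)) * ρ⁻¹ := by rw [ht2]; group
      _ = ρ⁻¹ := by rw [hN2, one_mul]
  · -- `v₁ = N t`: impossible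
    exfalso
    rw [h.nri_eq] at h0
    have h1 := hkey _ h0
    rw [hnNt, inv_of_invol h.Nt2] at h1
    have h5 : ρ * t = (n * r) * ρ * (n * r) := by
      calc ρ * t = ((n * r) * ρ * ((n * r) * t)) * t := by rw [← h1]
        _ = (n * r) * ρ * (n * r) * (t * t) := by group
        _ = _ := by rw [ht2, mul_one]
    have h6 : ρ * t = (n * r) * ρ := by
      rw [← hρt]; group
    rw [h6] at h5
    apply h.nr_ne_one
    have h8 : ((n * r) * ρ) * (n * r) = ((n * r) * ρ) * 1 := by rw [mul_one]; exact h5.symm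
    exact mul_left_cancel h8

end Cen24

namespace IsV

variable {y a b : G}

/-- An involution inverting `y` permutes the involutions of `C(y)`. -/
theorem conj_mem_inv (V : IsV y a b) (g : G) (hg : g * y * g⁻¹ = y⁻¹) (v : G) (hv : v = a ∨ v = b ∨ v = a * b) :
    g * v * g⁻¹ = a ∨ g * v * g⁻¹ = b ∨ g * v * g⁻¹ = a * b := by
  obtain ⟨h1, h2, h3⟩ := V.mem_props v hv
  apply V.all _ (conj_invol g h1) (conj_ne_one' g h2)
  have h4 : (g * v * g⁻¹) * (g * y * g⁻¹) = (g * y * g⁻¹) * (g * v * g⁻¹) := by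
    rw [conj_mul, conj_mul, h3]
  rw [hg] at h4
  have h5 := (show Commute (g * v * g⁻¹) y⁻¹ from h4).inv_right
  simpa using h5.eq

/-- An involution inverting `y` fixes one of the involutions of `C(y)`. -/
theorem exists_fixed (V : IsV y a b) (g : G) (hg2 : g * g = 1) (hg : g * y * g⁻¹ = y⁻¹) :
    ∃ τ : G, (τ = a ∨ τ = b ∨ τ = a * b) ∧ τ * g = g * τ := by
  have hgi : g⁻¹ = g := inv_of_invol hg2
  have hback : ∀ v w : G, g * v * g⁻¹ = w → g * w * g⁻¹ = v := by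
    intro v w hvw
    rw [← hvw]
    calc g * (g * v * g⁻¹) * g⁻¹ = (g * g) * v * (g⁻¹ * g⁻¹) := by group
      _ = v := by
        rw [hg2, hgi, hg2]; group
  have hcomm : ∀ v : G, g * v * g⁻¹ = v → v * g = g * v := fun v hv => (comm_of_conj_eq hv).symm
  rcases V.conj_mem_inv g hg a (Or.inl rfl) with h0 | h0 | h0
  · exact ⟨a, Or.inl rfl, hcomm a h0⟩
  · refine ⟨a * b, Or.inr (Or.inr rfl), hcomm _ ?_⟩
    rw [← conj_mul, h0, hback a b h0, V.comm]
  · refine ⟨b, Or.inr (Or.inl rfl), hcomm _ ?_⟩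
    have h1 := hback a (a * b) h0
    -- `g b g⁻¹ = g a g⁻¹ * g (a b) g⁻¹ = a b a = b`
    have h2 : b = a * (a * b) := by
      rw [← mul_assoc, V.a2, one_mul]
    calc g * b * g⁻¹ = g * (a * (a * b)) * g⁻¹ := by rw [← h2]
      _ = (g * a * g⁻¹) * (g * (a * b) * g⁻¹) := by rw [conj_mul]
      _ = (a * b) * a := by rw [h0, h1]
      _ = (b * a) * a := by rw [V.comm]
      _ = b * (a * a) := by group
      _ = b := by rw [V.a2, mul_one]

/-- The involutions of `C(y)` commute. -/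
theorem comm_mem (V : IsV y a b) (v w : G) (hv : v = a ∨ v = b ∨ v = a * b) (hw : w = a ∨ w = b ∨ w = a * b) :
    v * w = w * v := by
  have h1 : Commute a b := V.comm
  have h2 : Commute a (a * b) := (Commute.refl a).mul_right h1
  have h3 : Commute b (a * b) := h1.symm.mul_right (Commute.refl b)
  rcases hv with h0 | h0 | h0 <;> rcases hw with h0' | h0' | h0' <;> rw [h0, h0']
  · exact h1
  · exact h2
  · exact h1.symm
  · exact h3
  · exact h2.symm
  · exact h3.symm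

end IsV

namespace Cen24

variable {t r n u : G}

/-- The form of a fixed involution. -/
theorem fixed_invol_form (hc : Ctx G) (h : Cen24 t r n u) (y : G) (hy : IsT3 y) (hty : t * y * t⁻¹ = y⁻¹) :
    ∃ τ b : G, τ * τ = 1 ∧ τ ≠ 1 ∧ τ * y = y * τ ∧ τ * t = t * τ ∧ (b = 1 ∨ b = u ∨ b = u⁻¹) ∧
      (τ = n * r * b ∨ τ = (n * r) * t * b) := by
  obtain ⟨a, c, V⟩ := hy.isV hc
  obtain ⟨τ, hτ, hτt⟩ := V.exists_fixed t h.t2 hty
  obtain ⟨h1, h2, h3⟩ := V.mem_props τ hτ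
  have hy3 := hy.1
  have hne : y ≠ y⁻¹ := by
    intro h0
    have h4 : y * y = 1 := by
      calc y * y = y * y⁻¹ := by rw [← h0]
        _ = 1 := by group
    have h5 : y ^ 3 = 1 := cube_of_order_three hy3
    have h6 : y = 1 := by
      calc y = y ^ 3 * (y * y)⁻¹ := by group
        _ = 1 := by rw [h5, h4]; group
    exact ne_one_of_order_three hy3 h6
  have hnot : ¬ (y * t = t * y) := by
    intro h0
    rw [conj_eq_of_comm h0.symm] at hty
    exact hne hty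
  rcases h.U.conj_cases τ hτt with h0 | h0
  · exfalso
    have hU := isU_of_comm hc τ y h1 h2 hy3 h3.symm
    rcases hU.uniq u (comm_of_conj_eq h0).symm h.u3 with h4 | h4 | h4
    · exact ne_one_of_order_three h.ord_u h4
    · apply hnot
      rw [← h4]
      exact h.ut
    · apply hnot
      have h5 : y = u⁻¹ := by rw [h4, inv_inv]
      rw [h5]
      exact h.uinv.ut
  · obtain ⟨b, hb, hτb⟩ := h.invol_inv hc τ hτt h1 h0
    refine ⟨τ, b, h1, h2, h3, hτt, hb, ?_⟩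
    rcases hτb with h4 | h4
    · exact Or.inl h4
    · right
      rw [h4, h.nri_eq]

end Cen24

end Cfsg.Agent.Lib.A7Rec
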