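import Mathlib
import Cfsg.Agent.Lib.A7Rec.Cycle

/-!
# A simple group of order 2520 without a subgroup of index 7: the first relation
-/

set_option autoImplicit false
set_option linter.style.haveILetI false
set_option linter.unusedVariables false
set_option linter.unusedSectionVars false
set_option linter.unusedSimpArgs false

namespace Cfsg.Agent.Lib.A7Rec

open Subgroup Cfsg.Agent.Lib.SmallCen.SmallOrder Cfsg.Agent.Lib.SmallOrd
open Cfsg.Agent.Lib.Basic.SmallSimple Cfsg.Agent.Lib.SmallOrd.ClassSign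
open Cfsg.Agent.Lib.SmallOrd.InvolTools Cfsg.Agent.Lib.SmallOrd.OrderEight
open scoped Pointwise

variable {G : Type*} [Group G] [Finite G] [IsSimpleGroup G]

/-- Two independent elements of order three generate a Sylow 3-subgroup. -/
theorem sylow3_gen (hc : Ctx G) (R : Sylow 3 G) (a b : G) (ha : a ∈ (R : Subgroup G)) (hb : b ∈ (R : Subgroup G))
    (ha3 : orderOf a = 3) (hb3 : orderOf b = 3) (hab : b ≠ a) (hab' : b ≠ a⁻¹) (e : G) (he : e ∈ (R : Subgroup G)) :
    ∃ a' ∈ zpowers a, ∃ b' ∈ zpowers b, e = a' * b' := by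
  obtain ⟨hRc, hRN, hRcomm⟩ := sylow_three hc R
  refine mul_surj' ((Subgroup.zpowers_le).2 ha) ((Subgroup.zpowers_le).2 hb) ?_ ?_ e he
  · rw [Nat.card_zpowers, Nat.card_zpowers, ha3, hb3, hRc]
  · intro x hxa hxb
    by_contra hx1
    have h1 := zp3 ha3 hxa
    have h2 := zp3 hb3 hxb
    rcases h1 with h1 | h1 | h1
    · exact hx1 h1
    · rcases h2 with h2 | h2 | h2
      · exact hx1 h2
      · exact hab (by rw [← h2, h1])
      · apply hab'
        rw [← h1, h2, inv_inv]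
    · rcases h2 with h2 | h2 | h2
      · exact hx1 h2
      · exact hab' (by rw [← h2, h1])
      · apply hab
        have h3 : b⁻¹ = a⁻¹ := by rw [← h2, h1]
        exact inv_injective h3

/-- An element moving two generators into `R` normalizes `R`. -/
theorem mem_normalizer_of_gen (hc : Ctx G) (R : Sylow 3 G) (a b : G) (ha : a ∈ (R : Subgroup G))
    (hb : b ∈ (R : Subgroup G)) (ha3 : orderOf a = 3) (hb3 : orderOf b = 3) (hab : b ≠ a) (hab' : b ≠ a⁻¹)
    (g : G) (hga : g * a * g⁻¹ ∈ (R : Subgroup G)) (hgb : g * b * g⁻¹ ∈ (R : Subgroup G)) :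
    g ∈ normalizer ((R : Subgroup G) : Set G) := by
  apply mem_normalizer_of_map
  intro y hy
  obtain ⟨a', ha', b', hb', rfl⟩ := sylow3_gen hc R a b ha hb ha3 hb3 hab hab' y hy
  rw [← conj_mul]
  obtain ⟨k, rfl⟩ := Subgroup.mem_zpowers_iff.1 ha'
  obtain ⟨l, rfl⟩ := Subgroup.mem_zpowers_iff.1 hb'
  rw [← conj_zpow, ← conj_zpow]
  exact mul_mem (zpow_mem hga k) (zpow_mem hgb l)

omit [Finite G] [IsSimpleGroup G] in
/-- `b` moves an inverting involution. -/
theorem bconj {N b : G} (hN : N * N = 1) (hb3 : b ^ 3 = 1) (hNb : N * b * N⁻¹ = b⁻¹) : b * N * b⁻¹ = N * b := by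
  have hNi : N⁻¹ = N := inv_eq_of_mul_eq_one_left hN
  have h1 : N * b⁻¹ * N⁻¹ = b := by
    calc N * b⁻¹ * N⁻¹ = (N * b * N⁻¹)⁻¹ := by group
      _ = b := by rw [hNb, inv_inv]
  have h2 : b * N = N * b⁻¹ := by
    calc b * N = (N * b⁻¹ * N⁻¹) * N := by rw [h1]
      _ = N * b⁻¹ := by group
  have h3 : b⁻¹ * b⁻¹ = b := by
    have h4 : b * b = b⁻¹ := by
      rw [eq_inv_iff_mul_eq_one]
      calc b * b * b = b ^ 3 := by rw [show (3 : ℕ) = 2 + 1 from rfl, pow_succ, pow_two]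
        _ = 1 := hb3
    calc b⁻¹ * b⁻¹ = (b * b)⁻¹ := by group
      _ = b := by rw [h4, inv_inv]
  calc b * N * b⁻¹ = N * (b⁻¹ * b⁻¹) := by rw [h2]; group
    _ = N * b := by rw [h3]

omit [Finite G] [IsSimpleGroup G] in
/-- A square root of `t` moves an element `t` does not commute with. -/
theorem conj_ne_of_sq {w x t : G} (hw : w * w = t) (hx : ¬ (t * x = x * t)) :
    w * x * w⁻¹ ≠ x ∧ w * x * w⁻¹ ≠ x⁻¹ := by
  constructor
  · intro h0
    apply hx
    rw [← hw]
    have h1 : Commute w x := comm_of_conj_eq h0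
    exact (h1.mul_left h1).eq
  · intro h0
    apply hx
    rw [← hw]
    apply comm_of_conj_eq
    calc w * w * x * (w * w)⁻¹ = w * (w * x * w⁻¹) * w⁻¹ := by group
      _ = w * x⁻¹ * w⁻¹ := by rw [h0]
      _ = (w * x * w⁻¹)⁻¹ := by group
      _ = x := by rw [h0, inv_inv]

namespace Cen24

variable {t r n u : G}

/-- An element of order three commuting with `N` is inverted by `t`. -/
theorem t_inverts (hc : Ctx G) (h : Cen24 t r n u) (x : G) (hx : orderOf x = 3) (hxN : x * (n * r) = (n * r) * x) :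
    t * x * t⁻¹ = x⁻¹ := by
  have hU := isU_of_comm hc (n * r) x h.nr_invol h.nr_ne_one hx hxN
  rcases hU.conj_cases t h.N_t_comm with h0 | h0
  · exact (h.no_common x hx (comm_of_conj_eq h0).symm hxN).elim
  · exact h0

/-- A Sylow 3-subgroup through `x` normalized by `t`. -/
theorem exists_R1 (hc : Ctx G) (h : Cen24 t r n u) (x : G) (hx : orderOf x = 3) (hxN : x * (n * r) = (n * r) * x) :
    ∃ R₁ : Sylow 3 G, x ∈ (R₁ : Subgroup G) ∧ t ∈ normalizer ((R₁ : Subgroup G) : Set G) := by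
  classical
  haveI : Fact (Nat.Prime 3) := ⟨by norm_num⟩
  haveI : Fact (Nat.Prime 2) := ⟨Nat.prime_two⟩
  have hN2 := h.nr_invol
  have hN1 := h.nr_ne_one
  have ht2 := h.t2
  have hti := h.t_inv
  have hNi := h.N_inv
  have htx := h.t_inverts hc x hx hxN
  obtain ⟨r', p, u₀, H₀⟩ := exists_cen24' hc (n * r) hN2 hN1
  have H := H₀.with_u x hxN hx
  have V := isV_of_cen24 hc H
  have hnc : ¬ (t * p = p * t) := fun h0 =>
    h.no_common x hx ((H.comm_n hc t h.N_t_comm h0).symm) hxN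
  have hpt : t * p * t⁻¹ = (n * r) * p := by
    rcases V.conj_mem_inv t htx p (Or.inr (Or.inl rfl)) with h0 | h0 | h0
    · exfalso
      apply V.ab
      have h1 : t * (n * r) * t⁻¹ = n * r := conj_eq_of_comm h.N_t_comm
      exact conj_inj t (h1.trans h0.symm)
    · exact (hnc (comm_of_conj_eq h0)).elim
    · exact h0
  have hp2 := V.b2
  have hpi : p⁻¹ = p := inv_of_invol hp2
  have hNp : (n * r) * p = p * (n * r) := V.comm
  obtain ⟨R₀, hxR₀⟩ := exists_sylow_mem (p := 3) x hx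
  obtain ⟨hRc, hRN, hRcomm⟩ := sylow_three hc R₀
  obtain ⟨hself, M, hMc, hMK, hMn⟩ := cu_complement hc x hx R₀ hxR₀ V.card
  have hRle : (R₀ : Subgroup G) ≤ centralizer ({x} : Set G) := by
    intro s hs
    rw [Subgroup.mem_centralizer_singleton_iff]
    exact hRcomm s hs x hxR₀
  let A : Subgroup G := (R₀ : Subgroup G).map (MulAut.conj t).toMonoidHom
  have hAc : Nat.card A = 9 := by
    show Nat.card ((R₀ : Subgroup G).map (MulAut.conj t).toMonoidHom) = 9
    rw [Subgroup.card_map_of_injective (MulAut.conj t).injective, hRc]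
  have hx' : t * x⁻¹ * t⁻¹ = x := by
    calc t * x⁻¹ * t⁻¹ = (t * x * t⁻¹)⁻¹ := by group
      _ = x := by rw [htx, inv_inv]
  have hAle : A ≤ centralizer ({x} : Set G) := by
    rintro _ ⟨s, hs, rfl⟩
    rw [Subgroup.mem_centralizer_singleton_iff]
    show t * s * t⁻¹ * x = x * (t * s * t⁻¹)
    have h1 : Commute s x⁻¹ := (show Commute s x from hRcomm s hs x hxR₀).inv_right
    have h2 : (t * s * t⁻¹) * (t * x⁻¹ * t⁻¹) = (t * x⁻¹ * t⁻¹) * (t * s * t⁻¹) := by
      rw [conj_mul, conj_mul, h1.eq]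
    rwa [hx'] at h2
  obtain ⟨c, hcC, hcm⟩ := exists_conj_of_card (p := 3) (a := 2) (m := 4) hAle hRle (by rw [hAc]; norm_num)
    (by rw [hRc]; norm_num) (by rw [V.card]; norm_num) (by norm_num)
  obtain ⟨m, hm, β, hβ, hcm'⟩ := mul_surj hMK hRle (by rw [hMc, hRc, V.card]) (by rw [hMc, hRc]; norm_num) c⁻¹
    (inv_mem hcC)
  have hmx : m * x = x * m := (Subgroup.mem_centralizer_singleton_iff).1 (hMK hm)
  have hc' : c = β⁻¹ * m⁻¹ := by
    have h1 : c = (c⁻¹)⁻¹ := by group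
    rw [h1, hcm']
    group
  have hg : m⁻¹ * t ∈ normalizer ((R₀ : Subgroup G) : Set G) := by
    apply mem_normalizer_of_map
    intro y hy
    have h1 := hcm (t * y * t⁻¹) ⟨y, hy, rfl⟩
    have h2 : (m⁻¹ * t) * y * (m⁻¹ * t)⁻¹ = β * (c * (t * y * t⁻¹) * c⁻¹) * β⁻¹ := by
      rw [hc']
      group
    rw [h2]
    exact mul_mem (mul_mem hβ h1) (inv_mem hβ)
  have hmcases : m = 1 ∨ m = n * r ∨ m = p ∨ m = (n * r) * p := by
    by_cases hm1 : m = 1
    · exact Or.inl hm1
    · right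
      have hd : orderOf m ∣ 4 := by
        have := orderOf_dvd_natCard (⟨m, hm⟩ : M)
        rwa [Subgroup.orderOf_mk, hMc] at this
      have hm2 : m * m = 1 := by
        have hmem : orderOf m ∈ Nat.divisors 4 := Nat.mem_divisors.2 ⟨hd, by norm_num⟩
        have hdiv : Nat.divisors 4 = {1, 2, 4} := by decide
        rw [hdiv] at hmem
        simp only [Finset.mem_insert, Finset.mem_singleton] at hmem
        rcases hmem with h0 | h0 | h0
        · exact (hm1 (orderOf_eq_one_iff.1 h0)).elim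
        · rw [← pow_two, ← h0, pow_orderOf_eq_one]
        · exact (no_order_twelve hc m x h0 hx hmx).elim
      exact V.all m hm2 hm1 hmx
  have hNnot : n * r ∉ normalizer ((R₀ : Subgroup G) : Set G) := by
    intro h0
    have := no_fix hc R₀ (n * r) h0 hN2 hN1 x hxR₀ hxN.symm
    exact ne_one_of_order_three hx this
  rcases hmcases with h0 | h0 | h0 | h0
  · rw [h0, inv_one, one_mul] at hg
    exact ⟨R₀, hxR₀, hg⟩
  · rw [h0, hNi] at hg
    -- conjugate by `p`
    let T : Subgroup G := (R₀ : Subgroup G).map (MulAut.conj p).toMonoidHom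
    have hTc : Nat.card T = 9 := by
      show Nat.card ((R₀ : Subgroup G).map (MulAut.conj p).toMonoidHom) = 9
      rw [Subgroup.card_map_of_injective (MulAut.conj p).injective, hRc]
    obtain ⟨P, hP⟩ := exists_sylow_of_card_nine hc T hTc
    refine ⟨P, ?_, ?_⟩
    · rw [hP]
      exact ⟨x, hxR₀, conj_eq_of_comm V.bu⟩
    · rw [hP]
      apply mem_normalizer_of_map
      rintro _ ⟨s, hs, rfl⟩
      have h1 : p⁻¹ * t * p = (n * r) * t := by
        have h2 : t * p = (n * r) * p * t := by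
          calc t * p = t * p * t⁻¹ * t := by group
            _ = _ := by rw [hpt]
        calc p⁻¹ * t * p = p⁻¹ * (t * p) := by group
          _ = p⁻¹ * ((n * r) * p * t) := by rw [h2]
          _ = p⁻¹ * (p * (n * r)) * t := by rw [hNp]; group
          _ = _ := by group
      have h3 := (mem_normalizer_iff.1 hg s).1 hs
      refine ⟨(n * r) * t * s * ((n * r) * t)⁻¹, h3, ?_⟩
      show p * ((n * r) * t * s * ((n * r) * t)⁻¹) * p⁻¹ = t * (p * s * p⁻¹) * t⁻¹
      rw [← h1]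
      group
  · exfalso
    rw [h0, hpi] at hg
    apply hNnot
    have h1 : (p * t) * (p * t) = n * r := by
      have h2 : t * p * t = (n * r) * p := by rw [← hpt, hti]
      calc (p * t) * (p * t) = p * (t * p * t) := by group
        _ = p * ((n * r) * p) := by rw [h2]
        _ = p * (p * (n * r)) := by rw [hNp]
        _ = (p * p) * (n * r) := by group
        _ = _ := by rw [hp2, one_mul]
    rw [← h1]
    exact mul_mem hg hg
  · exfalso
    have hNpi : ((n * r) * p)⁻¹ = (n * r) * p := inv_of_invol V.ab2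
    rw [h0, hNpi] at hg
    apply hNnot
    have h1 : t * ((n * r) * p) * t = p := by
      have h3 : t * (n * r) * t⁻¹ = n * r := conj_eq_of_comm h.N_t_comm
      calc t * ((n * r) * p) * t = t * ((n * r) * p) * t⁻¹ := by rw [hti]
        _ = (t * (n * r) * t⁻¹) * (t * p * t⁻¹) := by rw [conj_mul]
        _ = (n * r) * ((n * r) * p) := by rw [h3, hpt]
        _ = ((n * r) * (n * r)) * p := by group
        _ = p := by rw [hN2, one_mul]
    have h2 : ((n * r) * p * t) * ((n * r) * p * t) = n * r := by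
      calc ((n * r) * p * t) * ((n * r) * p * t) = (n * r) * p * (t * ((n * r) * p) * t) := by group
        _ = (n * r) * p * p := by rw [h1]
        _ = (n * r) * (p * p) := by group
        _ = n * r := by rw [hp2, mul_one]
    rw [← h2]
    exact mul_mem hg hg

/-- The key commutation: `x ∈ U_N` commutes with the elements of order three in `C(N t u^±)`. -/
theorem key_star (hc : Ctx G) (h : Cen24 t r n u) (x : G) (hx : orderOf x = 3) (hxN : x * (n * r) = (n * r) * x)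
    (b : G) (hb : b = u ∨ b = u⁻¹) (e : G) (he : orderOf e = 3) (heb : e * ((n * r) * t * b) = ((n * r) * t * b) * e) :
    e * x = x * e := by
  classical
  haveI : Fact (Nat.Prime 3) := ⟨by norm_num⟩
  have hN2 := h.nr_invol
  have hN1 := h.nr_ne_one
  have ht2 := h.t2
  have hti := h.t_inv
  have hNi := h.N_inv
  have htN := h.N_t_comm
  have hNt := h.Nt2
  obtain ⟨R₁, hxR₁, htR₁⟩ := h.exists_R1 hc x hx hxN
  obtain ⟨hRc, hRN, hRcomm⟩ := sylow_three hc R₁
  obtain ⟨w₁, hw₁N, hw₁o, hw₁⟩ := exists_sqrt_in hc R₁ t htR₁ ht2 h.t1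
  have htnot : ¬ (t * x = x * t) := fun h0 => h.no_common x hx h0.symm hxN
  obtain ⟨hne1, hne2⟩ := conj_ne_of_sq hw₁ htnot
  set y := w₁ * x * w₁⁻¹ with hy
  have hyR₁ : y ∈ (R₁ : Subgroup G) := (mem_normalizer_iff.1 hw₁N x).1 hxR₁
  have T3x : IsT3 x := ⟨hx, n * r, hN2, hN1, hxN⟩
  have T3y : IsT3 y := T3x.conj w₁
  have hy3 := T3y.1
  have htinv : t * y * t⁻¹ = y⁻¹ := invol_inverts hc R₁ t htR₁ ht2 h.t1 y hyR₁
  obtain ⟨τ, b₀, hτ2, hτ1, hτy, hτt, hb₀, hform⟩ := h.fixed_invol_form hc y T3y htinv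
  have hyx : y * x = x * y := hRcomm y hyR₁ x hxR₁
  have hNxc : (n * r) * x * (n * r)⁻¹ = x := conj_eq_of_comm hxN.symm
  -- `y'`
  obtain ⟨y', hy'⟩ : ∃ y', y' = (n * r) * y * (n * r)⁻¹ := ⟨_, rfl⟩
  have hy'3 : orderOf y' = 3 := by rw [hy', orderOf_conj', hy3]
  have hy'x : y' * x = x * y' := by
    have h1 : ((n * r) * y * (n * r)⁻¹) * ((n * r) * x * (n * r)⁻¹) =
        ((n * r) * x * (n * r)⁻¹) * ((n * r) * y * (n * r)⁻¹) := by
      rw [conj_mul, conj_mul, hyx]
    rw [hNxc, ← hy'] at h1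
    exact h1
  have hy'τ : y' * ((n * r) * τ * (n * r)⁻¹) = ((n * r) * τ * (n * r)⁻¹) * y' := by
    rw [hy', conj_mul, conj_mul, ← hτy]
  have hnotmem : y' ∉ (R₁ : Subgroup G) := by
    intro h0
    have h1 : n * r ∈ normalizer ((R₁ : Subgroup G) : Set G) :=
      mem_normalizer_of_gen hc R₁ x y hxR₁ hyR₁ hx hy3 hne1 hne2 (n * r) (by rw [hNxc]; exact hxR₁)
        (by rw [← hy']; exact h0)
    exact ne_one_of_order_three hx (no_fix hc R₁ (n * r) h1 hN2 hN1 x hxR₁ hxN.symm)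
  obtain ⟨r', p, u₀, H₀⟩ := exists_cen24' hc (n * r) hN2 hN1
  have hV := isV_of_cen24 hc (H₀.with_u x hxN hx)
  have hUτ : IsU τ y := isU_of_comm hc τ y hτ2 hτ1 hy3 hτy.symm
  have hnocomm : ¬ (y' * y = y * y') := by
    intro h0
    apply hnotmem
    obtain ⟨hself, -⟩ := cu_complement hc x hx R₁ hxR₁ hV.card
    apply hself y' hy'x
    apply mem_normalizer_of_map
    intro s hs
    obtain ⟨a', ha', b', hb', rfl⟩ := sylow3_gen hc R₁ x y hxR₁ hyR₁ hx hy3 hne1 hne2 s hs
    have h1 : Commute y' a' := by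
      obtain ⟨k, rfl⟩ := Subgroup.mem_zpowers_iff.1 ha'
      exact (show Commute y' x from hy'x).zpow_right k
    have h2 : Commute y' b' := by
      obtain ⟨k, rfl⟩ := Subgroup.mem_zpowers_iff.1 hb'
      exact (show Commute y' y from h0).zpow_right k
    rw [conj_eq_of_comm (h1.mul_right h2).eq]
    exact hs
  -- the reflection facts
  have hNb₀ : (n * r) * b₀ * (n * r)⁻¹ = b₀⁻¹ := conj_b_of_inv h.nr_u hb₀
  have hb₀3 : b₀ ^ 3 = 1 := by
    rcases hb₀ with h0 | h0 | h0 <;> rw [h0]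
    · simp
    · exact h.u3
    · rw [inv_pow, h.u3, inv_one]
  have hτ'form : ∀ c : G, τ = c * b₀ → (n * r) * c * (n * r)⁻¹ = c → (n * r) * τ * (n * r)⁻¹ = c * b₀⁻¹ := by
    intro c hc' hcc
    rw [hc']
    calc (n * r) * (c * b₀) * (n * r)⁻¹ = ((n * r) * c * (n * r)⁻¹) * ((n * r) * b₀ * (n * r)⁻¹) := by rw [conj_mul]
      _ = _ := by rw [hcc, hNb₀]
  have hNcN : (n * r) * (n * r) * (n * r)⁻¹ = n * r := by group
  have hNct : (n * r) * ((n * r) * t) * (n * r)⁻¹ = (n * r) * t := by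
    have h1 : (n * r) * t * (n * r)⁻¹ = t := conj_eq_of_comm htN.symm
    rw [← conj_mul, hNcN, h1]
  -- `b₀ ≠ 1`
  rcases hb₀ with hb1 | hb1 | hb1
  · exfalso
    apply hnotmem
    have hτc : (n * r) * τ * (n * r)⁻¹ = τ := by
      rcases hform with h0 | h0 <;> rw [h0, hb1, mul_one]
      · exact hNcN
      · exact hNct
    rw [hτc] at hy'τ
    have h3 : y' ^ 3 = 1 := cube_of_order_three hy'3
    rcases hUτ.uniq y' hy'τ h3 with h0 | h0 | h0 <;> rw [h0]
    · exact one_mem _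
    · exact hyR₁
    · exact inv_mem hyR₁
  all_goals
    have hb01 : b₀ ≠ 1 := by
      rw [hb1]
      first
        | exact ne_one_of_order_three h.ord_u
        | exact inv_ne_one.2 (ne_one_of_order_three h.ord_u)
    have hbcases : b = b₀ ∨ b = b₀⁻¹ := by
      rcases hb with h0 | h0 <;> rw [h0, hb1]
      · first
          | exact Or.inl rfl
          | exact Or.inr (by simp)
      · first
          | exact Or.inl rfl
          | exact Or.inr rfl
    rcases hform with h0 | h0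
    · -- the case `τ = N b₀`: impossible
      exfalso
      apply hnocomm
      have hτb : b₀ * (n * r) * b₀⁻¹ = τ := by
        rw [h0]
        exact bconj hN2 hb₀3 hNb₀
      have hτ' : (n * r) * τ * (n * r)⁻¹ = b₀⁻¹ * (n * r) * b₀⁻¹⁻¹ := by
        rw [hτ'form _ h0 hNcN]
        rw [bconj hN2 (by rw [inv_pow, hb₀3, inv_one]) (by
          calc (n * r) * b₀⁻¹ * (n * r)⁻¹ = ((n * r) * b₀ * (n * r)⁻¹)⁻¹ := by group
            _ = b₀⁻¹⁻¹ := by rw [hNb₀])]
      -- `X = b₀ x b₀⁻¹`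
      have hX3 : orderOf (b₀ * x * b₀⁻¹) = 3 := by rw [orderOf_conj', hx]
      have hXτ : (b₀ * x * b₀⁻¹) * τ = τ * (b₀ * x * b₀⁻¹) := by
        rw [← hτb, conj_mul, conj_mul, hxN]
      have hX'3 : orderOf (b₀⁻¹ * x * b₀⁻¹⁻¹) = 3 := by rw [orderOf_conj', hx]
      have hX'τ : (b₀⁻¹ * x * b₀⁻¹⁻¹) * ((n * r) * τ * (n * r)⁻¹) = ((n * r) * τ * (n * r)⁻¹) * (b₀⁻¹ * x * b₀⁻¹⁻¹) := by
        rw [hτ', conj_mul, conj_mul, hxN]
      have hUτ' : IsU ((n * r) * τ * (n * r)⁻¹) y' := by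
        refine isU_of_comm hc _ y' (conj_invol _ hτ2) (conj_ne_one' _ hτ1) hy'3 hy'τ
      have hXlist : b₀ * x * b₀⁻¹ = y ∨ b₀ * x * b₀⁻¹ = y⁻¹ := by
        rcases hUτ.uniq _ hXτ (cube_of_order_three hX3) with h1 | h1 | h1
        · exact (ne_one_of_order_three hX3 h1).elim
        · exact Or.inl h1
        · exact Or.inr h1
      have hX'list : b₀⁻¹ * x * b₀⁻¹⁻¹ = y' ∨ b₀⁻¹ * x * b₀⁻¹⁻¹ = y'⁻¹ := by
        rcases hUτ'.uniq _ hX'τ (cube_of_order_three hX'3) with h1 | h1 | h1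
        · exact (ne_one_of_order_three hX'3 h1).elim
        · exact Or.inl h1
        · exact Or.inr h1
      have hxX : Commute x (b₀ * x * b₀⁻¹) := by
        rcases hXlist with h1 | h1 <;> rw [h1]
        · exact (show Commute y x from hyx).symm
        · exact (show Commute y x from hyx).symm.inv_right
      have hbb : b₀ * b₀ = b₀⁻¹ := sq_eq_inv_of_cube hb₀3
      have hXX' : Commute (b₀ * x * b₀⁻¹) (b₀⁻¹ * x * b₀⁻¹⁻¹) := by
        have h5 : (b₀ * x * b₀⁻¹) * (b₀ * (b₀ * x * b₀⁻¹) * b₀⁻¹) = (b₀ * (b₀ * x * b₀⁻¹) * b₀⁻¹) * (b₀ * x * b₀⁻¹) := by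
          rw [conj_mul, conj_mul, hxX.eq]
        have h6 : b₀ * (b₀ * x * b₀⁻¹) * b₀⁻¹ = b₀⁻¹ * x * b₀⁻¹⁻¹ := by
          calc b₀ * (b₀ * x * b₀⁻¹) * b₀⁻¹ = (b₀ * b₀) * x * (b₀ * b₀)⁻¹ := by group
            _ = _ := by rw [hbb]
        rw [h6] at h5
        exact h5
      have hfinal : Commute y y' := by
        rcases hXlist with h1 | h1 <;> rcases hX'list with h2 | h2 <;> rw [h1, h2] at hXX'
        · exact hXX'
        · exact Commute.inv_right_iff.1 hXX'
        · exact Commute.inv_left_iff.1 hXX'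
        · exact Commute.inv_left_iff.1 (Commute.inv_right_iff.1 hXX')
      exact hfinal.eq.symm
    · -- the case `τ = N t b₀`
      have hτ' := hτ'form _ h0 hNct
      rcases hbcases with h1 | h1
      · rw [h1, ← h0] at heb
        rcases hUτ.uniq e heb (cube_of_order_three he) with h2 | h2 | h2
        · exact (ne_one_of_order_three he h2).elim
        · rw [h2]
          exact hyx
        · rw [h2]
          exact (show Commute y x from hyx).inv_left
      · rw [h1, ← hτ'] at heb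
        have hUτ' : IsU ((n * r) * τ * (n * r)⁻¹) y' :=
          isU_of_comm hc _ y' (conj_invol _ hτ2) (conj_ne_one' _ hτ1) hy'3 hy'τ
        rcases hUτ'.uniq e heb (cube_of_order_three he) with h2 | h2 | h2
        · exact (ne_one_of_order_three he h2).elim
        · rw [h2]
          exact hy'x
        · rw [h2]
          exact (show Commute y' x from hy'x).inv_left

/-- The cube relation from the commutation. -/
theorem final_cube (hc : Ctx G) (h : Cen24 t r n u) (x : G) (Ux : IsU (n * r) x) (e : G) (he : IsT3 e)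
    (c b τ : G) (hτ : τ = c * b) (hτ2 : τ * τ = 1) (hτ1 : τ ≠ 1) (heτ : e * τ = τ * e)
    (hcN : c * (n * r) = (n * r) * c) (hb : b = u ∨ b = u⁻¹) (hex : e * x = x * e) : ((n * r) * e) ^ 3 = 1 := by
  have hN2 := h.nr_invol
  have hN1 := h.nr_ne_one
  obtain ⟨r', p, u₀, H₀⟩ := exists_cen24' hc (n * r) hN2 hN1
  have hV := isV_of_cen24 hc (H₀.with_u x Ux.comm Ux.ord)
  have hb' : b = 1 ∨ b = u ∨ b = u⁻¹ := Or.inr hb
  have he1 := ne_one_of_order_three he.1
  have hbne : b * b ≠ 1 := by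
    intro h0
    have hb3 : b ^ 3 = 1 := by
      rcases hb with h1 | h1 <;> rw [h1]
      · exact h.u3
      · rw [inv_pow, h.u3, inv_one]
    have h1 : b = 1 := by
      calc b = b ^ 3 * (b * b)⁻¹ := by group
        _ = 1 := by rw [hb3, h0]; group
    rcases hb with h2 | h2
    · exact ne_one_of_order_three h.ord_u (h2 ▸ h1)
    · apply ne_one_of_order_three h.ord_u
      have h3 : u⁻¹ = 1 := h2 ▸ h1
      exact inv_eq_one.1 h3
  have hnotcomm : ∀ e', IsT3 e' → e' * τ = τ * e' → e' * (n * r) = (n * r) * e' → False := by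
    intro e' he' he'τ he'N
    obtain ⟨a', b'', V⟩ := he'.isV hc
    have h1 := V.all (n * r) hN2 hN1 he'N.symm
    have h2 := V.all τ hτ2 hτ1 he'τ.symm
    have h3 := V.comm_mem _ _ h1 h2
    rw [hτ] at h3
    have h4 : (n * r) * b = b * (n * r) := by
      have h5 : c * ((n * r) * b) = c * (b * (n * r)) := by
        calc c * ((n * r) * b) = (c * (n * r)) * b := by group
          _ = ((n * r) * c) * b := by rw [hcN]
          _ = (n * r) * (c * b) := by group
          _ = (c * b) * (n * r) := h3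
          _ = _ := by group
      exact mul_left_cancel h5
    have h5 : (n * r) * b * (n * r)⁻¹ = b⁻¹ := conj_b_of_inv h.nr_u hb'
    rw [conj_eq_of_comm h4] at h5
    apply hbne
    calc b * b = b * b⁻¹ := by rw [← h5]
      _ = 1 := by group
  refine IsV.cube hc hV (n * r) (Or.inl rfl) e hex (cube_of_order_three he.1) he1 ?_ ?_
  · intro h0
    apply hnotcomm e he heτ
    rw [h0]
    exact Ux.comm
  · intro h0
    apply hnotcomm e he heτ
    rw [h0]
    exact (show Commute x (n * r) from Ux.comm).inv_left.eq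

/-- The first relation. -/
theorem rel1 (hc : Ctx G) (h : Cen24 t r n u) (R : Sylow 3 G) (hrR : r ∈ normalizer ((R : Subgroup G) : Set G))
    (u₁ : G) (hu₁ : u₁ ∈ (R : Subgroup G)) (hT : IsT3 u₁) :
    ∃ e, (e = u₁ ∨ e = r * u₁ * r⁻¹) ∧ ((n * r) * e) ^ 3 = 1 := by
  classical
  have hN2 := h.nr_invol
  have hN1 := h.nr_ne_one
  have ht2 := h.t2
  have hti := h.t_inv
  have hNi := h.N_inv
  have htN := h.N_t_comm
  have htR : t ∈ normalizer ((R : Subgroup G) : Set G) := by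
    rw [← h.rt]
    exact mul_mem hrR hrR
  have htinv : t * u₁ * t⁻¹ = u₁⁻¹ := invol_inverts hc R t htR ht2 h.t1 u₁ hu₁
  have hu₁3 := hT.1
  have hu₁1 := ne_one_of_order_three hu₁3
  have hnot : ¬ (t * u₁ = u₁ * t) := by
    intro h0
    exact hu₁1 (no_fix hc R t htR ht2 h.t1 u₁ hu₁ h0)
  obtain ⟨hne1, hne2⟩ := conj_ne_of_sq h.rt hnot
  have hu₂R : r * u₁ * r⁻¹ ∈ (R : Subgroup G) := (mem_normalizer_iff.1 hrR u₁).1 hu₁
  have hT2 := hT.conj r
  have hu₂3 := hT2.1
  obtain ⟨τ, b, hτ2, hτ1, hτy, hτt, hb, hform⟩ := h.fixed_invol_form hc u₁ hT htinv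
  have hτ₂ : (r * τ * r⁻¹) * (r * u₁ * r⁻¹) = (r * u₁ * r⁻¹) * (r * τ * r⁻¹) := by
    rw [conj_mul, conj_mul, hτy]
  have hrb : r * b * r⁻¹ = b⁻¹ := conj_b_of_inv h.ru hb
  have hrN := h.r_conj_N
  have hrNt : r * ((n * r) * t) * r⁻¹ = n * r := by
    rw [← conj_mul, hrN, h.r_conj_t, mul_assoc, ht2, mul_one]
  have hNnot : n * r ∉ normalizer ((R : Subgroup G) : Set G) := by
    intro h0
    have h1 : (n * r) * t ∈ normalizer ((R : Subgroup G) : Set G) := mul_mem h0 htR
    have h2 := invol_inverts hc R (n * r) h0 hN2 hN1 u₁ hu₁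
    have h3 : ((n * r) * t) * u₁ * ((n * r) * t)⁻¹ = u₁ := by
      calc ((n * r) * t) * u₁ * ((n * r) * t)⁻¹ = (n * r) * (t * u₁ * t⁻¹) * (n * r)⁻¹ := by group
        _ = (n * r) * u₁⁻¹ * (n * r)⁻¹ := by rw [htinv]
        _ = ((n * r) * u₁ * (n * r)⁻¹)⁻¹ := by group
        _ = u₁ := by rw [h2, inv_inv]
    exact hu₁1 (no_fix hc R _ h1 h.Nt2 h.Nt1 u₁ hu₁ (comm_of_conj_eq h3))
  obtain ⟨x, Ux⟩ := exists_u hc (n * r) hN2 hN1
  rcases hb with hb1 | hb1
  · -- `b = 1` is impossible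
    exfalso
    apply hNnot
    have hNNc : (n * r) * (n * r) * (n * r)⁻¹ = n * r := by group
    have hNtc : (n * r) * ((n * r) * t) * (n * r)⁻¹ = (n * r) * t := by
      have h1 : (n * r) * t * (n * r)⁻¹ = t := conj_eq_of_comm htN.symm
      rw [← conj_mul, hNNc, h1]
    have hgen : ∀ τ' y : G, IsT3 y → y ∈ (R : Subgroup G) → τ' * τ' = 1 → τ' ≠ 1 → y * τ' = τ' * y →
        (n * r) * τ' * (n * r)⁻¹ = τ' → (n * r) * y * (n * r)⁻¹ ∈ (R : Subgroup G) := by
      intro τ' y hy hyR hτ'2 hτ'1 hyτ hNτ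
      have hU := isU_of_comm hc τ' y hτ'2 hτ'1 hy.1 hyτ
      have h1 : ((n * r) * y * (n * r)⁻¹) * τ' = τ' * ((n * r) * y * (n * r)⁻¹) := by
        have h2 : ((n * r) * y * (n * r)⁻¹) * ((n * r) * τ' * (n * r)⁻¹) =
            ((n * r) * τ' * (n * r)⁻¹) * ((n * r) * y * (n * r)⁻¹) := by
          rw [conj_mul, conj_mul, hyτ]
        rwa [hNτ] at h2
      have h3 : ((n * r) * y * (n * r)⁻¹) ^ 3 = 1 := by
        rw [conj_pow, cube_of_order_three hy.1]
        group
      rcases hU.uniq _ h1 h3 with h0 | h0 | h0 <;> rw [h0]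
      · exact one_mem _
      · exact hyR
      · exact inv_mem hyR
    have hτform : τ = n * r ∧ r * τ * r⁻¹ = (n * r) * t ∨ τ = (n * r) * t ∧ r * τ * r⁻¹ = n * r := by
      rcases hform with h0 | h0
      · left
        rw [hb1, mul_one] at h0
        rw [h0]
        exact ⟨rfl, hrN⟩
      · right
        rw [hb1, mul_one] at h0
        rw [h0]
        exact ⟨rfl, hrNt⟩
    have hτc : (n * r) * τ * (n * r)⁻¹ = τ ∧ (n * r) * (r * τ * r⁻¹) * (n * r)⁻¹ = r * τ * r⁻¹ := by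
      rcases hτform with ⟨h1, h2⟩ | ⟨h1, h2⟩ <;> rw [h2, h1]
      · exact ⟨hNNc, hNtc⟩
      · exact ⟨hNtc, hNNc⟩
    exact mem_normalizer_of_gen hc R u₁ (r * u₁ * r⁻¹) hu₁ hu₂R hu₁3 hu₂3 hne1 hne2 (n * r)
      (hgen τ u₁ hT hu₁ hτ2 hτ1 hτy.symm hτc.1)
      (hgen (r * τ * r⁻¹) _ hT2 hu₂R (conj_invol r hτ2) (conj_ne_one' r hτ1) hτ₂.symm hτc.2)
  · have hbinv : b⁻¹ = u ∨ b⁻¹ = u⁻¹ := by
      rcases hb1 with h0 | h0 <;> rw [h0]
      · exact Or.inr rfl
      · exact Or.inl (by simp)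
    rcases hform with h0 | h0
    · -- `τ = N b`: use `u₂`
      have hτ₂f : r * τ * r⁻¹ = (n * r) * t * b⁻¹ := by
        rw [h0, ← conj_mul, hrN, hrb]
      have h2 : (r * u₁ * r⁻¹) * ((n * r) * t * b⁻¹) = ((n * r) * t * b⁻¹) * (r * u₁ * r⁻¹) := by
        rw [← hτ₂f]
        exact hτ₂.symm
      have hex := h.key_star hc x Ux.ord Ux.comm b⁻¹ hbinv _ hu₂3 h2
      refine ⟨r * u₁ * r⁻¹, Or.inr rfl, ?_⟩
      exact h.final_cube hc x Ux _ hT2 ((n * r) * t) b⁻¹ (r * τ * r⁻¹) hτ₂f (conj_invol r hτ2) (conj_ne_one' r hτ1)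
        hτ₂.symm ((Commute.refl (n * r)).mul_left (show Commute t (n * r) from htN)).eq hbinv hex
    · -- `τ = N t b`: use `u₁`
      have h2 : u₁ * ((n * r) * t * b) = ((n * r) * t * b) * u₁ := by
        rw [← h0]
        exact hτy.symm
      have hex := h.key_star hc x Ux.ord Ux.comm b hb1 u₁ hu₁3 h2
      refine ⟨u₁, Or.inl rfl, ?_⟩
      exact h.final_cube hc x Ux _ hT ((n * r) * t) b τ h0 hτ2 hτ1 hτy.symm ((Commute.refl (n * r)).mul_left (show Commute t (n * r) from htN)).eq hb1 hex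

end Cen24

end Cfsg.Agent.Lib.A7Rec
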