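import Mathlib
import Cfsg.Agent.Lib.A7Rec.Star

/-!
# A simple group of order 2520 without a subgroup of index 7: the second relation
-/

set_option autoImplicit false
set_option linter.style.haveILetI false
set_option linter.unusedVariables false
set_option linter.unusedSectionVars false
set_option linter.unusedSimpArgs false

namespace Cfsg.Agent.Lib.A7Rec

open Subgroup Cfsg.Agent.Lib.SmallCen.SmallOrder Cfsg.Agent.Lib.SmallOrd
open Cfsg.Agent.Lib.Basic.SmallSimple Cfsg.Agent.Lib.SmallOrd.ClassSign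
open Cfsg.Agent.Lib.SmallOrd.InvolTools Cfsg.Agent.Lib.SmallOrd.OrderEight
open scoped Pointwise

variable {G : Type*} [Group G] [Finite G] [IsSimpleGroup G]

omit [Finite G] [IsSimpleGroup G] in
/-- A piece of algebra. -/
theorem alg_contra {A Q : G} (hA : A ^ 3 = 1) (hA1 : A ≠ 1) (hQ : Q * Q = 1) (hd : (A * Q) ^ 3 = 1)
    (hi : (A⁻¹ * (A * Q)⁻¹) * (A⁻¹ * (A * Q)⁻¹) = 1) : False := by
  have hQi : Q⁻¹ = Q := inv_eq_of_mul_eq_one_left hQ
  have hAA : A * A = A⁻¹ := by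
    rw [eq_inv_iff_mul_eq_one]
    calc A * A * A = A ^ 3 := by rw [show (3 : ℕ) = 2 + 1 from rfl, pow_succ, pow_two]
      _ = 1 := hA
  have hA' : A⁻¹ * A⁻¹ = A := by
    calc A⁻¹ * A⁻¹ = (A * A)⁻¹ := by group
      _ = A := by rw [hAA, inv_inv]
  have h1 : A⁻¹ * (A * Q)⁻¹ = A⁻¹ * Q * A⁻¹ := by
    rw [mul_inv_rev, hQi, mul_assoc]
  rw [h1] at hi
  have h2 : Q * A * Q = A⁻¹ := by
    have h3 : A⁻¹ * (Q * A * Q) * A⁻¹ = 1 := by
      calc A⁻¹ * (Q * A * Q) * A⁻¹ = A⁻¹ * Q * A * (Q * A⁻¹) := by group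
        _ = A⁻¹ * Q * (A⁻¹ * A⁻¹) * (Q * A⁻¹) := by rw [hA']
        _ = (A⁻¹ * Q * A⁻¹) * (A⁻¹ * Q * A⁻¹) := by group
        _ = 1 := hi
    calc Q * A * Q = A * (A⁻¹ * (Q * A * Q) * A⁻¹) * A := by group
      _ = A * A := by rw [h3]; group
      _ = A⁻¹ := hAA
  have h3 : (A * Q) * (A * Q) = 1 := by
    calc (A * Q) * (A * Q) = A * (Q * A * Q) := by group
      _ = 1 := by rw [h2]; group
  have h4 : A * Q = 1 := by
    calc A * Q = (A * Q) ^ 3 * ((A * Q) * (A * Q))⁻¹ := by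
          rw [show (3 : ℕ) = 2 + 1 from rfl, pow_succ, pow_two]; group
      _ = 1 := by rw [hd, h3]; group
  have h5 : A = Q := by
    have := eq_inv_of_mul_eq_one_left h4
    rwa [hQi] at this
  have h6 : A * A = 1 := by rw [h5]; exact hQ
  apply hA1
  calc A = A ^ 3 * (A * A)⁻¹ := by
        rw [show (3 : ℕ) = 2 + 1 from rfl, pow_succ, pow_two]; group
    _ = 1 := by rw [hA, h6]; group

omit [Finite G] [IsSimpleGroup G] in
theorem cube_expand (t ρ : G) : (t * ρ) ^ 3 = t * (ρ * t * ρ⁻¹) * (ρ * (ρ * t * ρ⁻¹) * ρ⁻¹) * (ρ * ρ * ρ) := by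
  rw [show (3 : ℕ) = 2 + 1 from rfl, pow_succ, pow_two]
  group

omit [Finite G] [IsSimpleGroup G] in
theorem cube_mul (ρ : G) : ρ * ρ * ρ = ρ ^ 3 := by
  rw [show (3 : ℕ) = 2 + 1 from rfl, pow_succ, pow_two]

omit [IsSimpleGroup G] in
/-- An element of order three normalizing a Sylow 3-subgroup lies in it. -/
theorem mem_of_order_three (R : Sylow 3 G) (g : G) (hg : orderOf g = 3)
    (hgN : g ∈ normalizer ((R : Subgroup G) : Set G)) : g ∈ (R : Subgroup G) := by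
  haveI : Fact (Nat.Prime 3) := ⟨by norm_num⟩
  have hP : IsPGroup 3 (zpowers g) := IsPGroup.of_card (n := 1) (by rw [Nat.card_zpowers, hg, pow_one])
  have h0 := hP.inf_normalizer_sylow R
  have h1 : g ∈ zpowers g ⊓ normalizer (R : Set G) := ⟨mem_zpowers g, hgN⟩
  rw [h0] at h1
  exact h1.2

namespace Cen24

variable {t r n u : G}

/-- The reflection moved by `n`, with a twist from `u`. -/
theorem reflb_conj (h : Cen24 t r n u) (b : G) (hb : b = 1 ∨ b = u ∨ b = u⁻¹) :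
    n * (n * r * b) * n⁻¹ = (n * r * b) * t := by
  have h1 : n * b * n⁻¹ = b := conj_eq_of_comm (conj_b_of_comm h.un hb)
  have h2 : b * t = t * b := by
    rcases hb with h0 | h0 | h0 <;> rw [h0]
    · simp
    · exact h.ut
    · exact h.uinv.ut
  calc n * (n * r * b) * n⁻¹ = (n * (n * r) * n⁻¹) * (n * b * n⁻¹) := by rw [conj_mul]
    _ = ((n * r) * t) * b := by rw [h.n_conj_N, h1]
    _ = (n * r) * (t * b) := by group
    _ = (n * r) * (b * t) := by rw [h2]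
    _ = _ := by group

/-- The reflection `N` does not normalize a Sylow 3-subgroup normalized by `t` with a `T₃` element. -/
theorem N_not_normalizer (hc : Ctx G) (h : Cen24 t r n u) (R : Sylow 3 G)
    (htR : t ∈ normalizer ((R : Subgroup G) : Set G)) (u₁ : G) (hu₁ : u₁ ∈ (R : Subgroup G)) (hu₁1 : u₁ ≠ 1) :
    n * r ∉ normalizer ((R : Subgroup G) : Set G) := by
  have hN2 := h.nr_invol
  have hN1 := h.nr_ne_one
  have htinv : t * u₁ * t⁻¹ = u₁⁻¹ := invol_inverts hc R t htR h.t2 h.t1 u₁ hu₁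
  intro h0
  have h1 : (n * r) * t ∈ normalizer ((R : Subgroup G) : Set G) := mul_mem h0 htR
  have h2 := invol_inverts hc R (n * r) h0 hN2 hN1 u₁ hu₁
  have h3 : ((n * r) * t) * u₁ * ((n * r) * t)⁻¹ = u₁ := by
    calc ((n * r) * t) * u₁ * ((n * r) * t)⁻¹ = (n * r) * (t * u₁ * t⁻¹) * (n * r)⁻¹ := by group
      _ = (n * r) * u₁⁻¹ * (n * r)⁻¹ := by rw [htinv]
      _ = ((n * r) * u₁ * (n * r)⁻¹)⁻¹ := by group
      _ = u₁ := by rw [h2, inv_inv]
  exact hu₁1 (no_fix hc R _ h1 h.Nt2 h.Nt1 u₁ hu₁ (comm_of_conj_eq h3))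

/-- `ρ` is not of type `T₃`. -/
theorem rho_not_T3 (hc : Ctx G) (h : Cen24 t r n u) (ρ : G) (hρ3 : ρ ^ 3 = 1) (hρt : ρ * t * ρ⁻¹ = n * r)
    (hρN : ρ * (n * r) * ρ⁻¹ = (n * r) * t) (ι : G) (hι : ι = n ∨ ι = n * t) (hιρ : ι * ρ * ι⁻¹ = ρ⁻¹) :
    ¬ IsT3 ρ := by
  intro hT
  have hρo := hT.1
  have hρ1 := ne_one_of_order_three hρo
  obtain ⟨a, c, V⟩ := hT.isV hc
  have hN2 := h.nr_invol
  have hN1 := h.nr_ne_one
  have ht2 := h.t2
  have hti := h.t_inv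
  have htN := h.N_t_comm
  have hV := isV_of_cen24 hc h
  have hι' : ι = n ∨ ι = t * n := by
    rcases hι with h0 | h0
    · exact Or.inl h0
    · right
      rw [h0]
      exact h.nt
  have hιp : ι * ι = 1 ∧ ι ≠ 1 ∧ ι * u = u * ι := by
    rcases hι' with h0 | h0 <;> rw [h0]
    · exact hV.mem_props n (Or.inr (Or.inl rfl))
    · exact hV.mem_props (t * n) (Or.inr (Or.inr rfl))
  obtain ⟨hι2, hι1, hιu⟩ := hιp
  have hιt : ι * t = t * ι := by
    rcases hι with h0 | h0 <;> rw [h0]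
    · exact h.nt
    · exact ((show Commute n t from h.nt).mul_left (Commute.refl t)).eq
  have hιnet : t ≠ ι := by
    intro h0
    rcases hι' with h1 | h1
    · exact hV.ab (h0.trans h1)
    · rw [h1] at h0
      have h2 : n = 1 := by
        have h3 : t * 1 = t * n := by rw [mul_one]; exact h0
        exact (mul_left_cancel h3).symm
      exact hV.b1 h2
  obtain ⟨τ, hτ, hτι⟩ := V.exists_fixed ι hι2 hιρ
  obtain ⟨hτ2, hτ1, hτρ⟩ := V.mem_props τ hτ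
  have hne : ρ ≠ ρ⁻¹ := by
    intro h0
    have h4 : ρ * ρ = 1 := by
      calc ρ * ρ = ρ * ρ⁻¹ := by rw [← h0]
        _ = 1 := by group
    apply hρ1
    calc ρ = ρ ^ 3 * (ρ * ρ)⁻¹ := by
          rw [show (3 : ℕ) = 2 + 1 from rfl, pow_succ, pow_two]; group
      _ = 1 := by rw [hρ3, h4]; group
  have hτne : τ ≠ ι := by
    intro h0
    rw [h0] at hτρ
    rw [conj_eq_of_comm hτρ] at hιρ
    exact hne hιρ
  have hUι : IsU ι u := isU_of_comm hc ι u hι2 hι1 h.ord_u hιu.symm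
  have hρtnot : ¬ (ρ * t = t * ρ) := by
    intro h0
    rw [conj_eq_of_comm h0] at hρt
    exact h.N_ne_t hρt.symm
  have hτu : τ * u * τ⁻¹ = u⁻¹ := by
    rcases hUι.conj_cases τ hτι with h0 | h0
    · exfalso
      have hU : IsU τ ρ := isU_of_comm hc τ ρ hτ2 hτ1 hρo hτρ.symm
      rcases hU.uniq u (comm_of_conj_eq h0).symm h.u3 with h1 | h1 | h1
      · exact ne_one_of_order_three h.ord_u h1
      · apply hρtnot
        rw [← h1]
        exact h.ut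
      · apply hρtnot
        have h5 : ρ = u⁻¹ := by rw [h1, inv_inv]
        rw [h5]
        exact h.uinv.ut
    · exact h0
  -- the frame around `ι`
  obtain ⟨r', n', u₀, H₀⟩ := exists_cen24' hc ι hι2 hι1
  have H := H₀.with_u u hιu.symm h.ord_u
  have Vu := isV_of_cen24 hc H
  have htlist := Vu.all t ht2 h.t1 h.ut.symm
  obtain ⟨b, hb, hτb⟩ := H.invol_inv hc τ hτι hτ2 hτu
  have hn'τ : n' * τ * n'⁻¹ = τ * ι := by
    rcases hτb with h0 | h0
    · rw [h0]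
      exact H.reflb_conj b hb
    · rw [h0]
      exact H.rinv.reflb_conj b hb
  have hD : t * τ * t⁻¹ = τ * ι := by
    rcases htlist with h0 | h0 | h0
    · exact (hιnet h0).elim
    · rw [h0]
      exact hn'τ
    · rw [h0]
      calc (ι * n') * τ * (ι * n')⁻¹ = ι * (n' * τ * n'⁻¹) * ι⁻¹ := by group
        _ = ι * (τ * ι) * ι⁻¹ := by rw [hn'τ]
        _ = ι * τ := by group
        _ = τ * ι := hτι.symm
  -- `d₀ = t ρ t⁻¹`
  have hd₀τ : (t * ρ * t⁻¹) * (τ * ι) = (τ * ι) * (t * ρ * t⁻¹) := by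
    rw [← hD, conj_mul, conj_mul, hτρ]
  have hρNt : ρ * ((n * r) * t) * ρ⁻¹ = t := by
    rw [← conj_mul, hρN, hρt]
    calc (n * r) * t * (n * r) = t * (n * r) * (n * r) := by rw [htN]
      _ = t * ((n * r) * (n * r)) := by group
      _ = t := by rw [hN2, mul_one]
  have hq : ρ⁻¹ * (t * ρ * t⁻¹) = n * r := by
    have h1 : ρ⁻¹ * t * ρ = (n * r) * t := by
      calc ρ⁻¹ * t * ρ = ρ⁻¹ * (ρ * ((n * r) * t) * ρ⁻¹) * ρ := by rw [hρNt]
        _ = _ := by group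
    calc ρ⁻¹ * (t * ρ * t⁻¹) = (ρ⁻¹ * t * ρ) * t⁻¹ := by group
      _ = (n * r) * t * t⁻¹ := by rw [h1]
      _ = n * r := by group
  obtain ⟨φ, hφ1, hφ2⟩ := cycle_general hc ι τ u hι2 hι1 hτ2 hτ1 hτι.symm hτne h.ord_u hιu.symm hτu
  have hΦτ : φ⁻¹ * τ * φ⁻¹⁻¹ = ι := by rw [← hφ1]; group
  have hΦτι : φ⁻¹ * (τ * ι) * φ⁻¹⁻¹ = τ := by rw [← hφ2]; group
  obtain ⟨A, hA⟩ : ∃ A, A = φ⁻¹ * ρ * φ⁻¹⁻¹ := ⟨_, rfl⟩
  obtain ⟨D, hD'⟩ : ∃ D, D = φ⁻¹ * (t * ρ * t⁻¹) * φ⁻¹⁻¹ := ⟨_, rfl⟩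
  obtain ⟨Q, hQ⟩ : ∃ Q, Q = φ⁻¹ * (n * r) * φ⁻¹⁻¹ := ⟨_, rfl⟩
  have hAo : orderOf A = 3 := by rw [hA, orderOf_conj', hρo]
  have hDo : orderOf D = 3 := by rw [hD', orderOf_conj', orderOf_conj', hρo]
  have hQ2 : Q * Q = 1 := by rw [hQ]; exact conj_invol _ hN2
  have hAι : A * ι = ι * A := by
    rw [← hΦτ, hA, conj_mul, conj_mul, hτρ.symm]
  have hDτ : D * τ = τ * D := by
    rw [hD']
    conv_lhs => rw [← hΦτι]
    conv_rhs => rw [← hΦτι]
    rw [conj_mul, conj_mul, hd₀τ]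
  have hAQ : A⁻¹ * D = Q := by
    rw [hA, hD', hQ, ← hq]
    group
  have hAQ' : A * Q = D := by
    rw [← hAQ]
    group
  have hUτ : IsU τ D := isU_of_comm hc τ D hτ2 hτ1 hDo hDτ
  have hιD : ι * D * ι⁻¹ = D⁻¹ := by
    rcases hUτ.conj_cases ι hτι.symm with h0 | h0
    · exfalso
      have h1 : D * ι = ι * D := (comm_of_conj_eq h0).symm
      have hu_ne := h.u_ne_inv
      rcases hUι.uniq D h1 (cube_of_order_three hDo) with h2 | h2 | h2
      · exact ne_one_of_order_three hDo h2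
      · rw [h2] at hDτ
        rw [conj_eq_of_comm hDτ.symm] at hτu
        exact hu_ne hτu
      · rw [h2] at hDτ
        have h3 : Commute τ u := by
          have h4 : Commute u⁻¹ τ := hDτ
          have h5 := h4.inv_left
          simpa using h5.symm
        rw [conj_eq_of_comm h3.eq] at hτu
        exact hu_ne hτu
    · exact h0
  have hιQ : ι * Q * ι⁻¹ = A⁻¹ * D⁻¹ := by
    rw [← hAQ]
    calc ι * (A⁻¹ * D) * ι⁻¹ = (ι * A * ι⁻¹)⁻¹ * (ι * D * ι⁻¹) := by group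
      _ = A⁻¹ * D⁻¹ := by rw [conj_eq_of_comm hAι.symm, hιD]
  have hinv := conj_invol ι hQ2
  rw [hιQ] at hinv
  apply alg_contra (A := A) (Q := Q) (cube_of_order_three hAo) (ne_one_of_order_three hAo) hQ2
  · rw [hAQ']
    exact cube_of_order_three hDo
  · rw [hAQ']
    exact hinv

/-- The relation from a frame. -/
theorem rel2_frame (hc : Ctx G) (h : Cen24 t r n u) :
    ∃ (R' : Sylow 3 G) (w' a ρ : G), w' ∈ normalizer ((R' : Subgroup G) : Set G) ∧ D8 w' a ∧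
      ρ ∈ (R' : Subgroup G) ∧ ρ ≠ 1 ∧ ¬ IsT3 ρ ∧ (a * ρ) ^ 3 = 1 := by
  classical
  haveI : Fact (Nat.Prime 3) := ⟨by norm_num⟩
  haveI : Fact (Nat.Prime 2) := ⟨Nat.prime_two⟩
  obtain ⟨ρ, hρ3, hρt, hρN⟩ := h.exists_rho hc
  obtain ⟨ι, hι, hιρ⟩ := h.rho_inverted hc ρ hρt hρN
  have hnT := h.rho_not_T3 hc ρ hρ3 hρt hρN ι hι hιρ
  have ht2 := h.t2
  have hN2 := h.nr_invol
  have htN := h.N_t_comm
  have hρ1 : ρ ≠ 1 := by
    rintro rfl
    apply h.N_ne_t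
    rw [← hρt]
    group
  have hρo : orderOf ρ = 3 := order_three_of_cube hρ3 hρ1
  have hV := isV_of_cen24 hc h
  have hι' : ι = n ∨ ι = t * n := by
    rcases hι with h0 | h0
    · exact Or.inl h0
    · right
      rw [h0]
      exact h.nt
  have hιp : ι * ι = 1 ∧ ι ≠ 1 ∧ ι * u = u * ι := by
    rcases hι' with h0 | h0 <;> rw [h0]
    · exact hV.mem_props n (Or.inr (Or.inl rfl))
    · exact hV.mem_props (t * n) (Or.inr (Or.inr rfl))
  obtain ⟨hι2, hι1, hιu⟩ := hιp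
  have hιnet : t ≠ ι := by
    intro h0
    rcases hι' with h1 | h1
    · exact hV.ab (h0.trans h1)
    · rw [h1] at h0
      have h2 : n = 1 := by
        have h3 : t * 1 = t * n := by rw [mul_one]; exact h0
        exact (mul_left_cancel h3).symm
      exact hV.b1 h2
  obtain ⟨R', hρR'⟩ := exists_sylow_mem (p := 3) ρ hρo
  obtain ⟨hRc, hRN, hRcomm⟩ := sylow_three hc R'
  have hRle : (R' : Subgroup G) ≤ centralizer ({ρ} : Set G) := by
    intro s hs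
    rw [Subgroup.mem_centralizer_singleton_iff]
    exact hRcomm s hs ρ hρR'
  have hCc : Nat.card (centralizer ({ρ} : Set G)) = 9 := by
    have hd : Nat.card (centralizer ({ρ} : Set G)) ∣ 2520 := by
      rw [← hc.card]
      exact Subgroup.card_subgroup_dvd_card _
    have h9 : 9 ∣ Nat.card (centralizer ({ρ} : Set G)) := by
      have := Subgroup.card_dvd_of_le hRle
      rwa [hRc] at this
    have h5 := five_not_dvd hc ρ (by rw [hρo]; norm_num)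
    have h7 := seven_not_dvd hc ρ (by rw [hρo]; norm_num)
    have h2 : ¬ 2 ∣ Nat.card (centralizer ({ρ} : Set G)) := by
      intro h0
      obtain ⟨x, hx⟩ := exists_prime_orderOf_dvd_card' (G := centralizer ({ρ} : Set G)) 2 h0
      have hxo : orderOf (x : G) = 2 := by rw [Subgroup.orderOf_coe, hx]
      have hxa : (x : G) * ρ = ρ * x := (Subgroup.mem_centralizer_singleton_iff).1 x.2
      apply hnT
      refine ⟨hρo, x, mul_self_of_order_two hxo, ?_, hxa.symm⟩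
      intro h1
      rw [h1, orderOf_one] at hxo
      omega
    have key : ∀ d ∈ (2520 : ℕ).divisors, 9 ∣ d → ¬ 2 ∣ d → ¬ 5 ∣ d → ¬ 7 ∣ d → d = 9 := by decide +kernel
    exact key _ (Nat.mem_divisors.2 ⟨hd, by norm_num⟩) h9 h2 h5 h7
  have hCeq : (R' : Subgroup G) = centralizer ({ρ} : Set G) :=
    Subgroup.eq_of_le_of_card_ge hRle (by rw [hCc, hRc])
  have hιN : ι ∈ normalizer ((R' : Subgroup G) : Set G) := by
    apply mem_normalizer_of_map
    intro y hy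
    rw [hCeq, Subgroup.mem_centralizer_singleton_iff]
    have h1 : y * ρ = ρ * y := (Subgroup.mem_centralizer_singleton_iff).1 (hRle hy)
    have h2 : (ι * y * ι⁻¹) * (ι * ρ * ι⁻¹) = (ι * ρ * ι⁻¹) * (ι * y * ι⁻¹) := by
      rw [conj_mul, conj_mul, h1]
    rw [hιρ] at h2
    have h3 := (show Commute (ι * y * ι⁻¹) ρ⁻¹ from h2).inv_right
    simpa using h3.eq
  obtain ⟨w', hw'N, hw'o, hw'w⟩ := exists_sqrt_in hc R' ι hιN hι2 hι1
  obtain ⟨S', hw'S⟩ := exists_sylow_of_order_four w' hw'o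
  obtain ⟨n', u', hn'S, H₀⟩ := exists_cen24 hc w' hw'o S' hw'S
  rw [hw'w] at H₀
  have H := H₀.with_u u hιu.symm h.ord_u
  have Vu := isV_of_cen24 hc H
  have hD : D8 w' t := by
    rcases Vu.all t ht2 h.t1 h.ut.symm with h0 | h0 | h0
    · exact (hιnet h0).elim
    · rw [h0]
      exact H.d8
    · have h1 : ι * n' = n' * (w' * w') := by
        rw [hw'w]
        exact H.nt.symm
      rw [h0, h1]
      exact H.d8.refl_of_mem _ (mul_mem (mem_zpowers w') (mem_zpowers w'))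
  refine ⟨R', w', t, ρ, hw'N, hD, hρR', hρ1, hnT, ?_⟩
  rw [cube_expand, hρt, hρN, cube_mul, hρ3, mul_one]
  calc t * (n * r) * ((n * r) * t) = t * ((n * r) * (n * r)) * t := by group
    _ = 1 := by rw [hN2, mul_one, ht2]

/-- The second relation, transported to a given frame. -/
theorem rel2 (hc : Ctx G) (h : Cen24 t r n u) (R : Sylow 3 G) (hrR : r ∈ normalizer ((R : Subgroup G) : Set G)) :
    ∃ w'' ∈ zpowers r, ∃ ρ' ∈ (R : Subgroup G), ρ' ≠ 1 ∧ ¬ IsT3 ρ' ∧ ((n * r) * w'' * ρ') ^ 3 = 1 := by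
  classical
  haveI : Fact (Nat.Prime 3) := ⟨by norm_num⟩
  haveI : Fact (Nat.Prime 2) := ⟨Nat.prime_two⟩
  obtain ⟨R', w', a, ρ, hw', hD, hρ, hρ1, hnT, hrel⟩ := h.rel2_frame hc
  obtain ⟨hRc, hRN, hRcomm⟩ := sylow_three hc R
  obtain ⟨hR'c, hR'N, hR'comm⟩ := sylow_three hc R'
  obtain ⟨G₁, -, hG₁⟩ := exists_conj_of_card (p := 3) (a := 2) (m := 280) (H := ⊤) (A := (R' : Subgroup G))
    (B := (R : Subgroup G)) le_top le_top (by rw [hR'c]; norm_num) (by rw [hRc]; norm_num)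
    (by rw [Subgroup.card_top, hc.card]; norm_num) (by norm_num)
  have hmap : (R' : Subgroup G).map (MulAut.conj G₁).toMonoidHom = (R : Subgroup G) := by
    apply Subgroup.eq_of_le_of_card_ge
    · rintro _ ⟨y, hy, rfl⟩
      exact hG₁ y hy
    · rw [Subgroup.card_map_of_injective (MulAut.conj G₁).injective, hRc, hR'c]
  have hWN : G₁ * w' * G₁⁻¹ ∈ normalizer ((R : Subgroup G) : Set G) := by
    apply mem_normalizer_of_map
    intro y hy
    rw [← hmap] at hy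
    obtain ⟨y₀, hy₀, rfl⟩ := hy
    have h1 := (mem_normalizer_iff.1 hw' y₀).1 hy₀
    have h2 := hG₁ _ h1
    have h3 : G₁ * w' * G₁⁻¹ * ((MulAut.conj G₁).toMonoidHom y₀) * (G₁ * w' * G₁⁻¹)⁻¹ =
        G₁ * (w' * y₀ * w'⁻¹) * G₁⁻¹ := by
      show G₁ * w' * G₁⁻¹ * (G₁ * y₀ * G₁⁻¹) * (G₁ * w' * G₁⁻¹)⁻¹ = _
      group
    rw [h3]
    exact h2
  have hWo : orderOf (G₁ * w' * G₁⁻¹) = 4 := by rw [orderOf_conj', hD.ord]
  obtain ⟨c, hcN, hcm⟩ := exists_conj_of_card (p := 2) (a := 2) (m := 9)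
    (H := normalizer ((R : Subgroup G) : Set G)) (A := zpowers (G₁ * w' * G₁⁻¹)) (B := zpowers r)
    ((Subgroup.zpowers_le).2 hWN) ((Subgroup.zpowers_le).2 hrR)
    (by rw [Nat.card_zpowers, hWo]; norm_num) (by rw [Nat.card_zpowers, h.ord_r]; norm_num)
    (by rw [hRN]; norm_num) (by norm_num)
  obtain ⟨G₀, hG₀⟩ : ∃ G₀, G₀ = c * G₁ := ⟨_, rfl⟩
  have hW₀ : G₀ * w' * G₀⁻¹ ∈ zpowers r := by
    have h1 := hcm _ (mem_zpowers (G₁ * w' * G₁⁻¹))
    have h2 : G₀ * w' * G₀⁻¹ = c * (G₁ * w' * G₁⁻¹) * c⁻¹ := by rw [hG₀]; group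
    rwa [h2]
  have hρ' : G₀ * ρ * G₀⁻¹ ∈ (R : Subgroup G) := by
    have h1 := (mem_normalizer_iff.1 hcN _).1 (hG₁ ρ hρ)
    have h2 : G₀ * ρ * G₀⁻¹ = c * (G₁ * ρ * G₁⁻¹) * c⁻¹ := by rw [hG₀]; group
    rwa [h2]
  have hD₀ := hD.conj G₀
  have hW₀o : orderOf (G₀ * w' * G₀⁻¹) = 4 := hD₀.ord
  have hW₀2 := hD₀.z1
  -- `a₀` inverts `r`
  have hinv : (G₀ * a * G₀⁻¹) * r * (G₀ * a * G₀⁻¹)⁻¹ = r⁻¹ := by
    have h0 := hD₀.inv
    rcases h.d8.zp_cases _ hW₀ with h1 | h1 | h1 | h1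
    · exfalso
      rw [h1] at hW₀2
      exact hW₀2 (mul_one 1)
    · rw [h1] at h0
      exact h0
    · exfalso
      have h2 := hD₀.r4
      rw [h1] at h2 hW₀2
      apply hW₀2
      rw [h.rt]
      exact h.t2
    · rw [h1] at h0
      have h2 : (G₀ * a * G₀⁻¹) * r * (G₀ * a * G₀⁻¹)⁻¹ = ((G₀ * a * G₀⁻¹) * r⁻¹ * (G₀ * a * G₀⁻¹)⁻¹)⁻¹ := by
        group
      rw [h2, h0, inv_inv]
  have hNinv := h.d8.refl.inv
  have hcomm : ((n * r) * (G₀ * a * G₀⁻¹)) * r = r * ((n * r) * (G₀ * a * G₀⁻¹)) := by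
    apply comm_of_conj_eq
    calc ((n * r) * (G₀ * a * G₀⁻¹)) * r * ((n * r) * (G₀ * a * G₀⁻¹))⁻¹
        = (n * r) * ((G₀ * a * G₀⁻¹) * r * (G₀ * a * G₀⁻¹)⁻¹) * (n * r)⁻¹ := by group
      _ = (n * r) * r⁻¹ * (n * r)⁻¹ := by rw [hinv]
      _ = ((n * r) * r * (n * r)⁻¹)⁻¹ := by group
      _ = r := by rw [hNinv, inv_inv]
  have hmem := h.comm_r hc _ hcomm
  refine ⟨_, hmem, G₀ * ρ * G₀⁻¹, hρ', conj_ne_one' G₀ hρ1, ?_, ?_⟩
  · intro hT
    apply hnT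
    have h1 := hT.conj G₀⁻¹
    have h2 : G₀⁻¹ * (G₀ * ρ * G₀⁻¹) * G₀⁻¹⁻¹ = ρ := by group
    rwa [h2] at h1
  · have h1 : (n * r) * ((n * r) * (G₀ * a * G₀⁻¹)) = G₀ * a * G₀⁻¹ := by
      rw [← mul_assoc, h.nr_invol, one_mul]
    rw [h1, conj_mul, conj_pow, hrel]
    group

end Cen24

end Cfsg.Agent.Lib.A7Rec
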