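import Mathlib
import Cfsg.Agent.Lib.A7Rec.RelTwo
import Cfsg.Agent.Lib.A7Rec.Closure

/-!
# A simple group of order 2520 has a subgroup of index 7
-/

set_option autoImplicit false
set_option linter.style.haveILetI false
set_option linter.unusedVariables false
set_option linter.unusedSectionVars false
set_option linter.unusedSimpArgs false

namespace Cfsg.Agent.Lib.A7Rec

open Subgroup Cfsg.Agent.Lib.SmallCen.SmallOrder Cfsg.Agent.Lib.SmallOrd
open Cfsg.Agent.Lib.Basic.SmallSimple Cfsg.Agent.Lib.SmallOrd.ClassSign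
open Cfsg.Agent.Lib.SmallOrd.InvolTools Cfsg.Agent.Lib.SmallOrd.OrderEight
open scoped Pointwise

variable {G : Type*} [Group G] [Finite G] [IsSimpleGroup G]

omit [Finite G] [IsSimpleGroup G] in
/-- From the two relations, all elements of `R` are good. -/
theorem good_all [Finite G] (B R : Subgroup G) (w N u₁ u₂ : G) (hN2 : N * N = 1) (hnw : N * w * N⁻¹ = w⁻¹) (hwB : w ∈ B)
    (h12 : w * u₁ * w⁻¹ = u₂) (h21 : w * u₂ * w⁻¹ = u₁⁻¹) (hcomm : u₁ * u₂ = u₂ * u₁)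
    (hT : Car B N (N * u₁ * N) ∨ Car B N (N * u₂ * N))
    (hρ : ∃ a, (a = u₁ ∨ a = u₁⁻¹) ∧ ∃ b, (b = u₂ ∨ b = u₂⁻¹) ∧ Car B N (N * (a * b) * N))
    (hgen : ∀ β ∈ R, ∃ a, (a = 1 ∨ a = u₁ ∨ a = u₁⁻¹) ∧ ∃ b, (b = 1 ∨ b = u₂ ∨ b = u₂⁻¹) ∧ β = a * b) :
    ∀ β ∈ R, Car B N (N * β * N) := by
  have hstep : ∀ β, Car B N (N * β * N) → Car B N (N * (w * β * w⁻¹) * N) := fun β h =>
    good_conj hN2 hnw hwB h
  have h1i : w * u₁⁻¹ * w⁻¹ = u₂⁻¹ := by
    calc w * u₁⁻¹ * w⁻¹ = (w * u₁ * w⁻¹)⁻¹ := by group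
      _ = _ := by rw [h12]
  have h2i : w * u₂⁻¹ * w⁻¹ = u₁ := by
    calc w * u₂⁻¹ * w⁻¹ = (w * u₂ * w⁻¹)⁻¹ := by group
      _ = _ := by rw [h21, inv_inv]
  have hc' : Commute u₁ u₂ := hcomm
  have g1 : Car B N (N * u₁ * N) → Car B N (N * u₂ * N) := fun h => by
    have := hstep _ h
    rwa [h12] at this
  have g2 : Car B N (N * u₂ * N) → Car B N (N * u₁⁻¹ * N) := fun h => by
    have := hstep _ h
    rwa [h21] at this
  have g3 : Car B N (N * u₁⁻¹ * N) → Car B N (N * u₂⁻¹ * N) := fun h => by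
    have := hstep _ h
    rwa [h1i] at this
  have g4 : Car B N (N * u₂⁻¹ * N) → Car B N (N * u₁ * N) := fun h => by
    have := hstep _ h
    rwa [h2i] at this
  have gu1 : Car B N (N * u₁ * N) := by
    rcases hT with h | h
    · exact h
    · exact g4 (g3 (g2 h))
  have gu2 := g1 gu1
  have gu1i := g2 gu2
  have gu2i := g3 gu1i
  have p1 : Car B N (N * (u₁ * u₂) * N) → Car B N (N * (u₁⁻¹ * u₂) * N) := fun h => by
    have := hstep _ h
    have h3 : w * (u₁ * u₂) * w⁻¹ = u₁⁻¹ * u₂ := by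
      rw [← conj_mul, h12, h21]
      exact hc'.inv_left.eq.symm
    rwa [h3] at this
  have p2 : Car B N (N * (u₁⁻¹ * u₂) * N) → Car B N (N * (u₁⁻¹ * u₂⁻¹) * N) := fun h => by
    have := hstep _ h
    have h3 : w * (u₁⁻¹ * u₂) * w⁻¹ = u₁⁻¹ * u₂⁻¹ := by
      rw [← conj_mul, h1i, h21]
      exact hc'.inv_left.inv_right.eq.symm
    rwa [h3] at this
  have p3 : Car B N (N * (u₁⁻¹ * u₂⁻¹) * N) → Car B N (N * (u₁ * u₂⁻¹) * N) := fun h => by
    have := hstep _ h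
    have h3 : w * (u₁⁻¹ * u₂⁻¹) * w⁻¹ = u₁ * u₂⁻¹ := by
      rw [← conj_mul, h1i, h2i]
      exact hc'.inv_right.eq.symm
    rwa [h3] at this
  have p4 : Car B N (N * (u₁ * u₂⁻¹) * N) → Car B N (N * (u₁ * u₂) * N) := fun h => by
    have := hstep _ h
    have h3 : w * (u₁ * u₂⁻¹) * w⁻¹ = u₁ * u₂ := by
      rw [← conj_mul, h12, h2i]
      exact hc'.eq.symm
    rwa [h3] at this
  have gp1 : Car B N (N * (u₁ * u₂) * N) := by
    obtain ⟨a, ha, b, hb, hab⟩ := hρ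
    rcases ha with rfl | rfl <;> rcases hb with rfl | rfl
    · exact hab
    · exact p4 hab
    · exact p4 (p3 (p2 hab))
    · exact p4 (p3 hab)
  have gp2 := p1 gp1
  have gp3 := p2 gp2
  have gp4 := p3 gp3
  intro β hβ
  obtain ⟨a, ha, b, hb, rfl⟩ := hgen β hβ
  rcases ha with rfl | rfl | rfl <;> rcases hb with rfl | rfl | rfl
  · simp only [mul_one, hN2]
    exact Or.inl (one_mem _)
  · simpa using gu2
  · simpa using gu2i
  · simpa using gu1
  · exact gp1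
  · exact gp4
  · simpa using gu1i
  · exact gp2
  · exact gp3

/-- There is no simple group of order 2520 without a subgroup of index 7. -/
theorem main_contra (hc : Ctx G) : False := by
  classical
  haveI : Fact (Nat.Prime 3) := ⟨by norm_num⟩
  haveI : Fact (Nat.Prime 2) := ⟨Nat.prime_two⟩
  obtain ⟨R⟩ : Nonempty (Sylow 3 G) := inferInstance
  obtain ⟨hRc, hRN, hRcomm⟩ := sylow_three hc R
  obtain ⟨w, hwN, hwo⟩ := exists_w hc R
  obtain ⟨S, hwS⟩ := exists_sylow_of_order_four w hwo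
  obtain ⟨n₁, u, hn₁S, H₀⟩ := exists_cen24 hc w hwo S hwS
  obtain ⟨t, ht⟩ : ∃ t, t = w * w := ⟨_, rfl⟩
  rw [← ht] at H₀
  have H := H₀
  have htR : t ∈ normalizer ((R : Subgroup G) : Set G) := by
    rw [ht]
    exact mul_mem hwN hwN
  obtain ⟨u₁, hu₁R, hT⟩ := exists_T3_in hc R
  have hu₁3 := hT.1
  have hu₁1 := ne_one_of_order_three hu₁3
  have hNnot := H.N_not_normalizer hc R htR u₁ hu₁R hu₁1
  have ht2 := H.t2
  have ht1 := H.t1
  have hnofix : ∀ e ∈ (R : Subgroup G), e ≠ 1 → ¬ (t * e = e * t) := fun e he he1 h0 =>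
    he1 (no_fix hc R t htR ht2 ht1 e he h0)
  have htinv : ∀ e ∈ (R : Subgroup G), t * e * t⁻¹ = e⁻¹ := fun e he =>
    invol_inverts hc R t htR ht2 ht1 e he
  have hord : ∀ e ∈ (R : Subgroup G), e ≠ 1 → orderOf e = 3 := fun e he he1 =>
    order_three_of_cube (sylow3_exp hc R e he) he1
  obtain ⟨hne1, hne2⟩ := conj_ne_of_sq H.rt (hnofix u₁ hu₁R hu₁1)
  obtain ⟨u₂, hu₂⟩ : ∃ u₂, u₂ = w * u₁ * w⁻¹ := ⟨_, rfl⟩
  have hu₂R : u₂ ∈ (R : Subgroup G) := by
    rw [hu₂]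
    exact (mem_normalizer_iff.1 hwN u₁).1 hu₁R
  have hT2 : IsT3 u₂ := by
    rw [hu₂]
    exact hT.conj w
  have hu₂3 := hT2.1
  have h21 : w * u₂ * w⁻¹ = u₁⁻¹ := by
    rw [hu₂, ← htinv u₁ hu₁R, ht]
    group
  obtain ⟨N, hN⟩ : ∃ N, N = n₁ * w := ⟨_, rfl⟩
  have hN2 : N * N = 1 := by rw [hN]; exact H.nr_invol
  have hnw : N * w * N⁻¹ = w⁻¹ := by rw [hN]; exact H.d8.refl.inv
  have hw4 : w ^ 4 = 1 := by rw [← hwo]; exact pow_orderOf_eq_one w
  have hNni : N ∉ normalizer ((R : Subgroup G) : Set G) := by rw [hN]; exact hNnot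
  have hNi : N⁻¹ = N := inv_of_invol hN2
  have hRB : (R : Subgroup G) ≤ normalizer ((R : Subgroup G) : Set G) := Subgroup.le_normalizer
  have hWB : zpowers w ≤ normalizer ((R : Subgroup G) : Set G) := (Subgroup.zpowers_le).2 hwN
  have hgood : ∀ β ∈ (R : Subgroup G), ∀ w' ∈ zpowers w, (N * w' * β) ^ 3 = 1 →
      Car (normalizer ((R : Subgroup G) : Set G)) N (N * β * N) := fun β hβ w' hw' h0 =>
    good_of_rel hN2 hnw hwN hw4 hw' (hRB hβ) h0
  have hgen0 : ∀ β ∈ (R : Subgroup G), ∃ a, (a = 1 ∨ a = u₁ ∨ a = u₁⁻¹) ∧ ∃ b, (b = 1 ∨ b = u₂ ∨ b = u₂⁻¹) ∧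
      β = a * b := by
    intro β hβ
    have hne1' : u₂ ≠ u₁ := by rw [hu₂]; exact hne1
    have hne2' : u₂ ≠ u₁⁻¹ := by rw [hu₂]; exact hne2
    obtain ⟨a, ha, b, hb, rfl⟩ := sylow3_gen hc R u₁ u₂ hu₁R hu₂R hu₁3 hu₂3 hne1' hne2' β hβ
    exact ⟨a, zp3 hu₁3 ha, b, zp3 hu₂3 hb, rfl⟩
  have hkey : ∀ β ∈ (R : Subgroup G), Car (normalizer ((R : Subgroup G) : Set G)) N (N * β * N) := by
    apply good_all _ _ w N u₁ u₂ hN2 hnw hwN hu₂.symm h21 (hRcomm _ hu₁R _ hu₂R)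
    · -- the first relation
      obtain ⟨e, he, hecube⟩ := H.rel1 hc R hwN u₁ hu₁R hT
      rw [← hN] at hecube
      rcases he with he | he
      · left
        rw [← he]
        refine hgood e (he ▸ hu₁R) 1 (one_mem _) ?_
        simpa using hecube
      · right
        rw [← hu₂] at he
        rw [← he]
        refine hgood e (he ▸ hu₂R) 1 (one_mem _) ?_
        simpa using hecube
    · -- the second relation
      obtain ⟨w'', hw'', ρ', hρ'R, hρ'1, hρ'T, hρ'rel⟩ := H.rel2 hc R hwN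
      rw [← hN] at hρ'rel
      have hg := hgood ρ' hρ'R w'' hw'' hρ'rel
      obtain ⟨a, ha, b, hb, hρ'ab⟩ := hgen0 ρ' hρ'R
      have hT1i : IsT3 u₁⁻¹ := hT.inv
      have hT2i : IsT3 u₂⁻¹ := hT2.inv
      rcases ha with ha | ha | ha
      · exfalso
        rw [ha, one_mul] at hρ'ab
        rcases hb with hb | hb | hb <;> rw [hb] at hρ'ab
        · exact hρ'1 hρ'ab
        · exact hρ'T (hρ'ab ▸ hT2)
        · exact hρ'T (hρ'ab ▸ hT2i)
      · rcases hb with hb | hb | hb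
        · exfalso
          rw [hb, mul_one, ha] at hρ'ab
          exact hρ'T (hρ'ab ▸ hT)
        · exact ⟨a, Or.inl ha, b, Or.inl hb, hρ'ab ▸ hg⟩
        · exact ⟨a, Or.inl ha, b, Or.inr hb, hρ'ab ▸ hg⟩
      · rcases hb with hb | hb | hb
        · exfalso
          rw [hb, mul_one, ha] at hρ'ab
          exact hρ'T (hρ'ab ▸ hT1i)
        · exact ⟨a, Or.inr ha, b, Or.inl hb, hρ'ab ▸ hg⟩
        · exact ⟨a, Or.inr ha, b, Or.inr hb, hρ'ab ▸ hg⟩
    · exact hgen0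
  have hB : ∀ g ∈ normalizer ((R : Subgroup G) : Set G), ∃ β ∈ (R : Subgroup G), ∃ w' ∈ zpowers w, g = β * w' := by
    intro g hg
    exact mul_surj hRB hWB (by rw [hRc, Nat.card_zpowers, hwo, hRN]) (by rw [hRc, Nat.card_zpowers, hwo]; norm_num) g hg
  have hRn : ∀ g ∈ normalizer ((R : Subgroup G) : Set G), ∀ β ∈ (R : Subgroup G), g * β * g⁻¹ ∈ (R : Subgroup G) :=
    fun g hg β hβ => (mem_normalizer_iff.1 hg β).1 hβ
  have hdisj : ∀ e ∈ (R : Subgroup G), N * e * N⁻¹ ∈ normalizer ((R : Subgroup G) : Set G) → e = 1 := by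
    intro e he hNe
    by_contra he1
    have he3 := hord e he he1
    have hNeR : N * e * N⁻¹ ∈ (R : Subgroup G) :=
      mem_of_order_three R _ (by rw [orderOf_conj', he3]) hNe
    obtain ⟨hne3, hne4⟩ := conj_ne_of_sq H.rt (hnofix e he he1)
    have hwe : w * e * w⁻¹ ∈ (R : Subgroup G) := (mem_normalizer_iff.1 hwN e).1 he
    apply hNni
    refine mem_normalizer_of_gen hc R e (w * e * w⁻¹) he hwe he3 (by rw [orderOf_conj', he3]) hne3 hne4 N hNeR ?_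
    have h1 : N * (w * e * w⁻¹) * N⁻¹ = w⁻¹ * (N * e * N⁻¹) * w⁻¹⁻¹ := by
      calc N * (w * e * w⁻¹) * N⁻¹ = (N * w * N⁻¹) * (N * e * N⁻¹) * (N * w * N⁻¹)⁻¹ := by group
        _ = _ := by rw [hnw]
    rw [h1]
    exact (mem_normalizer_iff.1 (inv_mem hwN) _).1 hNeR
  obtain ⟨M, hM⟩ := closure_main (R : Subgroup G) (normalizer ((R : Subgroup G) : Set G)) w N hRB hB hwN hRn hN2 hnw
    hNni hdisj hkey
  rw [hRN, hRc] at hM
  apply hc.no7 M
  have h1 := Subgroup.index_mul_card M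
  rw [hM, hc.card] at h1
  omega

end Cfsg.Agent.Lib.A7Rec
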